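import Cfsg.Agent.Lib.Char.ThreeDeg.Tools
import Cfsg.Agent.Lib.CharClifford.Correspondence
import Cfsg.Agent.Lib.CharClifford.Extend
import Cfsg.Agent.Lib.Char.Ito
import Cfsg.Agent.Lib.Coprime.Action

/-!
# Degree antichains with an automorphism fixing the nonlinear characters: basic facts
-/

set_option autoImplicit false
set_option linter.unusedSectionVars false
set_option linter.style.haveILetI false

namespace Cfsg.Agent.Lib.Char.Disconn

open Cfsg Cfsg.Agent.Lib Cfsg.Agent.Lib.Char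
open Cfsg.Agent.Lib.Char.TwoDegPrime (lf lf_inj cj lf_cj cj_apply St mem_St eq_of_forall_hom)
open scoped commutatorElement

universe u

variable {N : Type u} [Group N] [Finite N]

/-- The data: an automorphism `g` of `N`. -/
structure Good (p f : ℕ) (g : N ≃* N) (n0 : N) (K : Subgroup N) : Prop where
  prime : p.Prime
  normal : K.Normal
  comm_le : commutator N ≤ K
  ne_top : K ≠ ⊤
  gmem : ∀ x ∈ K, g x ∈ K
  pow : ∀ x : N, ∃ k : ℕ, x ^ p ^ k ∈ K
  fpf : ∀ x : N, g x * x⁻¹ ∈ K → x ∈ K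
  iter : ∀ x : N, g^[f] x = n0 * x * n0⁻¹
  inv : ∀ θ : IrrCharacter N, charDegree (θ : N → ℂ) ≠ 1 → ∀ x, (θ : N → ℂ) (g x) = (θ : N → ℂ) x
  dvd : ∀ θ : IrrCharacter N, charDegree (θ : N → ℂ) ≠ 1 → p ∣ charDegree (θ : N → ℂ)
  cop : ∀ θ : IrrCharacter N, charDegree (θ : N → ℂ) ≠ 1 → (charDegree (θ : N → ℂ)).Coprime f
  anti : ∀ θ θ' : IrrCharacter N, charDegree (θ : N → ℂ) ≠ 1 →
    charDegree (θ : N → ℂ) ∣ charDegree (θ' : N → ℂ) →
    charDegree (θ : N → ℂ) = charDegree (θ' : N → ℂ)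

/-- Only one nonlinear degree. -/
def Single (N : Type u) [Group N] : Prop :=
  ∀ θ θ' : IrrCharacter N, charDegree (θ : N → ℂ) ≠ 1 → charDegree (θ' : N → ℂ) ≠ 1 →
    charDegree (θ : N → ℂ) = charDegree (θ' : N → ℂ)

theorem exists_linear_ne {x y : N} (h : x * y⁻¹ ∉ commutator N) :
    ∃ l : N →* ℂˣ, l x ≠ l y := by
  by_contra hno
  push Not at hno
  refine h ((QuotientGroup.eq_one_iff _).1 ?_)
  refine eq_of_forall_hom (B := Abelianization N) (fun a b => mul_comm a b) fun l => ?_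
  have := hno (l.comp (Abelianization.of : N →* Abelianization N))
  rw [MonoidHom.comp_apply, MonoidHom.comp_apply] at this
  have h2 : l (Abelianization.of (x * y⁻¹)) = l 1 := by
    rw [map_mul, map_mul, map_inv, map_inv, this, mul_inv_cancel, map_one]
  exact h2

/-- A character separating a point of an abelian section. -/
theorem exists_char_ne {A : Subgroup N} (M : Subgroup N) (hM : ⁅A, A⁆ ≤ M) {a : A}
    (ha : (a : N) ∉ M) (hMn : ∀ x ∈ A, ∀ m ∈ M, x * m * x⁻¹ ∈ M) :
    ∃ l : A →* ℂˣ, (∀ m : A, (m : N) ∈ M → l m = 1) ∧ l a ≠ 1 := by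
  haveI : (M.subgroupOf A).Normal := ⟨fun m hm x => hMn x x.2 m hm⟩
  by_contra hno
  push Not at hno
  refine ha ?_
  have h1 : ((a : A) : A ⧸ M.subgroupOf A) = 1 := by
    refine eq_of_forall_hom (fun u v => ?_) fun l => ?_
    · obtain ⟨u, rfl⟩ := QuotientGroup.mk_surjective u
      obtain ⟨v, rfl⟩ := QuotientGroup.mk_surjective v
      rw [← QuotientGroup.mk_mul, ← QuotientGroup.mk_mul, QuotientGroup.eq, Subgroup.mem_subgroupOf]
      refine hM ?_
      have : (((u * v)⁻¹ * (v * u) : A) : N) = ⁅(v : N)⁻¹, (u : N)⁻¹⁆ := by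
        push_cast; rw [commutatorElement_def]; group
      rw [this]
      exact Subgroup.commutator_mem_commutator (A.inv_mem v.2) (A.inv_mem u.2)
    · have := hno (l.comp (QuotientGroup.mk' _)) (fun m hm => by
        rw [MonoidHom.comp_apply, QuotientGroup.mk'_apply,
          (QuotientGroup.eq_one_iff m).2 (Subgroup.mem_subgroupOf.2 hm), map_one])
      simpa using this
  exact Subgroup.mem_subgroupOf.1 ((QuotientGroup.eq_one_iff a).1 h1)

variable {p f : ℕ} {g : N ≃* N} {n0 : N} {K : Subgroup N}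

/-- Nonlinear characters vanish at moved points. -/
theorem Good.vanish (hG : Good p f g n0 K) {u : N} (hu : g u * u⁻¹ ∉ commutator N)
    (θ : IrrCharacter N) (hθ : charDegree (θ : N → ℂ) ≠ 1) : (θ : N → ℂ) u = 0 := by
  haveI := Fintype.ofFinite N
  obtain ⟨l, hl⟩ := exists_linear_ne hu
  have hi := isIrrCharacter_linear_mul θ.2 l
  have hdeg : charDegree (fun x => (l x : ℂ) * (θ : N → ℂ) x) = charDegree (θ : N → ℂ) :=
    charDegree_eq_of_apply_one (by
      rw [map_one, Units.val_one, one_mul, apply_one_eq_charDegree (isCharacter_of_isIrr θ.2)])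
  have h1 := hG.inv ⟨_, hi⟩ (by show charDegree (fun x => (l x : ℂ) * (θ : N → ℂ) x) ≠ 1; rwa [hdeg]) u
  simp only [hG.inv θ hθ u] at h1
  by_contra h0
  exact hl (Units.ext (mul_right_cancel₀ h0 h1))

/-- Coprime commuting elements: a moved point centralises nothing in the derived group, modulo
any normal subgroup. -/
theorem Good.cent_rel (hG : Good p f g n0 K) (M : Subgroup N) [M.Normal] {u y : N}
    (hu : g u * u⁻¹ ∉ commutator N) (hy : y ∈ commutator N) (hc : ⁅u, y⁆ ∈ M)
    (hco : (orderOf u).Coprime (orderOf y)) : y ∈ M := by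
  haveI := Fintype.ofFinite N
  have hu' : g (u * y) * (u * y)⁻¹ ∉ commutator N := fun h => hu (by
    have hgy : g y ∈ commutator N := by
      have : (commutator N).map g.toMonoidHom = commutator N := by
        rw [← derivedSeries_one, map_derivedSeries_eq g.surjective]
      rw [← this]; exact ⟨y, hy, rfl⟩
    have e : g u * u⁻¹ = (g u * (g y)⁻¹ * (g u)⁻¹) * (g (u * y) * (u * y)⁻¹) * (u * y * u⁻¹) := by
      rw [map_mul]; group
    rw [e]
    exact mul_mem (mul_mem ((inferInstance : (commutator N).Normal).conj_mem _ (inv_mem hgy) _) h)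
      ((inferInstance : (commutator N).Normal).conj_mem _ hy _))
  have hconj : IsConj u (u * y) := by
    refine (isConj_iff_forall_irr _ _).2 fun χ => ?_
    by_cases h1 : charDegree (χ : N → ℂ) = 1
    · obtain ⟨l, hl⟩ := exists_hom_of_degree_one (isCharacter_of_isIrr χ.2)
        (by rw [apply_one_eq_charDegree (isCharacter_of_isIrr χ.2), h1, Nat.cast_one])
      have hly : l y = 1 := by
        have := Abelianization.commutator_subset_ker l hy
        exact MonoidHom.mem_ker.1 this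
      rw [hl, hl, map_mul, hly, mul_one]
    · rw [hG.vanish hu χ h1, hG.vanish hu' χ h1]
  obtain ⟨c, hc'⟩ := isConj_iff.1 hconj
  set π := QuotientGroup.mk' M
  have hcm : Commute (π u) (π y) := by
    have : π ⁅u, y⁆ = 1 := (QuotientGroup.eq_one_iff _).2 hc
    rw [map_commutatorElement] at this
    exact commutatorElement_eq_one_iff_mul_comm.1 this
  have hco' : (orderOf (π u)).Coprime (orderOf (π y)) :=
    (hco.coprime_dvd_left (orderOf_map_dvd π u)).coprime_dvd_right (orderOf_map_dvd π y)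
  have h1 := hcm.orderOf_mul_eq_mul_orderOf_of_coprime hco'
  have h2 : orderOf (π u * π y) = orderOf (π u) := by
    rw [← map_mul, ← hc', map_mul, map_mul, map_inv]
    exact (SemiconjBy.orderOf_eq (π c) (by simp [SemiconjBy])).symm
  rw [h2] at h1
  have h3 : orderOf (π y) = 1 :=
    (Nat.eq_of_mul_eq_mul_left (orderOf_pos (π u)) (h1.symm.trans (mul_one _).symm))
  exact (QuotientGroup.eq_one_iff y).1 (orderOf_eq_one_iff.1 h3)

theorem Good.moved (hG : Good p f g n0 K) {x : N} (hx : x ∉ K) : g x * x⁻¹ ∉ commutator N :=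
  fun h => hx (hG.fpf x (hG.comm_le h))

/-- A power prime to `p` of an element outside `K` is outside `K`. -/
theorem Good.exists_pelt (hG : Good p f g n0 K) {x : N} (hx : x ∉ K) :
    ∃ j : ℕ, (∃ k, (x ^ j) ^ p ^ k = 1) ∧ x ^ j ∉ K := by
  refine ⟨ordCompl[p] (orderOf x), ⟨(orderOf x).factorization p, ?_⟩, fun h => hx ?_⟩
  · rw [← pow_mul, mul_comm, Nat.ordProj_mul_ordCompl_eq_self, pow_orderOf_eq_one]
  · obtain ⟨k, hk⟩ := hG.pow x
    have hco : (p ^ k).Coprime (ordCompl[p] (orderOf x)) :=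
      (Nat.coprime_ordCompl hG.prime (orderOf_pos x).ne').pow_left k
    have := Nat.gcd_eq_gcd_ab (p ^ k) (ordCompl[p] (orderOf x))
    rw [hco] at this
    have e : x = (x ^ p ^ k) ^ Nat.gcdA (p ^ k) (ordCompl[p] (orderOf x)) *
        (x ^ ordCompl[p] (orderOf x)) ^ Nat.gcdB (p ^ k) (ordCompl[p] (orderOf x)) := by
      rw [← zpow_natCast x (p ^ k), ← zpow_natCast x (ordCompl[p] (orderOf x)), ← zpow_mul,
        ← zpow_mul, ← zpow_add, ← this, Nat.cast_one, zpow_one]
    rw [e]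
    exact mul_mem (zpow_mem hk _) (zpow_mem h _)

theorem coprime_of_pelt (hp : p.Prime) {x y : N} (hx : ∃ k, x ^ p ^ k = 1)
    (hy : ¬ p ∣ orderOf y) : (orderOf x).Coprime (orderOf y) := by
  obtain ⟨k, hk⟩ := hx
  obtain ⟨i, -, hi⟩ := (Nat.dvd_prime_pow hp).1 (orderOf_dvd_of_pow_eq_one hk)
  rw [hi]
  exact ((hp.coprime_iff_not_dvd).2 hy).pow_left i

theorem not_dvd_orderOf {A : Subgroup N} (h : ¬ p ∣ Nat.card A) {a : N} (ha : a ∈ A) :
    ¬ p ∣ orderOf a := fun hd => h (hd.trans (by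
  rw [← Subgroup.orderOf_mk a ha]; exact orderOf_dvd_natCard _))

/-- If `x` is fixed-point-free on `A / M`, it fixes no nontrivial character of `A / M`. -/
theorem eq_one_of_fixed {A M : Subgroup N} [A.Normal] [M.Normal] (hM : ⁅A, A⁆ ≤ M) (x : N)
    (hfree : ∀ a ∈ A, ⁅x, a⁆ ∈ M → a ∈ M) (l : A →* ℂˣ) (hl : ∀ m : A, (m : N) ∈ M → l m = 1)
    (hfix : cj A x l = l) : l = 1 := by
  haveI : (M.subgroupOf A).Normal := ‹M.Normal›.subgroupOf A
  let δ : A → A ⧸ M.subgroupOf A := fun a => QuotientGroup.mk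
    ⟨⁅x, (a : N)⁆, by
      rw [commutatorElement_def]
      exact mul_mem ((inferInstance : A.Normal).conj_mem _ a.2 x) (inv_mem a.2)⟩
  have hcm : ∀ u v : A, (u : N) * v * (u : N)⁻¹ * (v : N)⁻¹ ∈ M := fun u v => hM (by
    rw [← commutatorElement_def]; exact Subgroup.commutator_mem_commutator u.2 v.2)
  let δ' : A ⧸ M.subgroupOf A → A ⧸ M.subgroupOf A := Quotient.lift δ (by
    intro a b hab
    replace hab := Subgroup.mem_subgroupOf.1 (QuotientGroup.leftRel_apply.1 hab)
    show QuotientGroup.mk _ = QuotientGroup.mk _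
    rw [QuotientGroup.eq, Subgroup.mem_subgroupOf]
    set m := ((a⁻¹ * b : A) : N) with hm
    have hb : (b : N) = a * m := by rw [hm]; push_cast; group
    push_cast
    rw [commutatorElement_def, commutatorElement_def, hb]
    have e : (x * (a : N) * x⁻¹ * (a : N)⁻¹)⁻¹ * (x * ((a : N) * m) * x⁻¹ * ((a : N) * m)⁻¹) =
        (a : N) * ((x * m * x⁻¹) * m⁻¹) * (a : N)⁻¹ := by group
    rw [e]
    exact ‹M.Normal›.conj_mem _ (mul_mem (‹M.Normal›.conj_mem m hab x) (inv_mem hab)) _)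
  have hinj : Function.Injective δ' := by
    intro a b h
    obtain ⟨a, rfl⟩ := QuotientGroup.mk_surjective a
    obtain ⟨b, rfl⟩ := QuotientGroup.mk_surjective b
    have h' : δ a = δ b := h
    rw [QuotientGroup.eq, Subgroup.mem_subgroupOf] at h' ⊢
    push_cast at h' ⊢
    refine hfree _ (mul_mem (inv_mem a.2) b.2) ?_
    rw [commutatorElement_def] at h' ⊢
    have e : x * ((a : N)⁻¹ * b) * x⁻¹ * ((a : N)⁻¹ * b)⁻¹ =
        (x * (a : N) * x⁻¹)⁻¹ * ((x * b * x⁻¹ * (b : N)⁻¹) * ((x * (a : N) * x⁻¹ * (a : N)⁻¹))⁻¹) *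
          (x * (a : N) * x⁻¹) := by group
    rw [e]
    refine ?_
    have h2 : (x * b * x⁻¹ * (b : N)⁻¹) * (x * (a : N) * x⁻¹ * (a : N)⁻¹)⁻¹ ∈ M :=
      (‹M.Normal›.mem_comm_iff).1 h'
    have := ‹M.Normal›.conj_mem _ h2 (x * (a : N) * x⁻¹)⁻¹
    simpa [mul_assoc] using this
  refine MonoidHom.ext fun a => ?_
  obtain ⟨b, hb⟩ := (Finite.injective_iff_surjective.1 hinj) (QuotientGroup.mk a)
  obtain ⟨b, rfl⟩ := QuotientGroup.mk_surjective b
  have hb' : δ b = QuotientGroup.mk a := hb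
  rw [QuotientGroup.eq] at hb'
  have h1 := hl _ (Subgroup.mem_subgroupOf.1 hb')
  rw [map_mul, map_inv, inv_mul_eq_one] at h1
  rw [MonoidHom.one_apply, ← h1]
  have e : (⟨⁅x, (b : N)⁆, by
      rw [commutatorElement_def]
      exact mul_mem ((inferInstance : A.Normal).conj_mem _ b.2 x) (inv_mem b.2)⟩ : A) =
      ⟨x * b * x⁻¹, (inferInstance : A.Normal).conj_mem _ b.2 x⟩ * b⁻¹ :=
    Subtype.ext (by simp [commutatorElement_def])
  rw [e, map_mul, map_inv, ← cj_apply A x l b, hfix, mul_inv_cancel]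

/-- An element outside the stabiliser of some character moves some point. -/
theorem fix_of_cent {A : Subgroup N} [A.Normal] {x : N} {l : A →* ℂˣ}
    (h : ∀ a : A, l ⟨x * a * x⁻¹, (inferInstance : A.Normal).conj_mem _ a.2 x⟩ = l a) :
    x ∈ St A l := mem_St A |>.2 (MonoidHom.ext fun a => by rw [cj_apply]; exact h a)

/-- The character degrees over a linear character with a complement. -/
theorem over_linear (hG : Good p f g n0 K) (A : Subgroup N) [A.Normal] (U : Subgroup N)
    (hsup : ∀ x : N, ∃ a ∈ A, ∃ u ∈ U, x = a * u) (hinf : A ⊓ U = ⊥) (l : A →* ℂˣ)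
    (hT : St A l ≠ ⊤) [Fintype N] [Fintype A] :
    ⁅St A l, St A l⁆ ≤ A ∧
      (∃ θ : IrrCharacter N, charDegree (θ : N → ℂ) = (St A l).index) ∧
      ∀ θ : IrrCharacter N, classInner (fun a : A => (θ : N → ℂ) a) (lf l) ≠ 0 →
        charDegree (θ : N → ℂ) = (St A l).index := by
  classical
  set T := St A l with hTdef
  haveI := Fintype.ofFinite T
  have hAT : A ≤ T := le_inertia A (isClassFunction_of_isIrr (isIrrCharacter_linear l))
  choose a ha u hu hau using hsup
  have huniq : ∀ x : N, ∀ a' ∈ A, ∀ u' ∈ U, x = a' * u' → a x = a' := by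
    intro x a' ha' u' hu' he
    have h1 : a x * u x = a' * u' := (hau x).symm.trans he
    have h2 : a'⁻¹ * a x = u' * (u x)⁻¹ := by
      rw [inv_mul_eq_iff_eq_mul, ← mul_assoc, ← h1, mul_inv_cancel_right]
    have h3 : a'⁻¹ * a x ∈ A ⊓ U :=
      ⟨A.mul_mem (A.inv_mem ha') (ha x), h2 ▸ U.mul_mem hu' (U.inv_mem (hu x))⟩
    rw [hinf, Subgroup.mem_bot, inv_mul_eq_one] at h3
    exact h3.symm
  have hmul : ∀ x y : T, l ⟨a (x * y : N), ha _⟩ = l ⟨a x, ha _⟩ * l ⟨a y, ha _⟩ := by
    intro x y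
    have hux : u (x : N) ∈ T := by
      have : u (x : N) = (a (x : N))⁻¹ * x := eq_inv_mul_of_mul_eq (hau x).symm
      rw [this]; exact T.mul_mem (T.inv_mem (hAT (ha _))) x.2
    have he := huniq (x * y : N) (a x * (u x * a y * (u x)⁻¹))
      (mul_mem (ha _) ((inferInstance : A.Normal).conj_mem _ (ha _) _)) (u x * u y)
      (mul_mem (hu _) (hu _)) (by
        conv_lhs => rw [hau (x : N), hau (y : N)]
        group)
    have e1 : (⟨a (x * y : N), ha _⟩ : A) = ⟨a x, ha _⟩ *
        ⟨u x * a y * (u x)⁻¹, (inferInstance : A.Normal).conj_mem _ (ha _) _⟩ := Subtype.ext he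
    rw [e1, map_mul]
    refine congrArg _ ?_
    rw [← cj_apply A (u x) l ⟨a y, ha _⟩, (mem_St A).1 hux]
  let lt : T →* ℂˣ := MonoidHom.mk' (fun x => l ⟨a x, ha _⟩) hmul
  have hlt : ∀ b : A, lt ⟨b, hAT b.2⟩ = l b := fun b => by
    show l ⟨a b, ha _⟩ = l b
    exact congrArg l (Subtype.ext (huniq b b b.2 1 (one_mem U) (mul_one _).symm))
  have hind : ∀ β : T → ℂ, IsIrrCharacter T β → (∀ b : A, β ⟨b, hAT b.2⟩ = β 1) →
      ∃ θ : IrrCharacter N, charDegree (θ : N → ℂ) = T.index * charDegree β := by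
    intro β hβ hβA
    have hψ := isIrrCharacter_linear_mul hβ lt
    have hover : classInner (CharClifford.resLe hAT (fun x : T => (lt x : ℂ) * β x)) (lf l) ≠ 0 := by
      have e : CharClifford.resLe hAT (fun x : T => (lt x : ℂ) * β x) = β 1 • lf l := funext fun b => by
        show (lt ⟨b, hAT b.2⟩ : ℂ) * β ⟨b, hAT b.2⟩ = β 1 * (l b : ℂ)
        rw [hlt, hβA, mul_comm]
      rw [e, classInner_smul_left, show classInner (lf l) (lf l) = 1 from
        classInner_irr_self (isIrrCharacter_linear l), mul_one]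
      exact irr_degree_ne_zero hβ
    obtain ⟨h, -⟩ := CharClifford.indFun_correspondent A (θ := lf l) (isIrrCharacter_linear l) T rfl hAT
      hψ hover
    refine ⟨⟨_, h⟩, charDegree_eq_of_apply_one ?_⟩
    show indFun T _ 1 = _
    rw [indFun_one, map_one, Units.val_one, one_mul, apply_one_eq_charDegree (isCharacter_of_isIrr hβ)]
    push_cast; rfl
  obtain ⟨θ₁, hθ₁⟩ := hind (fun _ => 1) isIrrCharacter_one fun _ => rfl
  rw [show charDegree (fun _ : T => (1 : ℂ)) = 1 from
    charDegree_eq_of_apply_one (by rw [Nat.cast_one]), mul_one] at hθ₁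
  have hne : charDegree (θ₁ : N → ℂ) ≠ 1 := by rw [hθ₁]; exact fun h => hT (Subgroup.index_eq_one.1 h)
  refine ⟨?_, ⟨θ₁, hθ₁⟩, fun θ hθ => ?_⟩
  · by_contra hno
    haveI : (A.subgroupOf T).Normal := (inferInstance : A.Normal).subgroupOf T
    haveI := Fintype.ofFinite (T ⧸ A.subgroupOf T)
    obtain ⟨μ, hμ⟩ : ∃ μ : IrrCharacter (T ⧸ A.subgroupOf T),
        charDegree (μ : T ⧸ A.subgroupOf T → ℂ) ≠ 1 := by
      by_contra hall
      push Not at hall
      refine hno ((Subgroup.commutator_le).2 fun x hx y hy => ?_)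
      have := ThreeDeg.comm_of_all_one hall (QuotientGroup.mk (⟨x, hx⟩ : T)⁻¹)
        (QuotientGroup.mk (⟨y, hy⟩ : T)⁻¹)
      rw [← QuotientGroup.mk_mul, ← QuotientGroup.mk_mul, QuotientGroup.eq,
        Subgroup.mem_subgroupOf] at this
      simpa [commutatorElement_def, mul_assoc] using inv_mem this
    obtain ⟨θ, hθ⟩ := hind _ (inflateEquiv (A.subgroupOf T) μ).1.2
      (fun b => (inflateEquiv (A.subgroupOf T) μ).2 _ (Subgroup.mem_subgroupOf.2 b.2))
    rw [ThreeDeg.deg_inflate] at hθ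
    have := hG.anti θ₁ θ hne ⟨_, hθ.trans (by rw [hθ₁])⟩
    rw [hθ₁, hθ] at this
    exact hμ ((mul_eq_left₀ (Subgroup.index_ne_zero_of_finite)).1 this.symm)
  · have h := clifford_degree A θ.2 (isIrrCharacter_linear l) hθ
    obtain ⟨e, he⟩ := classInner_natCast (isCharacter_restrict (isCharacter_of_isIrr θ.2) A)
      (isCharacter_of_isIrr (isIrrCharacter_linear l))
    rw [he, apply_one_eq_charDegree (isCharacter_of_isIrr θ.2), map_one, Units.val_one,
      mul_one] at h
    have h' : charDegree (θ : N → ℂ) = e * T.index := by exact_mod_cast h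
    exact ((hG.anti θ₁ θ hne (by rw [hθ₁, h']; exact dvd_mul_left _ _)).symm.trans hθ₁)

end Cfsg.Agent.Lib.Char.Disconn
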