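import Cfsg.Agent.Lib.Char.Disconn.Tools
import Cfsg.Agent.Lib.Char.RelGraph.Orbits

/-!
# The class two case
-/

set_option autoImplicit false
set_option linter.unusedSectionVars false
set_option linter.style.haveILetI false

namespace Cfsg.Agent.Lib.Char.Disconn

open Cfsg Cfsg.Agent.Lib Cfsg.Agent.Lib.Char
open Cfsg.Agent.Lib.Char.TwoDegPrime (lf lf_inj cj lf_cj cj_apply cj_mul cj_one cj_prod St mem_St)
open scoped commutatorElement

universe u

/-- A free action away from one point. -/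
theorem card_dvd_of_free {Z : Type*} [Group Z] {X : Type*} [MulAction Z X]
    (h : ∀ (z : Z) (x : X), z • x = x → z = 1) : Nat.card Z ∣ Nat.card X := by
  refine ⟨Nat.card (Quotient (MulAction.orbitRel Z X)), ?_⟩
  rw [Nat.card_congr (MulAction.selfEquivOrbitsQuotientProd fun x =>
    (Subgroup.eq_bot_iff_forall _).2 fun z hz => h z x hz), Nat.card_prod, mul_comm]

theorem counting {k q : ℕ} {ι : Type*} (Z0 : Finset ι) (F : ι → ℕ) (hk : Z0.card ≤ k) (hq : 2 ≤ q)
    (hsum : q - 1 ≤ ∑ z ∈ Z0, (F z - 1)) (hlt : ∀ z ∈ Z0, F z < q)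
    (hprod : ∀ z ∈ Z0, ∀ z' ∈ Z0, z ≠ z' → F z * F z' ≤ q) : q < k * k := by
  classical
  have hne : Z0.Nonempty := by
    rw [Finset.nonempty_iff_ne_empty]; rintro rfl; simp at hsum; omega
  obtain ⟨z, hz, hmax⟩ := Z0.exists_max_image F hne
  by_contra hqk
  push Not at hqk
  have hk1 : 1 ≤ k := le_trans hne.card_pos hk
  rcases le_or_gt (F z) k with hle | hgt
  · -- all are small
    have h1 : ∑ w ∈ Z0, (F w - 1) ≤ Z0.card * (k - 1) := by
      rw [← smul_eq_mul]
      exact Finset.sum_le_card_nsmul _ _ _ fun w hw => Nat.sub_le_sub_right ((hmax w hw).trans hle) 1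
    have h2 : q - 1 ≤ k * (k - 1) := hsum.trans (h1.trans (Nat.mul_le_mul_right _ hk))
    obtain ⟨j, rfl⟩ : ∃ j, k = j + 1 := ⟨k - 1, by omega⟩
    rw [Nat.add_sub_cancel] at h2
    have : (j + 1) * (j + 1) = (j + 1) * j + (j + 1) := by ring
    rcases j with _ | j
    · simp at h2; omega
    · omega
  · have hm1 : 1 ≤ F z := by omega
    set B := q / F z
    have hB : F z * B ≤ q := Nat.mul_div_le q (F z)
    have hB1 : 1 ≤ B := (Nat.one_le_div_iff hm1).2 (hlt z hz).le
    have hrest : ∑ w ∈ Z0.erase z, (F w - 1) ≤ (k - 1) * (B - 1) := by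
      refine le_trans (le_trans (Finset.sum_le_card_nsmul _ _ (B - 1) fun w hw => ?_)
        (le_of_eq (smul_eq_mul _ _))) (Nat.mul_le_mul_right _ ?_)
      · refine Nat.sub_le_sub_right ((Nat.le_div_iff_mul_le hm1).2 ?_) 1
        rw [mul_comm]
        exact hprod z hz w (Finset.mem_of_mem_erase hw) (Finset.ne_of_mem_erase hw).symm
      · rw [Finset.card_erase_of_mem hz]; omega
    rw [← Finset.add_sum_erase _ _ hz] at hsum
    have := hlt z hz
    obtain ⟨b, hb⟩ : ∃ b, B = b + 1 := ⟨B - 1, by omega⟩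
    obtain ⟨j, rfl⟩ : ∃ j, k = j + 1 := ⟨k - 1, by omega⟩
    rw [hb] at hB hrest
    rw [Nat.add_sub_cancel, Nat.add_sub_cancel] at hrest
    have hjb : j * b + b ≤ F z * b := by
      calc j * b + b = (j + 1) * b := by ring
        _ ≤ F z * b := Nat.mul_le_mul_right _ hgt.le
    have hFb : F z * (b + 1) = F z * b + F z := by ring
    rcases Nat.eq_zero_or_pos b with rfl | hb0
    · rw [Nat.mul_zero] at hrest
      omega
    · omega

variable {N : Type u} [Group N] [Finite N] {p f : ℕ} {g : N ≃* N} {n0 : N} {K : Subgroup N}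

theorem ext_res (A : Subgroup N) {M : Subgroup N} (hAM : ⁅A, A⁆ ≤ M) (R : Subgroup A) (l : R →* ℂˣ)
    (hl : ∀ r : R, ((r : A) : N) ∈ M → l r = 1) : ∃ L : A →* ℂˣ, ∀ r : R, L r = l r :=
  CharClifford.exists_extension_of_commutator R l fun r hr => hl r (hAM (by
    rw [← Subgroup.map_subtype_commutator]; exact ⟨_, hr, rfl⟩))

set_option maxHeartbeats 1000000 in
/-- The class two case does not occur. -/
theorem Good.no_central (hG : Good p f g n0 K) (A M : Subgroup N) [A.Normal] [M.Normal]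
    (hAg : GInv g A) (hgM : GInv g M) (hMA : M ≤ A) (hAN : A = commutator N) (hAA : ⁅A, A⁆ = M)
    (hMne : M ≠ ⊥) (hMC : M ≤ Subgroup.centralizer (A : Set N)) {s : ℕ} (hs : s.Prime)
    (hsA : IsPGroup s A) (hsp : s ≠ p) : False := by
  classical
  haveI := Fintype.ofFinite N
  haveI := Fintype.ofFinite A
  haveI := Fact.mk hs
  haveI := Fact.mk hG.prime
  have hAM : ⁅A, A⁆ ≤ M := hAA.le
  have hA : A ≤ commutator N := hAN.le
  have htop : commutator N ≤ A := hAN.ge
  have hNA : ∀ y ∈ commutator N, ∃ k, y ^ p ^ k ∈ A := fun y hy => ⟨0, by simpa using htop hy⟩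
  obtain ⟨eA, heA⟩ := IsPGroup.iff_card.1 hsA
  have hpA : ¬ p ∣ Nat.card A := by
    rw [heA]
    exact fun h => hsp ((Nat.prime_dvd_prime_iff_eq hG.prime hs).1 (hG.prime.dvd_of_dvd_pow h)).symm
  have hMc : ∀ m ∈ M, ∀ a ∈ A, m * a = a * m := fun m hm a ha =>
    (Subgroup.mem_centralizer_iff.1 (hMC hm) a ha).symm
  have hcM : ∀ a b : A, ⁅(a : N), (b : N)⁆ ∈ M := fun a b =>
    hAM (Subgroup.commutator_mem_commutator a.2 b.2)
  -- an element outside `M`
  obtain ⟨y₀, hy₀A, hy₀⟩ : ∃ y ∈ A, y ∉ M := by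
    by_contra h
    push Not at h
    refine hMne (eq_bot_iff.2 (hAA ▸ (Subgroup.commutator_le).2 fun a ha b hb => ?_))
    rw [Subgroup.mem_bot, commutatorElement_eq_one_iff_mul_comm]
    exact hMc a (h a ha) b hb
  haveI : Finite (A →* ℂˣ) := RelGraph.finite_dual
  haveI : Finite (M →* ℂˣ) := RelGraph.finite_dual
  -- characters of `A / M`
  let S : Subgroup (A →* ℂˣ) :=
    { carrier := {l | ∀ m : A, (m : N) ∈ M → l m = 1}
      one_mem' := fun m _ => rfl
      mul_mem' := fun {a b} ha hb m hm => by rw [MonoidHom.mul_apply, ha m hm, hb m hm, one_mul]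
      inv_mem' := fun {a} ha m hm => by rw [MonoidHom.inv_apply, ha m hm, inv_one] }
  haveI : Fintype S := Fintype.ofFinite S
  have hSne : ∀ a : A, (a : N) ∉ M → ∃ l ∈ S, l a ≠ 1 := fun a ha =>
    exists_char_ne M hAM ha (fun x _ m hm => (inferInstance : M.Normal).conj_mem m hm x)
  obtain ⟨l₀, hl₀, hl₀y⟩ := hSne ⟨y₀, hy₀A⟩ hy₀
  have hl₀1 : l₀ ≠ 1 := fun h => hl₀y (by rw [h, MonoidHom.one_apply])
  set C := St A l₀ with hCdef
  have hAC : A ≤ C := le_inertia A (isClassFunction_of_isIrr (isIrrCharacter_linear l₀))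
  haveI hCn : C.Normal := Subgroup.Normal.of_commutator_le _ (htop.trans hAC)
  have hst : ∀ l ∈ S, l ≠ 1 → St A l = C := fun l hl h1 =>
    hG.stab_eq A M hAM hA hpA htop l l₀ hl h1 hl₀ hl₀1
  obtain ⟨hT0, -, ⟨θ₁, hθ₁⟩, -⟩ := hG.orbits A M hAM hA hpA hNA l₀ hl₀ hl₀1
  have hθ₁1 : charDegree (θ₁ : N → ℂ) ≠ 1 := by rw [hθ₁]; exact fun h => hT0 (Subgroup.index_eq_one.1 h)
  have hcjS : ∀ (t : N), ∀ l ∈ S, cj A t l ∈ S := fun t l hl m hm => by
    rw [cj_apply]; exact hl _ ((inferInstance : M.Normal).conj_mem _ hm t)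
  have hfixC : ∀ c ∈ C, ∀ a : A, ⁅c, (a : N)⁆ ∈ M := by
    intro c hc a
    by_contra hno
    have hca : ⁅c, (a : N)⁆ ∈ A := by
      rw [commutatorElement_def]
      exact mul_mem ((inferInstance : A.Normal).conj_mem _ a.2 c) (inv_mem a.2)
    obtain ⟨l, hl, hl1⟩ := hSne ⟨_, hca⟩ hno
    refine hl1 ?_
    have hcT : c ∈ St A l := by
      by_cases h : l = 1
      · exact absurd (by rw [h, MonoidHom.one_apply]) hl1
      · rw [hst l hl h]; exact hc
    have e : (⟨⁅c, (a : N)⁆, hca⟩ : A) = ⟨c * a * c⁻¹, (inferInstance : A.Normal).conj_mem _ a.2 c⟩ * a⁻¹ :=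
      Subtype.ext (by simp [commutatorElement_def])
    rw [e, map_mul, map_inv, ← cj_apply A c l a, (mem_St A).1 hcT, mul_inv_cancel]
  -- `C` centralises `M`
  have hCM : ∀ c ∈ C, ∀ m ∈ M, c * m = m * c := by
    intro c hc
    have hle : ⁅A, A⁆ ≤ Subgroup.centralizer ({c} : Set N) := by
      rw [Subgroup.commutator_le]
      intro a ha b hb
      rw [Subgroup.mem_centralizer_singleton_iff]
      set m := a⁻¹ * (c * a * c⁻¹) with hm
      set m' := b⁻¹ * (c * b * c⁻¹) with hm'
      have hmM : m ∈ M := by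
        have := (inferInstance : M.Normal).conj_mem _ (hfixC c hc ⟨a, ha⟩) a⁻¹
        simpa [hm, commutatorElement_def, mul_assoc] using this
      have hm'M : m' ∈ M := by
        have := (inferInstance : M.Normal).conj_mem _ (hfixC c hc ⟨b, hb⟩) b⁻¹
        simpa [hm', commutatorElement_def, mul_assoc] using this
      have h : c * ⁅a, b⁆ * c⁻¹ = ⁅a, b⁆ := by
        have e1 : c * a * c⁻¹ = a * m := (mul_inv_cancel_left _ _).symm
        have e2 : c * b * c⁻¹ = b * m' := (mul_inv_cancel_left _ _).symm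
        have h1 : m * (b * m') * m⁻¹ = b * m' := by
          rw [hMc m hmM _ (mul_mem hb (hMA hm'M)), mul_inv_cancel_right]
        have h2 : m' * a⁻¹ * m'⁻¹ = a⁻¹ := by
          rw [hMc m' hm'M _ (inv_mem ha), mul_inv_cancel_right]
        calc c * ⁅a, b⁆ * c⁻¹ = (c * a * c⁻¹) * (c * b * c⁻¹) * (c * a * c⁻¹)⁻¹ * (c * b * c⁻¹)⁻¹ := by
              rw [commutatorElement_def]; group
          _ = (a * m) * (b * m') * (a * m)⁻¹ * (b * m')⁻¹ := by rw [e1, e2]
          _ = a * (m * (b * m') * m⁻¹) * a⁻¹ * (b * m')⁻¹ := by group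
          _ = a * (b * m') * a⁻¹ * (b * m')⁻¹ := by rw [h1]
          _ = a * b * (m' * a⁻¹ * m'⁻¹) * b⁻¹ := by group
          _ = ⁅a, b⁆ := by rw [h2, commutatorElement_def]
      exact (mul_inv_eq_iff_eq_mul.1 h).symm
    intro m hm
    rw [hAA] at hle
    exact (Subgroup.mem_centralizer_singleton_iff.1 (hle hm)).symm
  -- no fixed points outside `C`
  have hfree : ∀ t ∉ C, ∀ a : A, ⁅t, (a : N)⁆ ∈ M → (a : N) ∈ M := by
    intro t ht a ha
    by_contra haM
    obtain ⟨l', hl', hl'a⟩ := hSne a haM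
    let δ : S → S := fun l => ⟨cj A t l.1 * l.1⁻¹, S.mul_mem (hcjS t l.1 l.2) (S.inv_mem l.2)⟩
    have hinj : Function.Injective δ := by
      intro l l2 h
      have h' : cj A t l.1 * l.1⁻¹ = cj A t l2.1 * l2.1⁻¹ := congrArg Subtype.val h
      by_contra hne
      have hd1 : l.1 * l2.1⁻¹ ≠ 1 := fun h2 => hne (Subtype.ext (mul_inv_eq_one.1 h2))
      refine ht ?_
      rw [← hst _ (S.mul_mem l.2 (S.inv_mem l2.2)) hd1, mem_St, TwoDegPrime.cj_prod, TwoDegPrime.cj_inv]
      refine MonoidHom.ext fun w => ?_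
      have h3 := DFunLike.congr_fun h' w
      simp only [MonoidHom.mul_apply, MonoidHom.inv_apply] at h3 ⊢
      rw [← div_eq_mul_inv, ← div_eq_mul_inv, div_eq_div_iff_mul_eq_mul] at h3 ⊢
      rw [h3, mul_comm]
    obtain ⟨l, hl⟩ := (Finite.injective_iff_surjective.1 hinj) ⟨l', hl'⟩
    refine hl'a ?_
    have el : cj A t l.1 * l.1⁻¹ = l' := congrArg Subtype.val hl
    rw [← el, MonoidHom.mul_apply, MonoidHom.inv_apply,
      cj_apply, ← map_inv, ← map_mul]
    refine l.2 _ ?_
    rw [commutatorElement_def] at ha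
    simpa using ha
  -- degree
  have hC1 : C.index ≠ 1 := fun h => hT0 (Subgroup.index_eq_one.1 h)
  have hCf : C.index.Coprime f := hθ₁ ▸ hG.cop θ₁ hθ₁1
  have hrad : ∀ μ : M →* ℂˣ, μ ≠ 1 → ∀ y : A,
      (∀ a : A, μ ⟨⁅(y : N), (a : N)⁆, hcM y a⟩ = 1) → (y : N) ∈ M := by
    intro μ hμ y₁ hy₁
    by_contra hy₁M
    have hbr : ∀ y z a : A, ⁅((y * z : A) : N), (a : N)⁆ = ⁅(y : N), (a : N)⁆ * ⁅(z : N), (a : N)⁆ := by
      intro y z a
      have h := hMc _ (hcM z a) _ y.2
      have e : ⁅((y * z : A) : N), (a : N)⁆ = (y : N) * ⁅(z : N), (a : N)⁆ * (y : N)⁻¹ * ⁅(y : N), (a : N)⁆ := by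
        push_cast; simp only [commutatorElement_def]; group
      rw [e, ← h, mul_inv_cancel_right, hMc _ (hcM z a) _ (hMA (hcM y a))]
    let R : Subgroup A :=
      { carrier := {y | ∀ a : A, μ ⟨⁅(y : N), (a : N)⁆, hcM y a⟩ = 1}
        one_mem' := fun a => by
          rw [show (⟨⁅((1 : A) : N), (a : N)⁆, hcM 1 a⟩ : M) = 1 from Subtype.ext (by simp), map_one]
        mul_mem' := fun {y z} hy hz a => by
          rw [show (⟨⁅((y * z : A) : N), (a : N)⁆, hcM _ a⟩ : M) = ⟨_, hcM y a⟩ * ⟨_, hcM z a⟩ from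
            Subtype.ext (hbr y z a), map_mul, hy a, hz a, one_mul]
        inv_mem' := fun {y} hy a => by
          have e : (⟨⁅((y⁻¹ * y : A) : N), (a : N)⁆, hcM _ a⟩ : M) = ⟨_, hcM y⁻¹ a⟩ * ⟨_, hcM y a⟩ :=
            Subtype.ext (hbr y⁻¹ y a)
          have h1 : (⟨⁅((y⁻¹ * y : A) : N), (a : N)⁆, hcM _ a⟩ : M) = 1 := Subtype.ext (by simp)
          have := congrArg μ (h1.symm.trans e)
          rw [map_one, map_mul, hy a, mul_one] at this
          exact this.symm }
    have hMR : ∀ m : A, (m : N) ∈ M → m ∈ R := fun m hm a => by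
      rw [show (⟨⁅(m : N), (a : N)⁆, hcM m a⟩ : M) = 1 from Subtype.ext
        (commutatorElement_eq_one_iff_mul_comm.2 (hMc m hm a a.2)), map_one]
    haveI hRn : R.Normal := Subgroup.Normal.of_commutator_le _ fun x hx => hMR x (hAM (by
      rw [← Subgroup.map_subtype_commutator]; exact ⟨x, hx, rfl⟩))
    haveI := Fintype.ofFinite R
    -- extensions of `μ`
    let MR : Subgroup R := M.comap (A.subtype.comp R.subtype)
    let μR : MR →* ℂˣ := μ.comp
      { toFun := fun m => ⟨((m : R) : A), m.2⟩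
        map_one' := rfl
        map_mul' := fun _ _ => rfl }
    obtain ⟨ω₀, hω₀⟩ := CharClifford.exists_extension_of_commutator MR μR (by
      intro m hm
      show μ ⟨(((m : R) : A) : N), m.2⟩ = 1
      have hle : commutator R ≤ (μ.ker.map M.subtype).comap (A.subtype.comp R.subtype) := by
        rw [commutator_def, Subgroup.commutator_le]
        intro a _ b _
        refine ⟨⟨_, hcM (a : A) (b : A)⟩, (a.2 (b : A)), ?_⟩
        simp [map_commutatorElement]
      obtain ⟨w, hw, he⟩ := hle hm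
      rw [show (⟨(((m : R) : A) : N), m.2⟩ : M) = w from Subtype.ext he.symm]
      exact hw)
    let Ext : (R →* ℂˣ) → Prop := fun ω => ∀ (r : R) (h : ((r : A) : N) ∈ M), ω r = μ ⟨_, h⟩
    have hω₀' : Ext ω₀ := fun r h => hω₀ ⟨r, h⟩
    -- conjugation by the stabiliser
    have hRt : ∀ t ∈ St M μ, ∀ r : R,
        (⟨t * ((r : A) : N) * t⁻¹, (inferInstance : A.Normal).conj_mem _ (r : A).2 t⟩ : A) ∈ R := by
      intro t ht r a
      have ha' : t⁻¹ * (a : N) * t ∈ A := by
        simpa using (inferInstance : A.Normal).conj_mem _ a.2 t⁻¹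
      have e : (⟨⁅t * ((r : A) : N) * t⁻¹, (a : N)⁆, hcM ⟨_, (inferInstance : A.Normal).conj_mem _ (r : A).2 t⟩ a⟩ : M) =
          ⟨t * ⁅((r : A) : N), t⁻¹ * (a : N) * t⁆ * t⁻¹,
            (inferInstance : M.Normal).conj_mem _ (hcM (r : A) ⟨_, ha'⟩) t⟩ :=
        Subtype.ext (by simp only [commutatorElement_def]; group)
      show μ _ = 1
      rw [e, ← cj_apply M t μ ⟨_, hcM (r : A) ⟨_, ha'⟩⟩, (mem_St M).1 ht]
      exact r.2 ⟨_, ha'⟩
    let act : ∀ t ∈ St M μ, R → R := fun t ht r => ⟨_, hRt t ht r⟩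
    let Fix : (R →* ℂˣ) → N → Prop := fun ω t => ∃ ht : t ∈ St M μ, ∀ r, ω (act t ht r) = ω r
    have huniq : ∀ ω ω' t, t ∉ C → Ext ω → Ext ω' → Fix ω t → Fix ω' t → ω = ω' := by
      rintro ω ω' t htC hω hω' ⟨ht, h1⟩ ⟨_, h2⟩
      let Rb : Subgroup (N ⧸ M) := R.map ((QuotientGroup.mk' M).comp A.subtype)
      have hRbab : ∀ a ∈ Rb, ∀ b ∈ Rb, a * b = b * a := by
        rintro _ ⟨a, ha, rfl⟩ _ ⟨b, hb, rfl⟩
        rw [← commutatorElement_eq_one_iff_mul_comm, ← map_commutatorElement]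
        exact (QuotientGroup.eq_one_iff _).2 (by simpa [map_commutatorElement] using hcM a b)
      have hmemb : ∀ w : Rb, (t : N ⧸ M) * w * (t : N ⧸ M)⁻¹ * (w : N ⧸ M)⁻¹ ∈ Rb := by
        rintro ⟨_, r, hr, rfl⟩
        refine mul_mem ⟨_, hRt t ht ⟨r, hr⟩, ?_⟩ (inv_mem ⟨r, hr, rfl⟩)
        simp
      let φ : Rb → Rb := fun w => ⟨_, hmemb w⟩
      have hφ : Function.Injective φ := by
        rintro ⟨a, ha⟩ ⟨b, hb⟩ h
        have h' : (t : N ⧸ M) * a * (t : N ⧸ M)⁻¹ * a⁻¹ = (t : N ⧸ M) * b * (t : N ⧸ M)⁻¹ * b⁻¹ :=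
          congrArg Subtype.val h
        obtain ⟨r, hr, he⟩ := mul_mem (inv_mem hb) ha
        have hfx : (t : N ⧸ M) * (b⁻¹ * a) * (t : N ⧸ M)⁻¹ * (b⁻¹ * a)⁻¹ = 1 := by
          calc (t : N ⧸ M) * (b⁻¹ * a) * (t : N ⧸ M)⁻¹ * (b⁻¹ * a)⁻¹
              = ((t : N ⧸ M) * b * (t : N ⧸ M)⁻¹)⁻¹ * ((t : N ⧸ M) * a * (t : N ⧸ M)⁻¹ * a⁻¹) * b := by group
            _ = ((t : N ⧸ M) * b * (t : N ⧸ M)⁻¹)⁻¹ * ((t : N ⧸ M) * b * (t : N ⧸ M)⁻¹ * b⁻¹) * b := by rw [h']
            _ = 1 := by group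
        have hrM : (r : N) ∈ M := by
          refine hfree t htC r ((QuotientGroup.eq_one_iff _).1 ?_)
          rw [← QuotientGroup.mk'_apply, map_commutatorElement, commutatorElement_def]
          have he' : QuotientGroup.mk' M (r : N) = b⁻¹ * a := he
          rw [he']
          exact hfx
        have : b⁻¹ * a = 1 := by
          rw [← he]; exact (QuotientGroup.eq_one_iff _).2 hrM
        exact Subtype.ext (inv_mul_eq_one.1 this).symm
      refine MonoidHom.ext fun r => ?_
      obtain ⟨⟨_, r', hr', rfl⟩, hw⟩ :=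
        (Finite.injective_iff_surjective.1 hφ) ⟨_, (r : A), r.2, rfl⟩
      have hw' := congrArg Subtype.val hw
      have hm : ((((act t ht ⟨r', hr'⟩) * ⟨r', hr'⟩⁻¹)⁻¹ * r : R) : A).1 ∈ M := by
        rw [← QuotientGroup.eq_one_iff]
        simp only [φ, MonoidHom.comp_apply, Subgroup.coe_subtype, QuotientGroup.mk'_apply] at hw'
        simp [act, ← hw', mul_assoc]
      have e1 := hω _ hm
      rw [← hω' _ hm] at e1
      simp only [map_mul, map_inv, h1, h2, mul_inv_cancel, inv_one, one_mul] at e1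
      exact e1
    -- an extension with small stabiliser
    obtain ⟨ω, hω, hωC⟩ : ∃ ω, Ext ω ∧ ∀ t, Fix ω t → t ∈ C := by
      by_contra hno
      push Not at hno
      obtain ⟨t, ⟨ht, htf⟩, htC⟩ := hno ω₀ hω₀'
      -- a second extension
      obtain ⟨l, hl, hly⟩ := hSne y₁ hy₁M
      let δ : R →* ℂˣ := l.comp R.subtype
      have hω1 : Ext (ω₀ * δ) := fun r h => by
        rw [MonoidHom.mul_apply, hω₀' r h, show δ r = 1 from hl _ h, mul_one]
      obtain ⟨t', ⟨ht', htf'⟩, htC'⟩ := hno _ hω1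
      -- `t` moves `ω₀ * δ` to an extension fixed by `t'`
      let ω₂ : R →* ℂˣ := (ω₀ * δ).comp
        { toFun := act t ht
          map_one' := Subtype.ext (Subtype.ext (by simp [act]))
          map_mul' := fun a b => Subtype.ext (Subtype.ext (by simp [act, mul_assoc])) }
      have hω2 : Ext ω₂ := fun r h => by
        have h' : t * ((r : A) : N) * t⁻¹ ∈ M := (inferInstance : M.Normal).conj_mem _ h t
        show (ω₀ * δ) (act t ht r) = _
        rw [hω1 _ h']
        have := DFunLike.congr_fun ((mem_St M).1 ht) ⟨_, h⟩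
        rw [cj_apply] at this
        exact this
      have hAfix : ∀ ω, Ext ω → ∀ a ∈ A, ∀ (ha : a ∈ St M μ) r, ω (act a ha r) = ω r := by
        intro ω hω a ha ha' r
        have e : act a ha' r = ⟨⟨⁅a, ((r : A) : N)⁆, hMA (hcM ⟨a, ha⟩ r)⟩, hMR _ (hcM ⟨a, ha⟩ r)⟩ * r :=
          Subtype.ext (Subtype.ext (by simp [act, commutatorElement_def]))
        rw [e, map_mul, hω _ (hcM ⟨a, ha⟩ r)]
        have h := r.2 ⟨a, ha⟩
        have e2 : (⟨⁅a, ((r : A) : N)⁆, hcM ⟨a, ha⟩ r⟩ : M) = (⟨⁅((r : A) : N), a⁆, hcM r ⟨a, ha⟩⟩ : M)⁻¹ :=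
          Subtype.ext (by simp [commutatorElement_def, mul_assoc])
        rw [e2, map_inv, h, inv_one, one_mul]
      have htt : Fix ω₂ t' := by
        refine ⟨ht', fun r => ?_⟩
        have hc : ⁅t, t'⁆ ∈ A := htop (Subgroup.commutator_mem_commutator (Subgroup.mem_top t) (Subgroup.mem_top t'))
        have hc' : ⁅t, t'⁆ ∈ St M μ := mul_mem (mul_mem (mul_mem ht ht') (inv_mem ht)) (inv_mem ht')
        show (ω₀ * δ) (act t ht (act t' ht' r)) = (ω₀ * δ) (act t ht r)
        have e : act t ht (act t' ht' r) = act _ hc' (act t' ht' (act t ht r)) :=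
          Subtype.ext (Subtype.ext (by simp [act, commutatorElement_def, mul_assoc]))
        rw [e, hAfix _ hω1 _ hc hc', htf']
      have he := huniq _ _ t' htC' hω2 hω1 htt ⟨ht', htf'⟩
      have hfx : Fix (ω₀ * δ) t := ⟨ht, fun r => DFunLike.congr_fun he r⟩
      have h3 := huniq _ _ t htC hω₀' hω1 ⟨ht, htf⟩ hfx
      have h4 := DFunLike.congr_fun h3 ⟨y₁, hy₁⟩
      rw [MonoidHom.mul_apply, left_eq_mul] at h4
      exact hly h4
    -- an irreducible character over `ω`
    obtain ⟨ψ, hψ⟩ := exists_irr_over R (θ := lf ω) (isIrrCharacter_linear ω)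
    have hres : ∀ r : R, (ψ : A → ℂ) r = (ψ : A → ℂ) 1 * (ω r : ℂ) := by
      intro r
      have hc := clifford R ψ.2 (isIrrCharacter_linear ω) hψ
      have horb : orbit R (lf ω) = {lf ω} := by
        ext φ
        rw [mem_orbit, Finset.mem_singleton]
        constructor
        · rintro ⟨a, rfl⟩
          funext w
          rw [← lf_cj]
          show ((cj R a ω w : ℂˣ) : ℂ) = (ω w : ℂ)
          refine congrArg Units.val ?_
          rw [cj_apply]
          have e : (⟨a * (w : A) * a⁻¹, hRn.conj_mem _ w.2 a⟩ : R) =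
              ⟨⟨⁅(a : N), ((w : A) : N)⁆, hMA (hcM a w)⟩, hMR _ (hcM a w)⟩ * w :=
            Subtype.ext (Subtype.ext (by simp [commutatorElement_def]))
          rw [e, map_mul, hω _ (hcM a w)]
          have e2 : (⟨⁅(a : N), ((w : A) : N)⁆, hcM a w⟩ : M) = (⟨⁅((w : A) : N), (a : N)⁆, hcM w a⟩ : M)⁻¹ :=
            Subtype.ext (by simp [commutatorElement_def, mul_assoc])
          rw [e2, map_inv, w.2 a, inv_one, one_mul]
        · rintro rfl; exact ⟨1, conjChar_one _ _⟩
      rw [show orbit R (fun g => ((ω g : ℂˣ) : ℂ)) = {lf ω} from horb, Finset.sum_singleton] at hc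
      have h1 := congrFun hc 1
      have h2 := congrFun hc r
      simp only [Pi.smul_apply, smul_eq_mul, Subgroup.coe_one, lf, map_one, Units.val_one, mul_one] at h1 h2
      rw [h2, h1]
    have hψ0 : (ψ : A → ℂ) 1 ≠ 0 := irr_degree_ne_zero ψ.2
    have hψ1 : charDegree (ψ : A → ℂ) ≠ 1 := by
      intro h
      obtain ⟨l, hl⟩ := exists_hom_of_degree_one (isCharacter_of_isIrr ψ.2)
        (by rw [apply_one_eq_charDegree (isCharacter_of_isIrr ψ.2), h, Nat.cast_one])
      refine hμ (MonoidHom.ext fun m => Units.ext ?_)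
      have hml : l ⟨m, hMA m.2⟩ = 1 := by
        have hle : commutator A ≤ l.ker := Abelianization.commutator_subset_ker l
        have : (⟨(m : N), hMA m.2⟩ : A) ∈ commutator A := by
          have hm2 : (m : N) ∈ (commutator A).map A.subtype := by
            rw [Subgroup.map_subtype_commutator, hAA]; exact m.2
          obtain ⟨w, hw, he⟩ := hm2
          rwa [show (⟨(m : N), hMA m.2⟩ : A) = w from Subtype.ext he.symm]
        exact MonoidHom.mem_ker.1 (hle this)
      have h1 := hres ⟨⟨m, hMA m.2⟩, hMR _ m.2⟩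
      rw [hl, hl, hml, map_one, Units.val_one, one_mul] at h1
      rw [hω _ m.2] at h1
      exact h1.symm
    have hin : inertia A (ψ : A → ℂ) ≤ C := by
      intro t ht
      have hv : ∀ a : A, (ψ : A → ℂ) ⟨t * a * t⁻¹, (inferInstance : A.Normal).conj_mem _ a.2 t⟩ =
          (ψ : A → ℂ) a := fun a => by
        rw [← conjChar_apply A t (ψ : A → ℂ) a, (mem_inertia A).1 ht]
      have htμ : t ∈ St M μ := (mem_St M).2 (MonoidHom.ext fun m => Units.ext (mul_left_cancel₀ hψ0 (by
        have h1 := hv ⟨m, hMA m.2⟩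
        have hm' : t * (m : N) * t⁻¹ ∈ M := (inferInstance : M.Normal).conj_mem _ m.2 t
        have h2 := hres ⟨⟨_, hMA hm'⟩, hMR _ hm'⟩
        have h3 := hres ⟨⟨_, hMA m.2⟩, hMR _ m.2⟩
        rw [hω _ hm'] at h2
        rw [hω _ m.2] at h3
        rw [cj_apply]
        exact h2.symm.trans (h1.trans h3))))
      refine hωC t ⟨htμ, fun r => Units.ext (mul_left_cancel₀ hψ0 ?_)⟩
      rw [← hres, ← hres]
      exact hv r
    obtain ⟨θ, e, -, he, -⟩ := ThreeDeg.exists_over A ψ
    have hdvd : charDegree (θ₁ : N → ℂ) ∣ charDegree (θ : N → ℂ) := by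
      rw [hθ₁, he]
      exact ((Subgroup.index_dvd_of_le hin).mul_left e).mul_right _
    have heq := (hG.anti θ₁ θ hθ₁1 hdvd)
    rw [hθ₁, he] at heq
    obtain ⟨c, hc⟩ := Subgroup.index_dvd_of_le hin
    rw [hc] at heq
    have hne : C.index ≠ 0 := Subgroup.index_ne_zero_of_finite
    have : e * c * charDegree (ψ : A → ℂ) = 1 := Nat.eq_of_mul_eq_mul_left (Nat.pos_of_ne_zero hne)
      (by rw [mul_one]; linarith [heq])
    exact hψ1 (Nat.eq_one_of_mul_eq_one_left this)
  -- `#M < #(A / M)`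
  set q := Nat.card S with hq
  have hMq : Nat.card M < q := by
    let γ : (M →* ℂˣ) → S := fun μ => ⟨μ.comp (MonoidHom.mk' (fun a : A => (⟨⁅y₀, (a : N)⁆, hcM ⟨y₀, hy₀A⟩ a⟩ : M))
      fun a b => Subtype.ext (by
        show ⁅y₀, (a : N) * b⁆ = ⁅y₀, (a : N)⁆ * ⁅y₀, (b : N)⁆
        have h := hMc _ (hcM ⟨y₀, hy₀A⟩ b) _ a.2
        calc ⁅y₀, (a : N) * b⁆ = ⁅y₀, (a : N)⁆ * ((a : N) * ⁅y₀, (b : N)⁆ * (a : N)⁻¹) := by
              simp only [commutatorElement_def]; group
          _ = _ := by rw [← h, mul_inv_cancel_right])), fun m hm => by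
      rw [MonoidHom.comp_apply]
      refine (congrArg μ (Subtype.ext ?_ : _ = (1 : M))).trans (map_one μ)
      exact commutatorElement_eq_one_iff_mul_comm.2 (hMc m hm y₀ hy₀A).symm⟩
    have hγ : Function.Injective γ := by
      intro μ μ' h
      by_contra hne
      refine hy₀ (hrad (μ * μ'⁻¹) (fun h1 => hne (mul_inv_eq_one.1 h1)) ⟨y₀, hy₀A⟩ fun a => ?_)
      have := DFunLike.congr_fun (congrArg Subtype.val h) a
      rw [MonoidHom.mul_apply, MonoidHom.inv_apply, mul_inv_eq_one]
      exact this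
    have hns : ¬ Function.Surjective γ := fun h => by
      obtain ⟨μ, hμ⟩ := h ⟨l₀, hl₀⟩
      refine hl₀y ?_
      have eμ : (γ μ).1 = l₀ := congrArg Subtype.val hμ
      rw [← eμ]
      refine (congrArg μ (Subtype.ext ?_ : _ = (1 : M))).trans (map_one μ)
      exact commutatorElement_self y₀
    have hcard : Nat.card (M →* ℂˣ) = Nat.card M := by
      letI : CommGroup M :=
        { (inferInstance : Group M) with mul_comm := fun a b => Subtype.ext (hMc a a.2 b (hMA b.2)) }
      haveI : NeZero (Monoid.exponent M) := ⟨Monoid.exponent_ne_zero_of_finite⟩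
      haveI : NeZero (Monoid.exponent M : ℂ) := NeZero.charZero
      exact CommGroup.card_monoidHom_of_hasEnoughRootsOfUnity M ℂ
    rw [← hcard, hq]
    haveI := Fintype.ofFinite (M →* ℂˣ)
    rw [Nat.card_eq_fintype_card, Nat.card_eq_fintype_card]
    exact Fintype.card_lt_of_injective_not_surjective γ hγ hns
  -- cardinality of `S`
  haveI : (M.subgroupOf A).Normal := (inferInstance : M.Normal).subgroupOf A
  obtain ⟨eS, heS⟩ : ∃ i, q = s ^ i := by
    let B := A ⧸ M.subgroupOf A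
    letI : CommGroup B :=
      { (inferInstance : Group B) with
        mul_comm := fun a b => by
          obtain ⟨a, rfl⟩ := QuotientGroup.mk_surjective a
          obtain ⟨b, rfl⟩ := QuotientGroup.mk_surjective b
          show (a : B) * b = b * a
          rw [← QuotientGroup.mk_mul, ← QuotientGroup.mk_mul, QuotientGroup.eq, Subgroup.mem_subgroupOf]
          have e : (((a * b)⁻¹ * (b * a) : A) : N) = ⁅((b⁻¹ : A) : N), ((a⁻¹ : A) : N)⁆ := by
            push_cast; rw [commutatorElement_def]; group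
          rw [e]; exact hcM _ _ }
    haveI : NeZero (Monoid.exponent B) := ⟨Monoid.exponent_ne_zero_of_finite⟩
    haveI : NeZero (Monoid.exponent B : ℂ) := NeZero.charZero
    obtain ⟨i, hi⟩ := IsPGroup.iff_card.1 (hsA.to_quotient (M.subgroupOf A))
    refine ⟨i, ?_⟩
    have hB : Nat.card (B →* ℂˣ) = Nat.card B := CommGroup.card_monoidHom_of_hasEnoughRootsOfUnity B ℂ
    rw [hq, ← hi, ← hB]
    exact Nat.card_congr
      { toFun := fun l => QuotientGroup.lift _ l.1 fun m hm => l.2 m hm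
        invFun := fun b => ⟨b.comp (QuotientGroup.mk' _), fun m hm => by
          rw [MonoidHom.comp_apply, QuotientGroup.mk'_apply,
            (QuotientGroup.eq_one_iff m).2 (Subgroup.mem_subgroupOf.2 hm), map_one]⟩
        left_inv := fun l => Subtype.ext (MonoidHom.ext fun a => rfl)
        right_inv := fun b => MonoidHom.ext fun a => by
          obtain ⟨a, rfl⟩ := QuotientGroup.mk_surjective a
          rfl }
  obtain ⟨eM, heM⟩ := IsPGroup.iff_card.1 (hsA.to_le hMA)
  have hM1 : 1 < Nat.card M := (Subgroup.one_lt_card_iff_ne_bot M).2 hMne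
  have hq2 : 2 ≤ q := by omega
  -- `Z = N / C`
  haveI : Fintype (N ⧸ C) := Fintype.ofFinite _
  letI : CommGroup (N ⧸ C) :=
    { (inferInstance : Group (N ⧸ C)) with
      mul_comm := fun a b => by
        obtain ⟨a, rfl⟩ := QuotientGroup.mk_surjective a
        obtain ⟨b, rfl⟩ := QuotientGroup.mk_surjective b
        rw [← QuotientGroup.mk_mul, ← QuotientGroup.mk_mul, QuotientGroup.eq]
        refine hAC (htop ?_)
        have e : (a * b)⁻¹ * (b * a) = ⁅b⁻¹, a⁻¹⁆ := by rw [commutatorElement_def]; group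
        rw [e]; exact Subgroup.commutator_mem_commutator (Subgroup.mem_top _) (Subgroup.mem_top _) }
  -- `C` is invariant
  have hCg : GInv g C := by
    intro c hc
    by_contra hgc
    obtain ⟨a, ha, hga⟩ := ginv_surj hAg hy₀A
    refine hy₀ (hfree (g c) hgc ⟨y₀, hy₀A⟩ ?_)
    have := hgM _ (hfixC c hc ⟨a, ha⟩)
    rw [map_commutatorElement, hga] at this
    exact this
  have hCgs : C ≤ C.comap g.symm.toMonoidHom := fun c hc => by
    obtain ⟨d, hd, rfl⟩ := ginv_surj hCg hc
    simpa using hd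
  set h : N ⧸ C →* N ⧸ C := QuotientGroup.map C C g.symm.toMonoidHom hCgs with hh
  let nm : N ⧸ C →* N ⧸ C := MonoidHom.mk' (fun z => ∏ i ∈ Finset.range f, h^[i] z) fun a b => by
    rw [← Finset.prod_mul_distrib]
    exact Finset.prod_congr rfl fun i _ => iterate_map_mul h i a b
  -- every nontrivial character is moved by `g` inside its orbit
  let gA : A ≃* A := (g.subgroupMap A).trans (MulEquiv.subgroupCongr (ginv_map_eq hAg))
  have hmove : ∀ l ∈ S, l ≠ 1 → ∃ t : N, ∀ a : A, l (gA a) = cj A t l a := by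
    intro l hl hl1
    obtain ⟨θ, hθ⟩ := exists_irr_over A (θ := lf l) (isIrrCharacter_linear l)
    obtain ⟨hT, -, -, hdeg⟩ := hG.orbits A M hAM hA hpA hNA l hl hl1
    have hθ1 : charDegree (θ : N → ℂ) ≠ 1 := by rw [hdeg θ hθ]; exact fun h => hT (Subgroup.index_eq_one.1 h)
    have hθg : classInner (fun a : A => (θ : N → ℂ) a) (lf (l.comp gA.toMonoidHom)) ≠ 0 := by
      have e1 : (fun a : A => (θ : N → ℂ) a) = (fun a : A => (θ : N → ℂ) a) ∘ gA :=
        funext fun a => (hG.inv θ hθ1 a).symm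
      rw [e1, show lf (l.comp gA.toMonoidHom) = lf l ∘ gA from rfl, CharClifford.classInner_comp_equiv gA]
      exact hθ
    obtain ⟨t, ht⟩ := conjugate_of_constituents A θ.2 (isIrrCharacter_linear l)
      (isIrrCharacter_linear (l.comp gA.toMonoidHom)) hθ hθg
    refine ⟨t, fun a => ?_⟩
    change conjChar A t (lf l) = lf (l.comp gA.toMonoidHom) at ht
    rw [← lf_cj] at ht
    exact (DFunLike.congr_fun (lf_inj ht) a).symm
  -- the norm of such an element
  have hnorm : ∀ l ∈ S, l ≠ 1 → ∀ t : N, (∀ a : A, l (gA a) = cj A t l a) →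
      nm (t : N ⧸ C) = (n0 : N ⧸ C) := by
    intro l hl hl1 t ht
    have hiter : ∀ i : ℕ, ∃ u : N, (u : N ⧸ C) = ∏ j ∈ Finset.range i, h^[j] (t : N ⧸ C) ∧
        ∀ a : A, l (gA^[i] a) = cj A u l a := by
      intro i
      induction i with
      | zero => exact ⟨1, by simp, fun a => by rw [cj_one]; rfl⟩
      | succ i ih =>
        obtain ⟨u, hu, hul⟩ := ih
        refine ⟨t * g.symm u, ?_, fun a => ?_⟩
        · rw [QuotientGroup.mk_mul, show ((g.symm u : N) : N ⧸ C) = h (u : N ⧸ C) from rfl, hu,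
            map_prod, Finset.prod_range_succ', mul_comm, Function.iterate_zero_apply]
          refine congrArg (· * _) (Finset.prod_congr rfl fun j _ => ?_)
          rw [Function.iterate_succ_apply']
        · rw [Function.iterate_succ_apply, hul, cj_apply]
          have e : (⟨u * (gA a : N) * u⁻¹, (inferInstance : A.Normal).conj_mem _ (gA a).2 u⟩ : A) =
              gA ⟨g.symm u * a * (g.symm u)⁻¹, (inferInstance : A.Normal).conj_mem _ a.2 _⟩ := by
            refine Subtype.ext ?_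
            show u * g (a : N) * u⁻¹ = g (g.symm u * a * (g.symm u)⁻¹)
            rw [map_mul, map_mul, map_inv, MulEquiv.apply_symm_apply]
          rw [e, ht, cj_mul, cj_apply A (g.symm u)]
    obtain ⟨u, hu, hul⟩ := hiter f
    show ∏ i ∈ Finset.range f, h^[i] (t : N ⧸ C) = _
    rw [← hu, QuotientGroup.eq]
    have hval : ∀ i (a : A), ((gA^[i] a : A) : N) = g^[i] (a : N) := by
      intro i
      induction i with
      | zero => intro a; rfl
      | succ i ih => intro a; rw [Function.iterate_succ_apply, ih, Function.iterate_succ_apply]; rfl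
    have heq : cj A u l = cj A n0 l := MonoidHom.ext fun a => by
      rw [← hul, cj_apply]
      exact congrArg l (Subtype.ext ((hval f a).trans (hG.iter _)))
    have hmem : u * n0⁻¹ ∈ St A l := by
      rw [mem_St, cj_mul, heq, ← cj_mul, mul_inv_cancel, cj_one]
    rw [hst l hl hl1] at hmem
    have := (hCn.mem_comm_iff).1 hmem
    simpa using inv_mem this
  -- the kernel of the norm
  set k := Nat.card nm.ker with hk
  have hfiter : ∀ z : N ⧸ C, h z = z → z ^ f = nm z := fun z hz => by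
    show _ = ∏ i ∈ Finset.range f, h^[i] z
    rw [Finset.prod_congr rfl fun i _ => Function.iterate_fixed hz i, Finset.prod_const, Finset.card_range]
  have hCcard : Nat.card (N ⧸ C) = C.index := rfl
  -- elements of the kernel move the linear characters
  have hmoved : ∀ n : N, (n : N ⧸ C) ∈ nm.ker → n ∉ C → g n * n⁻¹ ∉ commutator N := by
    intro n hn hnC hgn
    have h1 : h (n : N ⧸ C) = (n : N ⧸ C) := by
      have hgn' : g n * n⁻¹ ∈ C := hAC (htop hgn)
      have := hCgs hgn'
      show ((g.symm n : N) : N ⧸ C) = n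
      rw [QuotientGroup.eq]
      rw [Subgroup.mem_comap] at this
      simp only [MulEquiv.coe_toMonoidHom, map_mul, map_inv, MulEquiv.symm_apply_apply] at this
      exact (hCn.mem_comm_iff).1 this
    have h2 : (n : N ⧸ C) ^ f = 1 := (hfiter _ h1).trans hn
    have h3 : orderOf (n : N ⧸ C) = 1 := Nat.eq_one_of_dvd_coprimes hCf
      (hCcard ▸ orderOf_dvd_natCard _) (orderOf_dvd_of_pow_eq_one h2)
    exact hnC ((QuotientGroup.eq_one_iff n).1 (orderOf_eq_one_iff.1 h3))
  -- free actions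
  have hkq : C.index ∣ q - 1 := by
    let X := {l : S // l ≠ 1}
    letI : MulAction (N ⧸ C) X :=
      { smul := fun z l => ⟨⟨cj A z.out⁻¹ l.1.1, hcjS _ _ l.1.2⟩, fun h => l.2 (Subtype.ext (by
          have h' : cj A z.out⁻¹ l.1.1 = 1 := congrArg Subtype.val h
          have := congrArg (cj A z.out) h'
          rw [← cj_mul, inv_mul_cancel, cj_one] at this
          rw [this]
          rfl))⟩
        one_smul := fun l => Subtype.ext (Subtype.ext (by
          show cj A ((1 : N ⧸ C).out)⁻¹ l.1.1 = l.1.1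
          have : ((1 : N ⧸ C).out)⁻¹ ∈ St A l.1.1 := by
            rw [hst _ l.1.2 fun h => l.2 (Subtype.ext h)]
            exact inv_mem ((QuotientGroup.eq_one_iff _).1 (QuotientGroup.out_eq' _))
          exact (mem_St A).1 this))
        mul_smul := fun z z' l => Subtype.ext (Subtype.ext (by
          show cj A ((z * z').out)⁻¹ l.1.1 = cj A z.out⁻¹ (cj A z'.out⁻¹ l.1.1)
          rw [← cj_mul]
          have : (z'.out⁻¹ * z.out⁻¹) * (((z * z').out)⁻¹)⁻¹ ∈ St A l.1.1 := by
            rw [hst _ l.1.2 fun h => l.2 (Subtype.ext h), inv_inv, ← QuotientGroup.eq_one_iff]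
            simp [mul_assoc, mul_comm, mul_left_comm]
          have h2 := congrArg (cj A ((z * z').out)⁻¹) ((mem_St A).1 this)
          rw [← cj_mul, inv_mul_cancel_right] at h2
          exact h2.symm)) }
    have hd : Nat.card (N ⧸ C) ∣ Nat.card X := card_dvd_of_free fun z l hl => by
      have h1 : cj A z.out⁻¹ l.1.1 = l.1.1 := congrArg (fun w : X => w.1.1) hl
      have h2 : z.out⁻¹ ∈ St A l.1.1 := (mem_St A).2 h1
      rw [hst _ l.1.2 fun h => l.2 (Subtype.ext h)] at h2
      rw [← QuotientGroup.out_eq' z, QuotientGroup.eq_one_iff]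
      simpa using inv_mem h2
    rw [hCcard] at hd
    haveI : Fintype X := Fintype.ofFinite X
    rwa [Nat.card_eq_fintype_card, Fintype.card_subtype_compl, Fintype.card_subtype_eq,
      ← Nat.card_eq_fintype_card] at hd
  have heS0 : eS ≠ 0 := fun h => by rw [h, pow_zero] at heS; omega
  have hsa : C.index.Coprime s := by
    refine ((hs.coprime_iff_not_dvd).2 fun h => ?_).symm
    have h1 : s ∣ q - 1 := h.trans hkq
    have h2 : s ∣ q := heS ▸ dvd_pow_self s heS0
    have := Nat.dvd_sub h2 h1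
    rw [show q - (q - 1) = 1 by omega] at this
    exact hs.one_lt.ne' (Nat.dvd_one.1 this)
  have hk1 : k ∣ C.index := hCcard ▸ Subgroup.card_subgroup_dvd_card nm.ker
  have hkM : k ∣ Nat.card M - 1 := by
    haveI := Fintype.ofFinite (M →* ℂˣ)
    let X := {l : M →* ℂˣ // l ≠ 1}
    haveI : Fintype X := Fintype.ofFinite X
    have hCfix : ∀ c ∈ C, ∀ l : M →* ℂˣ, cj M c l = l := fun c hc l => MonoidHom.ext fun m => by
      rw [cj_apply]; exact congrArg l (Subtype.ext (by rw [Subgroup.coe_mk, hCM c hc m m.2, mul_inv_cancel_right]))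
    letI : MulAction nm.ker X :=
      { smul := fun z l => ⟨cj M (z : N ⧸ C).out⁻¹ l.1, fun h => l.2 (by
          have := congrArg (cj M (z : N ⧸ C).out) h
          rw [← cj_mul, inv_mul_cancel, cj_one] at this
          rw [this]; rfl)⟩
        one_smul := fun l => Subtype.ext (hCfix _ (inv_mem ((QuotientGroup.eq_one_iff _).1
          ((QuotientGroup.out_eq' _).trans (OneMemClass.coe_one _)))) _)
        mul_smul := fun z z' l => Subtype.ext (by
          show cj M (((z * z' : nm.ker) : N ⧸ C).out)⁻¹ l.1 = cj M (z : N ⧸ C).out⁻¹ (cj M (z' : N ⧸ C).out⁻¹ l.1)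
          rw [← cj_mul]
          have hm : ((z' : N ⧸ C).out⁻¹ * (z : N ⧸ C).out⁻¹) * ((((z * z' : nm.ker) : N ⧸ C).out)⁻¹)⁻¹ ∈ C := by
            rw [inv_inv, ← QuotientGroup.eq_one_iff]
            simp [mul_assoc, mul_comm, mul_left_comm]
          have h2 := congrArg (cj M (((z * z' : nm.ker) : N ⧸ C).out)⁻¹) (hCfix _ hm l.1)
          rw [← cj_mul, inv_mul_cancel_right] at h2
          exact h2.symm) }
    have hd : Nat.card nm.ker ∣ Nat.card X := card_dvd_of_free fun z l hl => by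
      by_contra hz
      have h1 : cj M (z : N ⧸ C).out⁻¹ l.1 = l.1 := congrArg (fun w : X => w.1) hl
      set w := (z : N ⧸ C).out⁻¹ with hw
      set i := (orderOf w).factorization s
      set n := w ^ s ^ i with hn
      have hnfix : cj M n l.1 = l.1 := (mem_St M).1 (Subgroup.pow_mem _ ((mem_St M).2 h1) _)
      have hwz : (w : N ⧸ C) = (z : N ⧸ C)⁻¹ := by rw [hw, QuotientGroup.mk_inv, QuotientGroup.out_eq']
      have hnker : (n : N ⧸ C) ∈ nm.ker := by
        rw [hn, QuotientGroup.mk_pow, hwz]; exact pow_mem (inv_mem z.2) _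
      have hnC : n ∉ C := by
        intro hmem
        have h2 : ((z : N ⧸ C)⁻¹) ^ s ^ i = 1 := by
          rw [← hwz, ← QuotientGroup.mk_pow]; exact (QuotientGroup.eq_one_iff _).2 hmem
        have h3 : orderOf ((z : N ⧸ C)⁻¹) = 1 := Nat.eq_one_of_dvd_coprimes (hsa.pow_right i)
          (hCcard ▸ orderOf_dvd_natCard _) (orderOf_dvd_of_pow_eq_one h2)
        rw [orderOf_eq_one_iff, inv_eq_one] at h3
        exact hz (Subtype.ext h3)
      have hns : ¬ s ∣ orderOf n := by
        rw [hn, orderOf_pow_of_dvd (pow_pos hs.pos _).ne' (Nat.ordProj_dvd _ _)]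
        exact Nat.not_dvd_ordCompl hs (orderOf_pos w).ne'
      refine l.2 (eq_one_of_fixed (A := M) (M := ⊥) ?_ n (fun m hm hc => ?_) l.1 (fun m hm => by
        rw [Subgroup.mem_bot] at hm; rw [show m = 1 from Subtype.ext hm, map_one]) hnfix)
      · rw [Subgroup.commutator_le]
        intro a ha b hb
        rw [Subgroup.mem_bot, commutatorElement_eq_one_iff_mul_comm]
        exact hMc a ha b (hMA hb)
      · refine hG.cent_rel ⊥ (hmoved n hnker hnC) (hA (hMA hm)) hc (Nat.Coprime.symm ?_)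
        exact coprime_of_pelt hs ⟨eM, by
          rw [← heM]; exact congrArg Subtype.val (pow_card_eq_one' (x := (⟨m, hm⟩ : M)))⟩ hns
    have hcard : Nat.card (M →* ℂˣ) = Nat.card M := by
      letI : CommGroup M :=
        { (inferInstance : Group M) with mul_comm := fun a b => Subtype.ext (hMc a a.2 b (hMA b.2)) }
      haveI : NeZero (Monoid.exponent M) := ⟨Monoid.exponent_ne_zero_of_finite⟩
      haveI : NeZero (Monoid.exponent M : ℂ) := NeZero.charZero
      exact CommGroup.card_monoidHom_of_hasEnoughRootsOfUnity M ℂ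
    rwa [Nat.card_eq_fintype_card (α := X), Fintype.card_subtype_compl, Fintype.card_subtype_eq,
      ← Nat.card_eq_fintype_card, hcard] at hd
  -- the fixed-point subgroups
  let F : N ⧸ C → Subgroup (A →* ℂˣ) := fun z =>
    { carrier := {l | l ∈ S ∧ ∀ a : A, l (gA a) = cj A z.out l a}
      one_mem' := ⟨S.one_mem, fun a => by simp [cj_apply]⟩
      mul_mem' := fun {l l'} h1 h2 => ⟨S.mul_mem h1.1 h2.1, fun a => by
        rw [cj_prod, MonoidHom.mul_apply, MonoidHom.mul_apply, h1.2, h2.2]⟩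
      inv_mem' := fun {l} h1 => ⟨S.inv_mem h1.1, fun a => by
        rw [TwoDegPrime.cj_inv, MonoidHom.inv_apply, MonoidHom.inv_apply, h1.2]⟩ }
  have hsep : ∀ z z', ∀ l ∈ F z, l ∈ F z' → l ≠ 1 → z = z' := by
    intro z z' l h1 h2 hl1
    have e : cj A z.out l = cj A z'.out l := MonoidHom.ext fun a => (h1.2 a).symm.trans (h2.2 a)
    have hm : z.out * z'.out⁻¹ ∈ St A l := by
      rw [mem_St, cj_mul, e, ← cj_mul, mul_inv_cancel, cj_one]
    rw [hst l h1.1 hl1] at hm
    have h3 := (QuotientGroup.eq_one_iff _).2 hm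
    rw [QuotientGroup.mk_mul, QuotientGroup.mk_inv, QuotientGroup.out_eq', QuotientGroup.out_eq',
      mul_inv_eq_one] at h3
    exact h3
  set Z0 := Finset.univ.filter fun z : N ⧸ C => nm z = (n0 : N ⧸ C) with hZ0
  have hZk : Z0.card ≤ k := by
    rcases Z0.eq_empty_or_nonempty with he | ⟨z₀, hz₀⟩
    · simp [he]
    · have hz₀' := (Finset.mem_filter.1 hz₀).2
      rw [hk, ← Nat.card_eq_finsetCard]
      exact Nat.card_le_card_of_injective
        (fun z : Z0 => (⟨z.1 * z₀⁻¹, by
          rw [MonoidHom.mem_ker, map_mul, map_inv, (Finset.mem_filter.1 z.2).2, hz₀', mul_inv_cancel]⟩ : nm.ker))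
        fun z z' h => Subtype.ext (mul_right_cancel (congrArg Subtype.val h))
  have hkk : q < k * k := by
    refine counting Z0 (fun z => Nat.card (F z)) hZk hq2 ?_ ?_ ?_
    · haveI : Fintype (A →* ℂˣ) := Fintype.ofFinite _
      let SS : Finset (A →* ℂˣ) := (Finset.univ.filter fun l => l ∈ S).erase 1
      have hSS : SS.card = q - 1 := by
        rw [Finset.card_erase_of_mem (Finset.mem_filter.2 ⟨Finset.mem_univ _, S.one_mem⟩), hq,
          Nat.card_eq_fintype_card, Fintype.card_subtype]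
      let FF : N ⧸ C → Finset (A →* ℂˣ) := fun z => (Finset.univ.filter fun l => l ∈ F z).erase 1
      have hFF : ∀ z, (FF z).card = Nat.card (F z) - 1 := fun z => by
        rw [Finset.card_erase_of_mem (Finset.mem_filter.2 ⟨Finset.mem_univ _, (F z).one_mem⟩),
          Nat.card_eq_fintype_card, Fintype.card_subtype]
      have hsub : SS ⊆ Z0.biUnion FF := by
        intro l hl
        obtain ⟨hl1, hl2⟩ := Finset.mem_erase.1 hl
        have hlS := (Finset.mem_filter.1 hl2).2
        obtain ⟨t, ht⟩ := hmove l hlS hl1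
        have hrep : ∀ a : A, l (gA a) = cj A (t : N ⧸ C).out l a := by
          intro a
          rw [ht]
          have hmem : (t : N ⧸ C).out * t⁻¹ ∈ St A l := by
            rw [hst l hlS hl1, ← QuotientGroup.eq_one_iff, QuotientGroup.mk_mul, QuotientGroup.mk_inv,
              QuotientGroup.out_eq', mul_inv_cancel]
          have h2 := congrArg (cj A t) ((mem_St A).1 hmem)
          rw [← cj_mul, inv_mul_cancel_right] at h2
          rw [h2]
        refine Finset.mem_biUnion.2 ⟨(t : N ⧸ C), Finset.mem_filter.2 ⟨Finset.mem_univ _, hnorm l hlS hl1 t ht⟩,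
          Finset.mem_erase.2 ⟨hl1, Finset.mem_filter.2 ⟨Finset.mem_univ _, hlS, hrep⟩⟩⟩
      rw [← hSS, ← Finset.sum_congr rfl fun z _ => hFF z]
      exact (Finset.card_le_card hsub).trans Finset.card_biUnion_le
    · intro z _
      rw [hq]
      have hle : F z ≤ S := fun l hl => hl.1
      refine lt_of_le_of_ne (Subgroup.card_le_of_le hle) fun he => ?_
      have heq : F z = S := Subgroup.eq_of_le_of_card_ge hle he.ge
      -- `g` would act on `A / M` as an element of `N`
      obtain ⟨y, hy⟩ : ∃ y, y ∉ K := by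
        by_contra h'
        push Not at h'
        exact hG.ne_top (eq_top_iff.2 fun y _ => h' y)
      have hxK : g y * y⁻¹ ∉ K := fun h => hy (hG.fpf y h)
      obtain ⟨j, hj, hjK⟩ := hG.exists_pelt hxK
      have hgyC : g y * y⁻¹ ∈ C := by
        have hl : ∀ a : A, l₀ (gA a) = cj A z.out l₀ a := ((heq.ge hl₀) : l₀ ∈ F z).2
        have hgen : ∀ l ∈ S, ∀ a : A, l (gA a) = cj A z.out l a := fun l hl => (heq.ge hl : l ∈ F z).2
        have e : cj A (z.out * y) l₀ = cj A (g y * z.out) l₀ := by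
          refine MonoidHom.ext fun a => ?_
          rw [cj_mul, cj_apply, ← hl, cj_mul, ← hgen _ (hcjS (g y) l₀ hl₀) a, cj_apply]
          exact congrArg l₀ (Subtype.ext (by
            show g ((y : N) * a * (y : N)⁻¹) = g y * g (a : N) * (g y)⁻¹
            rw [map_mul, map_mul, map_inv]))
        have hm : g y * z.out * (z.out * y)⁻¹ ∈ C := (mem_St A).2 (by
          rw [cj_mul, ← e, ← cj_mul, mul_inv_cancel, cj_one])
        rw [← QuotientGroup.eq_one_iff] at hm ⊢
        rw [← hm]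
        simp only [QuotientGroup.mk_mul, QuotientGroup.mk_inv]
        have key : ∀ a b w : N ⧸ C, a * b⁻¹ = a * w * (w * b)⁻¹ := fun a b w => by
          rw [mul_inv_rev, mul_assoc a w, ← mul_assoc w, mul_comm w b⁻¹, mul_assoc b⁻¹, mul_inv_cancel,
            mul_one]
        exact key _ _ _
      refine hl₀1 (eq_one_of_fixed hAM ((g y * y⁻¹) ^ j)
        (fun a ha hc => hG.cent_rel M (hG.moved hjK) (hA ha) hc
          (coprime_of_pelt hG.prime hj (not_dvd_orderOf hpA ha))) l₀ hl₀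
        ((mem_St A).1 (Subgroup.pow_mem _ hgyC j)))
    · intro z _ z' _ hne
      rw [hq, ← Nat.card_prod]
      refine Nat.card_le_card_of_injective
        (fun w : F z × F z' => (⟨w.1.1 * w.2.1, S.mul_mem w.1.2.1 w.2.2.1⟩ : S)) fun w w' h => ?_
      have h' : w.1.1 * w.2.1 = w'.1.1 * w'.2.1 := congrArg Subtype.val h
      have h2 : w'.1.1⁻¹ * w.1.1 = w'.2.1 * w.2.1⁻¹ := MonoidHom.ext fun a => by
        have h5 := DFunLike.congr_fun h' a
        simp only [MonoidHom.mul_apply, MonoidHom.inv_apply] at h5 ⊢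
        rw [inv_mul_eq_iff_eq_mul, ← mul_assoc, ← h5, mul_inv_cancel_right]
      have h3 : w'.1.1⁻¹ * w.1.1 = 1 := by
        by_contra hne1
        exact hne (hsep z z' _ ((F z).mul_mem ((F z).inv_mem w'.1.2) w.1.2)
          (h2 ▸ (F z').mul_mem w'.2.2 ((F z').inv_mem w.2.2)) hne1)
      refine Prod.ext (Subtype.ext (inv_mul_eq_one.1 h3).symm) (Subtype.ext ?_)
      rw [h3] at h2
      exact (mul_inv_eq_one.1 h2.symm).symm
  -- the final inequality
  have hd : k ∣ s ^ Nat.gcd eS eM - 1 := by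
    rw [← Nat.pow_sub_one_gcd_pow_sub_one, ← heS, ← heM]
    exact Nat.dvd_gcd (hk1.trans hkq) hkM
  have heM0 : eM ≠ 0 := fun h => by rw [h, pow_zero] at heM; omega
  have hlt : eM < eS := by
    have := hMq
    rw [heM, heS] at this
    exact (Nat.pow_lt_pow_iff_right hs.one_lt).1 this
  set d := Nat.gcd eS eM with hdd
  have hd0 : 0 < d := Nat.gcd_pos_of_pos_right _ (Nat.pos_of_ne_zero heM0)
  have hdle : d ≤ eM := Nat.gcd_le_right _ (Nat.pos_of_ne_zero heM0)
  obtain ⟨c, hc⟩ := Nat.gcd_dvd_left eS eM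
  have hc2 : 2 ≤ c := by
    rcases c with _ | _ | c
    · simp at hc; omega
    · simp only [zero_add, mul_one] at hc; omega
    · omega
  have hsd : s ^ d * s ^ d ≤ q := by
    rw [← pow_add, heS]
    refine Nat.pow_le_pow_right hs.pos ?_
    rw [hc, ← hdd, ← two_mul, mul_comm d c]
    exact Nat.mul_le_mul_right _ hc2
  have hkd : k ≤ s ^ d := (Nat.le_of_dvd (by
    have : 1 < s ^ d := Nat.one_lt_pow hd0.ne' hs.one_lt
    omega) hd).trans (Nat.sub_le _ _)
  exact (hkk.trans_le ((Nat.mul_le_mul hkd hkd).trans hsd)).false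

end Cfsg.Agent.Lib.Char.Disconn
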