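import Cfsg.Agent.Lib.Char.Disconn.Tools
import Cfsg.Agent.Lib.Char.Disconn.Central
import Cfsg.Agent.Lib.Char.RelGraph.Orbits

/-!
# One nonlinear degree
-/

set_option autoImplicit false
set_option linter.unusedSectionVars false
set_option linter.style.haveILetI false

namespace Cfsg.Agent.Lib.Char.Disconn

open Cfsg Cfsg.Agent.Lib Cfsg.Agent.Lib.Char
open Cfsg.Agent.Lib.Char.TwoDegPrime (lf lf_inj cj lf_cj cj_apply cj_mul cj_one St mem_St)
open scoped commutatorElement

universe u

variable {N : Type u} [Group N] [Finite N] {p f : ℕ} {g : N ≃* N} {n0 : N} {K : Subgroup N}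

/-- A nontrivial normal subgroup of a nilpotent group meets the centre. -/
theorem inf_center_ne_bot {G : Type*} [Group G] [Group.IsNilpotent G] {N : Subgroup G} [hn : N.Normal]
    (h : N ≠ ⊥) : N ⊓ Subgroup.center G ≠ ⊥ := by
  intro h0
  have key : ∀ n, N ⊓ Subgroup.upperCentralSeries G n = ⊥ := by
    intro n
    induction n with
    | zero => simp
    | succ n ih =>
      refine (Subgroup.eq_bot_iff_forall _).2 fun x ⟨hx, hx'⟩ => ?_
      refine (Subgroup.eq_bot_iff_forall _).1 h0 x ⟨hx, Subgroup.mem_center_iff.2 fun g => ?_⟩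
      have e : x * g * x⁻¹ * g⁻¹ = 1 := (Subgroup.eq_bot_iff_forall _).1 ih _
        ⟨by rw [show x * g * x⁻¹ * g⁻¹ = x * (g * x⁻¹ * g⁻¹) by group]
            exact mul_mem hx (hn.conj_mem _ (inv_mem hx) g),
         Subgroup.mem_upperCentralSeries_succ_iff.1 hx' g⟩
      rw [mul_inv_eq_one, mul_inv_eq_iff_eq_mul] at e
      exact e.symm
  obtain ⟨n, hn'⟩ := Group.IsNilpotent.nilpotent (G := G)
  exact h (by simpa [hn'] using key n)

theorem Good.quotient (hG : Good p f g n0 K) (M : Subgroup N) [M.Normal] (hMg : GInv g M)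
    (hMK : M ≤ K) :
    Good p f (QuotientGroup.congr M M g (ginv_map_eq hMg)) (n0 : N ⧸ M) (K.map (QuotientGroup.mk' M)) := by
  have hmem : ∀ x : N, (x : N ⧸ M) ∈ K.map (QuotientGroup.mk' M) ↔ x ∈ K := fun x =>
    ⟨fun ⟨y, hy, he⟩ => by
      have h1 : y⁻¹ * x ∈ K := hMK (QuotientGroup.eq.1 he)
      simpa using mul_mem hy h1, fun h => ⟨x, h, rfl⟩⟩
  have hap : ∀ x : N, QuotientGroup.congr M M g (ginv_map_eq hMg) (x : N ⧸ M) = ((g x : N) : N ⧸ M) :=
    fun x => rfl
  haveI := Fintype.ofFinite N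
  haveI := Fintype.ofFinite (N ⧸ M)
  have hdeg := fun μ : IrrCharacter (N ⧸ M) => ThreeDeg.deg_inflate M μ
  refine ⟨hG.prime, hG.normal.map _ (QuotientGroup.mk'_surjective M), ?_, fun h => hG.ne_top ?_,
    ?_, ?_, ?_, ?_, ?_, ?_, ?_, ?_⟩
  · rw [← derivedSeries_one, ← map_derivedSeries_eq (QuotientGroup.mk'_surjective M), derivedSeries_one]
    exact Subgroup.map_mono hG.comm_le
  · rw [eq_top_iff]
    exact fun x _ => (hmem x).1 (h ▸ Subgroup.mem_top _)
  · intro x hx
    obtain ⟨x, rfl⟩ := QuotientGroup.mk_surjective x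
    rw [hap, hmem]
    exact hG.gmem x ((hmem x).1 hx)
  · intro x
    obtain ⟨x, rfl⟩ := QuotientGroup.mk_surjective x
    obtain ⟨k, hk⟩ := hG.pow x
    exact ⟨k, by rw [← QuotientGroup.mk_pow, hmem]; exact hk⟩
  · intro x hx
    obtain ⟨x, rfl⟩ := QuotientGroup.mk_surjective x
    rw [hap, ← QuotientGroup.mk_inv, ← QuotientGroup.mk_mul, hmem] at hx
    exact (hmem x).2 (hG.fpf x hx)
  · intro x
    obtain ⟨x, rfl⟩ := QuotientGroup.mk_surjective x
    have : ∀ j : ℕ, (QuotientGroup.congr M M g (ginv_map_eq hMg))^[j] (x : N ⧸ M) = ((g^[j] x : N) : N ⧸ M) := by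
      intro j
      induction j with
      | zero => rfl
      | succ j ih => rw [Function.iterate_succ_apply', ih, hap, Function.iterate_succ_apply']
    rw [this, hG.iter]; rfl
  · intro μ hμ x
    obtain ⟨x, rfl⟩ := QuotientGroup.mk_surjective x
    have := hG.inv (inflateEquiv M μ).1 (by rwa [hdeg]) x
    rw [inflateEquiv_apply, inflateEquiv_apply] at this
    exact this
  · intro μ hμ
    have := hG.dvd (inflateEquiv M μ).1 (by rwa [hdeg])
    rwa [hdeg] at this
  · intro μ hμ
    have := hG.cop (inflateEquiv M μ).1 (by rwa [hdeg])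
    rwa [hdeg] at this
  · intro μ μ' hμ h
    have := hG.anti (inflateEquiv M μ).1 (inflateEquiv M μ').1 (by rwa [hdeg])
    rw [hdeg, hdeg] at this
    exact this h

/-- If the only minimal subgroups are `p`-groups then the derived group is a `p`-group. -/
theorem Good.single_of_pgroups [Group.IsSolvable N] (hG : Good p f g n0 K)
    (hder : ∀ M, IsMin g M → ⁅commutator N, commutator N⁆ ≤ M)
    (hall : ∀ M, IsMin g M → p ∣ Nat.card M) (M : Subgroup N) (hM : IsMin g M) : Single N := by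
  classical
  haveI := Fintype.ofFinite N
  haveI := Fact.mk hG.prime
  haveI := hM.normal
  have hMp : IsPGroup p M := by
    obtain ⟨-, s, hs, hsM⟩ := hM.elementary
    haveI := Fact.mk hs
    obtain ⟨k, hk⟩ := IsPGroup.iff_card.1 hsM
    have h := hall M hM
    rw [hk] at h
    exact ((Nat.prime_dvd_prime_iff_eq hG.prime hs).1 (hG.prime.dvd_of_dvd_pow h)) ▸ hsM
  suffices hN' : IsPGroup p (commutator N) by
    obtain ⟨-, h2⟩ := pgroup_derived hG.prime hG.dvd hN'
    intro θ θ' hθ hθ'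
    obtain ⟨i, hi⟩ := h2 θ
    obtain ⟨j, hj⟩ := h2 θ'
    rcases le_total i j with h | h
    · exact hG.anti θ θ' hθ (by rw [hi, hj]; exact Nat.pow_dvd_pow p h)
    · exact (hG.anti θ' θ hθ' (by rw [hi, hj]; exact Nat.pow_dvd_pow p h)).symm
  intro y
  by_contra hy
  push Not at hy
  obtain ⟨q, hq, hqd, hqp⟩ : ∃ q, q.Prime ∧ q ∣ orderOf y ∧ q ≠ p := by
    by_contra h
    push Not at h
    obtain ⟨k, hk⟩ : ∃ k, orderOf y = p ^ k :=
      ⟨_, Nat.eq_prime_pow_of_unique_prime_dvd (orderOf_pos _).ne' fun {d} hd hdd => h d hd hdd⟩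
    exact hy k (by rw [← hk, pow_orderOf_eq_one])
  haveI := Fact.mk hq
  set A := pre (commutator N) M (hder M hM) (fun m => ∃ k, m = q ^ k) ⟨0, rfl⟩
    (fun a b ⟨i, hi⟩ ⟨j, hj⟩ => ⟨i + j, by rw [hi, hj, pow_add]⟩) with hA
  haveI : A.Normal := pre_normal
  have hAg : GInv g A := pre_ginv (ginv_commutator g) hM.ginv
  have hMA : M ≤ A := fun m hm => ⟨hM.le hm, 1, ⟨0, rfl⟩, by simpa using hm⟩
  have hqM : ¬ q ∣ Nat.card M := by
    obtain ⟨k, hk⟩ := IsPGroup.iff_card.1 hMp
    rw [hk]
    exact fun h => hqp ((Nat.prime_dvd_prime_iff_eq hq hG.prime).1 (hq.dvd_of_dvd_pow h))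
  obtain ⟨R, hRq, hRA, hMR, hAR, hsup, hNC⟩ := split (q := q) A M hMA hM.elementary.1 hqM
    (fun a ha => by obtain ⟨-, m, ⟨k, rfl⟩, h⟩ := ha; exact ⟨k, h⟩)
  have hRne : R ≠ ⊥ := by
    intro hR
    obtain ⟨d, hd⟩ := hqd
    have hd' : ((y : N) ^ d) ^ q = 1 := by
      rw [← pow_mul, mul_comm, ← hd, ← Subgroup.coe_pow, pow_orderOf_eq_one, Subgroup.coe_one]
    have hmem : (y : N) ^ d ∈ A := ⟨pow_mem y.2 _, q, ⟨1, (pow_one q).symm⟩, by rw [hd']; exact one_mem M⟩
    obtain ⟨m, hm, r, hr, he⟩ := hAR _ hmem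
    rw [hR, Subgroup.mem_bot] at hr
    rw [hr, mul_one] at he
    have h1 : (y : N) ^ d = 1 := by
      by_contra hne
      exact not_dvd_orderOf hqM (he ▸ hm) (orderOf_eq_prime hd' hne ▸ dvd_rfl)
    have h2 := orderOf_dvd_of_pow_eq_one (show y ^ d = 1 from Subtype.ext h1)
    rw [hd] at h2
    have hd0 : 0 < d := Nat.pos_of_ne_zero fun h => by
      rw [h, mul_zero] at hd; exact (orderOf_pos y).ne' hd
    exact (Nat.le_of_dvd hd0 h2).not_gt (lt_mul_of_one_lt_left hd0 hq.one_lt)
  by_cases hC : M ⊓ Subgroup.centralizer (A : Set N) = ⊥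
  · -- a linear character of `M` with orbit prime to `p`
    haveI := Fintype.ofFinite M
    letI : CommGroup M :=
      { (inferInstance : Group M) with
        mul_comm := fun a b => Subtype.ext (by
          have := hM.elementary.1.le (Subgroup.commutator_mem_commutator a.2 b.2)
          rw [Subgroup.mem_bot, commutatorElement_eq_one_iff_mul_comm] at this
          exact this) }
    haveI : NeZero (Monoid.exponent M) := ⟨Monoid.exponent_ne_zero_of_finite⟩
    haveI : NeZero (Monoid.exponent M : ℂ) := NeZero.charZero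
    have hcard : Nat.card (M →* ℂˣ) = Nat.card M :=
      CommGroup.card_monoidHom_of_hasEnoughRootsOfUnity M ℂ
    haveI : Finite (M →* ℂˣ) := Nat.finite_of_card_ne_zero (hcard ▸ Nat.card_pos.ne')
    let P : Sylow p N := default
    letI : MulAction (P : Subgroup N) (M →* ℂˣ) :=
      { smul := fun t l => cj M (t : N)⁻¹ l
        one_smul := fun l => by
          show cj M ((1 : (P : Subgroup N)) : N)⁻¹ l = l
          rw [Subgroup.coe_one, inv_one, cj_one]
        mul_smul := fun t t' l => by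
          show cj M ((t * t' : (P : Subgroup N)) : N)⁻¹ l = cj M (t : N)⁻¹ (cj M (t' : N)⁻¹ l)
          rw [Subgroup.coe_mul, mul_inv_rev, cj_mul] }
    obtain ⟨l, hl, hl1⟩ := P.isPGroup'.exists_fixed_point_of_prime_dvd_card_of_fixed_point
      (M →* ℂˣ) (hcard ▸ hall M hM) (a := 1) (fun t => MonoidHom.ext fun m => rfl)
    have hPT : (P : Subgroup N) ≤ St M l := fun t ht => by
      have h := hl ⟨t⁻¹, inv_mem ht⟩
      change cj M (t⁻¹)⁻¹ l = l at h
      rw [inv_inv] at h
      exact (mem_St M).2 h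
    have hCR : M ⊓ Subgroup.centralizer (R : Set N) = ⊥ := by
      rw [eq_bot_iff]
      rintro m ⟨hm, hmR⟩
      rw [← hC]
      exact ⟨hm, hNC ⟨hm, Subgroup.centralizer_le_normalizer _ hmR⟩⟩
    have hT : St M l ≠ ⊤ := fun h => hl1 (eq_one_of_coprime_fixed M R hM.elementary.1 (by
        obtain ⟨i, hi⟩ := IsPGroup.iff_card.1 hRq
        rw [hi]; exact (hq.coprime_iff_not_dvd.2 hqM).pow_left i) hCR l
      fun r _ => (mem_St M).1 (h ▸ Subgroup.mem_top r)).symm
    obtain ⟨-, ⟨θ, hθ⟩, -⟩ := over_linear hG M (Subgroup.normalizer (R : Set N)) hsup (by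
      rw [eq_bot_iff]
      rintro m ⟨hm, hmR⟩
      rw [← hC]; exact ⟨hm, hNC ⟨hm, hmR⟩⟩) l hT
    have hne : charDegree (θ : N → ℂ) ≠ 1 := by rw [hθ]; exact fun h => hT (Subgroup.index_eq_one.1 h)
    exact P.not_dvd_index ((hG.dvd θ hne).trans (hθ ▸ Subgroup.index_dvd_of_le hPT))
  · -- a normal `q`-subgroup
    have hMC : M ≤ Subgroup.centralizer (A : Set N) := by
      have h := hM.min _ inferInstance (ginv_inf hM.ginv (ginv_centralizer hAg)) inf_le_left hC
      exact h ▸ inf_le_right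
    have hRset : ∀ a ∈ A, (∃ k, a ^ q ^ k = 1) → a ∈ R := by
      rintro a ha ⟨k, hk⟩
      obtain ⟨m, hm, r, hr, rfl⟩ := hAR a ha
      obtain ⟨i, hi⟩ := hRq ⟨r, hr⟩
      have hi' : r ^ q ^ i = 1 := congrArg Subtype.val hi
      have hcm : Commute m r := (Subgroup.mem_centralizer_iff.1 (hMC hm) r (hRA hr)).symm
      have h1 : m ^ q ^ (k + i) = 1 := by
        have h2 : (m * r) ^ q ^ (k + i) = 1 := by rw [pow_add, pow_mul, hk, one_pow]
        rw [hcm.mul_pow, pow_add, mul_comm (q ^ k), pow_mul r, hi', one_pow, mul_one] at h2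
        rw [pow_add, mul_comm]; exact h2
      have : m = 1 := by
        by_contra hne
        obtain ⟨j, -, hj⟩ := (Nat.dvd_prime_pow hq).1 (orderOf_dvd_of_pow_eq_one h1)
        rcases Nat.eq_zero_or_pos j with rfl | hj0
        · exact hne (orderOf_eq_one_iff.1 (by simpa using hj))
        · exact not_dvd_orderOf hqM hm (hj ▸ dvd_pow_self q hj0.ne')
      rwa [this, one_mul]
    have hRn : R.Normal := ⟨fun r hr c => by
      refine hRset _ ((inferInstance : A.Normal).conj_mem r (hRA hr) c) ?_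
      obtain ⟨i, hi⟩ := hRq ⟨r, hr⟩
      exact ⟨i, by rw [conj_pow, show r ^ q ^ i = 1 from congrArg Subtype.val hi, mul_one, mul_inv_cancel]⟩⟩
    have hRg : GInv g R := fun r hr => by
      refine hRset _ (hAg r (hRA hr)) ?_
      obtain ⟨i, hi⟩ := hRq ⟨r, hr⟩
      exact ⟨i, by rw [← map_pow, show r ^ q ^ i = 1 from congrArg Subtype.val hi, map_one]⟩
    obtain ⟨M₂, hM₂, hle⟩ := exists_min g hRn hRg hRne (hRA.trans fun a ha => ha.1)
    obtain ⟨i, hi⟩ := IsPGroup.iff_card.1 hRq
    have := (hall M₂ hM₂).trans (Subgroup.card_dvd_of_le hle)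
    rw [hi] at this
    exact hqp ((Nat.prime_dvd_prime_iff_eq hG.prime hq).1 (hG.prime.dvd_of_dvd_pow this)).symm

set_option maxHeartbeats 1000000 in
/-- A minimal subgroup of order prime to `p`. -/
theorem Good.single_of_min [Group.IsSolvable N] (hG : Good p f g n0 K)
    (hder : ∀ M, IsMin g M → ⁅commutator N, commutator N⁆ ≤ M)
    (M : Subgroup N) (hM : IsMin g M) (hpM : ¬ p ∣ Nat.card M) : Single N := by
  classical
  haveI := Fintype.ofFinite N
  haveI := Fact.mk hG.prime
  haveI := hM.normal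
  set A := pre (commutator N) M (hder M hM) (fun m => ¬ p ∣ m) hG.prime.not_dvd_one
    (fun a b ha hb h => (hG.prime.dvd_mul.1 h).elim ha hb) with hAdef
  haveI hAn : A.Normal := pre_normal
  have hAg : GInv g A := pre_ginv (ginv_commutator g) hM.ginv
  have hMA : M ≤ A := fun m hm => ⟨hM.le hm, 1, hG.prime.not_dvd_one, by simpa using hm⟩
  have hA : A ≤ commutator N := fun a ha => ha.1
  have hpA : ¬ p ∣ Nat.card A := by
    intro h
    obtain ⟨y, hy⟩ := exists_prime_orderOf_dvd_card' (G := A) p h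
    obtain ⟨-, m, hm, hym⟩ := y.2
    have h1 : ((y : N) ^ m) ^ p = 1 := by
      rw [← pow_mul, mul_comm, pow_mul, ← Subgroup.coe_pow, ← hy, pow_orderOf_eq_one, Subgroup.coe_one,
        one_pow]
    have h2 : (y : N) ^ m = 1 := by
      by_contra hne
      exact not_dvd_orderOf hpM hym (orderOf_eq_prime h1 hne ▸ dvd_rfl)
    exact hm (hy ▸ orderOf_dvd_of_pow_eq_one (show y ^ m = 1 from Subtype.ext h2))
  have hNA : ∀ y ∈ commutator N, ∃ k, y ^ p ^ k ∈ A := fun y hy =>
    ⟨(orderOf y).factorization p, pow_mem hy _, ordCompl[p] (orderOf y),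
      Nat.not_dvd_ordCompl hG.prime (orderOf_pos y).ne', by
      rw [← pow_mul, Nat.ordProj_mul_ordCompl_eq_self, pow_orderOf_eq_one]; exact one_mem M⟩
  by_cases hAab : ⁅A, A⁆ = ⊥
  · exact hG.single_of_abelian A hAab.le hA hpA hNA
  exfalso
  have hAM : ⁅A, A⁆ ≤ M := (Subgroup.commutator_mono hA hA).trans (hder M hM)
  have hAA : ⁅A, A⁆ = M := hM.min _ inferInstance (ginv_comm g hAg hAg) hAM hAab
  have hMab := hM.elementary.1
  obtain ⟨-, s, hs, hsM⟩ := hM.elementary
  haveI := Fact.mk hs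
  have hsp : s ≠ p := by
    rintro rfl
    obtain ⟨k, hk⟩ := IsPGroup.iff_card.1 hsM
    rcases Nat.eq_zero_or_pos k with rfl | hk0
    · exact hM.ne_bot (Subgroup.card_eq_one.1 (by simpa using hk))
    · exact hpM (hk ▸ dvd_pow_self s hk0.ne')
  haveI := Fintype.ofFinite A
  haveI := Fintype.ofFinite (N ⧸ A)
  -- nonabelian `N / A`: the centre of `N / A` centralises `A / M`
  have hnonab : ¬ commutator N ≤ A → (∃ θ₀ : IrrCharacter N, (∀ a ∈ A, (θ₀ : N → ℂ) a = (θ₀ : N → ℂ) 1) ∧
      charDegree (θ₀ : N → ℂ) ≠ 1) ∧ ∀ z ∈ zpre A, ∀ a ∈ A, ⁅z, a⁆ ∈ M := by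
    intro htop
    obtain ⟨θ₀, hθ₀, h0⟩ : ∃ θ₀ : IrrCharacter N, (∀ a ∈ A, (θ₀ : N → ℂ) a = (θ₀ : N → ℂ) 1) ∧
        charDegree (θ₀ : N → ℂ) ≠ 1 := by
      by_contra h
      push Not at h
      refine htop ?_
      have hc := ThreeDeg.comm_of_all_one (G := N ⧸ A) fun μ => by
        rw [← ThreeDeg.deg_inflate A μ]; exact h _ (inflateEquiv A μ).2
      rw [commutator_def, Subgroup.commutator_le]
      intro x _ y _
      rw [← QuotientGroup.eq_one_iff, ← QuotientGroup.mk'_apply, map_commutatorElement,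
        commutatorElement_eq_one_iff_mul_comm]
      exact hc _ _
    refine ⟨⟨θ₀, hθ₀, h0⟩, fun z hz a ha => ?_⟩
    by_contra hno
    have hza : ⁅z, a⁆ ∈ A := by
      rw [commutatorElement_def]
      exact mul_mem (hAn.conj_mem a ha z) (inv_mem ha)
    obtain ⟨l, hl, hl1⟩ := exists_char_ne M hAM (a := ⟨_, hza⟩) hno
      (fun x _ m hm => hM.normal.conj_mem m hm x)
    obtain ⟨-, hT, ⟨θ, hθ⟩, -⟩ := hG.orbits A M hAM hA hpA hNA l hl
      (fun h => hl1 (by rw [h, MonoidHom.one_apply]))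
    obtain ⟨hd1, hd2⟩ := hG.pdeg A hNA θ₀ hθ₀ _ hT
    have hidx := (hG.anti θ₀ θ h0 (hθ ▸ hd1)).trans hθ
    have hzT := hd2 hidx.symm (le_inertia A (isClassFunction_of_isIrr (isIrrCharacter_linear l))) hz
    refine hl1 ?_
    have e : (⟨⁅z, a⁆, hza⟩ : A) = ⟨z * a * z⁻¹, hAn.conj_mem a ha z⟩ * (⟨a, ha⟩ : A)⁻¹ :=
      Subtype.ext (by simp [commutatorElement_def])
    rw [e, map_mul, map_inv, ← cj_apply A z l ⟨a, ha⟩, (mem_St A).1 hzT, mul_inv_cancel]
  by_cases hMC : M ≤ Subgroup.centralizer (A : Set N)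
  · -- `M` central in `A`
    have htop : commutator N ≤ A := by
      by_contra htop
      obtain ⟨-, hz⟩ := hnonab htop
      have hnil : Group.IsNilpotent (N ⧸ A) := by
        haveI : Group.IsNilpotent ((N ⧸ A) ⧸ Subgroup.center (N ⧸ A)) := IsPGroup.isNilpotent (p := p) fun x => by
          obtain ⟨x, rfl⟩ := QuotientGroup.mk_surjective x
          refine ⟨(orderOf x).factorization p, ?_⟩
          rw [← QuotientGroup.mk_pow, QuotientGroup.eq_one_iff]
          refine (hG.quot_facts A hNA).1 _ ?_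
          rw [orderOf_pow_of_dvd (pow_pos hG.prime.pos _).ne' (Nat.ordProj_dvd _ _)]
          exact Nat.not_dvd_ordCompl hG.prime (orderOf_pos x).ne'
        exact Subgroup.isNilpotent_of_ker_le_center (QuotientGroup.mk' (Subgroup.center (N ⧸ A)))
          (le_of_eq (QuotientGroup.ker_mk' _))
      set Y := commutator N ⊓ zpre A with hY
      obtain ⟨y, hy, hyA⟩ : ∃ y ∈ Y, y ∉ A := by
        by_contra h
        push Not at h
        have hbot : commutator (N ⧸ A) ⊓ Subgroup.center (N ⧸ A) = ⊥ := by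
          rw [eq_bot_iff]
          rintro x ⟨hx1, hx2⟩
          have hx1' : x ∈ (commutator N).map (QuotientGroup.mk' A) := by
            rwa [← derivedSeries_one, map_derivedSeries_eq (QuotientGroup.mk'_surjective A),
              derivedSeries_one]
          obtain ⟨c, hc, rfl⟩ := hx1'
          rw [Subgroup.mem_bot]
          exact (QuotientGroup.eq_one_iff c).2 (h c ⟨hc, hx2⟩)
        refine htop fun c hc => (QuotientGroup.eq_one_iff c).1 ?_
        have hcb : commutator (N ⧸ A) = ⊥ := by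
          by_contra hne
          haveI := hnil
          exact inf_center_ne_bot hne hbot
        have : (c : N ⧸ A) ∈ commutator (N ⧸ A) := by
          rw [← derivedSeries_one, ← map_derivedSeries_eq (QuotientGroup.mk'_surjective A),
            derivedSeries_one]
          exact ⟨c, hc, rfl⟩
        rw [hcb, Subgroup.mem_bot] at this
        exact this
      -- its `p`-part
      obtain ⟨k, hk⟩ := hNA y hy.1
      set z := y ^ ordCompl[p] (orderOf y) with hzdef
      have hzY : z ∈ Y := Subgroup.pow_mem _ hy _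
      have hzp : ∃ k, z ^ p ^ k = 1 := ⟨(orderOf y).factorization p, by
        rw [hzdef, ← pow_mul, mul_comm, Nat.ordProj_mul_ordCompl_eq_self, pow_orderOf_eq_one]⟩
      have hzA : z ∉ A := by
        intro h
        have hd : orderOf (y : N ⧸ A) ∣ ordCompl[p] (orderOf y) := orderOf_dvd_of_pow_eq_one (by
          rw [← QuotientGroup.mk_pow]; exact (QuotientGroup.eq_one_iff _).2 h)
        obtain ⟨i, -, hi⟩ := (Nat.dvd_prime_pow hG.prime).1 (orderOf_dvd_of_pow_eq_one
          (show (y : N ⧸ A) ^ p ^ k = 1 by rw [← QuotientGroup.mk_pow]; exact (QuotientGroup.eq_one_iff _).2 hk))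
        rcases Nat.eq_zero_or_pos i with rfl | hi0
        · exact hyA ((QuotientGroup.eq_one_iff y).1 (orderOf_eq_one_iff.1 (by simpa using hi)))
        · exact Nat.not_dvd_ordCompl hG.prime (orderOf_pos y).ne'
            ((dvd_pow_self p hi0.ne').trans (hi ▸ hd))
      -- `z` centralises `A`
      have hzc : z ∈ Subgroup.centralizer (A : Set N) := by
        have hzn : Subgroup.zpowers z ≤ Subgroup.normalizer (M : Set N) := by
          rw [Subgroup.normalizer_eq_top]; exact le_top
        have hzcard : (Nat.card (Subgroup.zpowers z)).Coprime (Nat.card M) := by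
          rw [Nat.card_zpowers]
          obtain ⟨k, hk⟩ := hzp
          exact ((hG.prime.coprime_iff_not_dvd.2 hpM).pow_left k).coprime_dvd_left
            (orderOf_dvd_of_pow_eq_one hk)
        have hdec : ∀ a ∈ A, ∃ c, Commute z c ∧ c ∈ A ∧ a⁻¹ * c ∈ M := by
          intro a ha
          obtain ⟨c, hc, hcM⟩ := Coprime.exists_centralizer_mem_coset (A := Subgroup.zpowers z) (N := M)
            (k := a) hzn hzcard (Or.inr (Group.isSolvable_of_comm fun u v => Subtype.ext (by
              have := hMab.le (Subgroup.commutator_mem_commutator u.2 v.2)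
              rw [Subgroup.mem_bot, commutatorElement_eq_one_iff_mul_comm] at this
              exact this))) (fun w hw => by
              have hwZ : w ∈ zpre A := (Subgroup.zpowers_le.2 hzY.2) hw
              have h1 := hM.normal.conj_mem _ (hz w hwZ a ha) a⁻¹
              simpa [commutatorElement_def, mul_assoc] using h1)
          refine ⟨c, Subgroup.mem_centralizer_iff.1 hc z (Subgroup.mem_zpowers z), ?_, hcM⟩
          simpa using mul_mem ha (hMA hcM)
        have hzM : ∀ m ∈ M, z * m = m * z := by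
          have hle : ⁅A, A⁆ ≤ Subgroup.centralizer ({z} : Set N) := by
            rw [Subgroup.commutator_le]
            intro a ha b hb
            obtain ⟨c, hc, hcA, hac⟩ := hdec a ha
            obtain ⟨d, hd, hdA, hbd⟩ := hdec b hb
            have ea : ∀ w ∈ A, ∀ m ∈ M, Commute m w := fun w hw m hm =>
              (Subgroup.mem_centralizer_iff.1 (hMC hm) w hw).symm
            have he : ⁅a, b⁆ = ⁅c, d⁆ := by
              set m := a⁻¹ * c
              set m' := b⁻¹ * d
              have e1 : c = a * m := (mul_inv_cancel_left a c).symm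
              have e2 : d = b * m' := (mul_inv_cancel_left b d).symm
              rw [e1, e2, commutatorElement_def, commutatorElement_def]
              have h1 : m * (b * m') * m⁻¹ = b * m' := by
                rw [((ea b hb m hac).mul_right (ea m' (hMA hbd) m hac)).eq, mul_inv_cancel_right]
              have h2 : m' * a⁻¹ * m'⁻¹ = a⁻¹ := by
                rw [(ea a⁻¹ (inv_mem ha) m' hbd).eq, mul_inv_cancel_right]
              calc a * b * a⁻¹ * b⁻¹ = a * b * (m' * a⁻¹ * m'⁻¹) * b⁻¹ := by rw [h2]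
                _ = a * (b * m') * a⁻¹ * (b * m')⁻¹ := by group
                _ = a * (m * (b * m') * m⁻¹) * a⁻¹ * (b * m')⁻¹ := by rw [h1]
                _ = a * m * (b * m') * (a * m)⁻¹ * (b * m')⁻¹ := by group
            rw [he, Subgroup.mem_centralizer_singleton_iff, commutatorElement_def]
            exact ((((hc.mul_right hd).mul_right hc.inv_right).mul_right hd.inv_right)).eq.symm
          intro m hm
          rw [hAA] at hle
          exact (Subgroup.mem_centralizer_singleton_iff.1 (hle hm)).symm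
        rw [Subgroup.mem_centralizer_iff]
        intro a ha
        obtain ⟨c, hc, -, hac⟩ := hdec a ha
        have e : a = c * (a⁻¹ * c)⁻¹ := by group
        have h1 : Commute z a := by
          rw [e]; exact hc.mul_right (Commute.inv_right (hzM _ hac))
        exact h1.eq.symm
      -- a normal `p`-subgroup
      haveI : Y.Normal := by
        rw [hY, zpre]; infer_instance
      set Y2 := Y ⊓ Subgroup.centralizer (A : Set N) with hY2
      haveI : Y2.Normal := by rw [hY2]; infer_instance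
      have hYA : ∀ u ∈ Y2, ∀ v ∈ Y2, ⁅u, v⁆ ∈ A ⊓ Subgroup.centralizer (A : Set N) := fun u hu v hv => by
        refine ⟨(QuotientGroup.eq_one_iff _).1 ?_, ?_⟩
        · rw [← QuotientGroup.mk'_apply, map_commutatorElement, commutatorElement_eq_one_iff_mul_comm]
          exact Subgroup.mem_center_iff.1 hv.1.2 _
        · exact (Subgroup.centralizer (A : Set N)).mul_mem (Subgroup.mul_mem _ (Subgroup.mul_mem _ hu.2 hv.2)
            (Subgroup.inv_mem _ hu.2)) (Subgroup.inv_mem _ hv.2)
      have hnil2 : Group.IsNilpotent Y2 := by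
        haveI : (A.subgroupOf Y2).Normal := hAn.subgroupOf Y2
        haveI : Group.IsNilpotent (Y2 ⧸ A.subgroupOf Y2) := IsPGroup.isNilpotent (p := p) fun x => by
            obtain ⟨⟨x, hx⟩, rfl⟩ := QuotientGroup.mk_surjective x
            obtain ⟨k, hk⟩ := hNA x hx.1.1
            refine ⟨k, ?_⟩
            rw [← QuotientGroup.mk_pow, QuotientGroup.eq_one_iff, Subgroup.mem_subgroupOf]
            exact hk
        refine Subgroup.isNilpotent_of_ker_le_center (QuotientGroup.mk' (A.subgroupOf Y2)) ?_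
        rw [QuotientGroup.ker_mk']
        intro u hu
        rw [Subgroup.mem_center_iff]
        intro v
        exact Subtype.ext ((Subgroup.mem_centralizer_iff.1 v.2.2 u (Subgroup.mem_subgroupOf.1 hu)).symm)
      have hY2g : GInv g Y2 := by
        refine ginv_inf (ginv_inf (ginv_commutator g) ?_) (ginv_centralizer hAg)
        intro x hx
        rw [zpre, Subgroup.mem_comap, Subgroup.mem_center_iff] at hx ⊢
        intro w
        obtain ⟨w, rfl⟩ := QuotientGroup.mk_surjective w
        obtain ⟨w, rfl⟩ := g.surjective w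
        have h1 := hx (w : N ⧸ A)
        rw [QuotientGroup.mk'_apply, ← QuotientGroup.mk_mul, ← QuotientGroup.mk_mul, QuotientGroup.eq] at h1 ⊢
        have := hAg _ h1
        simpa [map_mul, map_inv] using this
      obtain ⟨Q⟩ := (inferInstance : Nonempty (Sylow p Y2))
      haveI : (Q : Subgroup Y2).Normal := (Group.isNilpotent_of_finite_tfae.out 0 3 rfl rfl).mp hnil2 p ‹_› Q
      set R := (Q : Subgroup Y2).map Y2.subtype with hR
      have hRset : ∀ u ∈ Y2, (∃ k, u ^ p ^ k = 1) → u ∈ R := by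
        rintro u hu ⟨k, hk⟩
        have hp2 : IsPGroup p (Subgroup.zpowers (⟨u, hu⟩ : Y2)) := by
          rintro ⟨_, i, rfl⟩
          refine ⟨k, Subtype.ext (Subtype.ext ?_)⟩
          push_cast
          rw [← zpow_natCast, ← zpow_mul, mul_comm, zpow_mul, zpow_natCast, hk, one_zpow]
        obtain ⟨Q2, hQ2⟩ := hp2.exists_le_sylow
        haveI := Sylow.unique_of_normal Q inferInstance
        exact ⟨⟨u, hu⟩, (Subsingleton.elim Q2 Q) ▸ hQ2 (Subgroup.mem_zpowers _), rfl⟩
      have hRpow : ∀ u ∈ R, ∃ k, u ^ p ^ k = 1 := by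
        intro u hu
        obtain ⟨k, hk⟩ := (Q.isPGroup'.map Y2.subtype) ⟨u, hu⟩
        exact ⟨k, congrArg Subtype.val hk⟩
      have hRY : R ≤ Y2 := Subgroup.map_subtype_le _
      have hRn : R.Normal := ⟨fun u hu c => hRset _ ((inferInstance : Y2.Normal).conj_mem u (hRY hu) c)
        ((hRpow u hu).imp fun k hk => by rw [conj_pow, hk, mul_one, mul_inv_cancel])⟩
      have hRg : GInv g R := fun u hu => hRset _ (hY2g u (hRY hu))
        ((hRpow u hu).imp fun k hk => by rw [← map_pow, hk, map_one])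
      have hzR : z ∈ R := hRset z ⟨hzY, hzc⟩ hzp
      obtain ⟨M₂, hM₂, hle⟩ := exists_min g hRn hRg (fun h => hzA (by
        rw [h, Subgroup.mem_bot] at hzR; rw [hzR]; exact one_mem A)) (hRY.trans (inf_le_left.trans inf_le_left))
      refine hAab (eq_bot_iff.2 fun x hx => ?_)
      have h1 : x ∈ M₂ := (Subgroup.commutator_mono hA hA).trans (hder M₂ hM₂) hx
      obtain ⟨k, hk⟩ := hRpow x (hle h1)
      obtain ⟨i, -, hi⟩ := (Nat.dvd_prime_pow hG.prime).1 (orderOf_dvd_of_pow_eq_one hk)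
      rcases Nat.eq_zero_or_pos i with rfl | hi0
      · rw [Subgroup.mem_bot]; exact orderOf_eq_one_iff.1 (by simpa using hi)
      · exact absurd (hi ▸ dvd_pow_self p hi0.ne') (not_dvd_orderOf hpM (hAM hx))
    -- `A` is an `s`-group
    have hnilA : Group.IsNilpotent A := by
      refine Subgroup.isNilpotent_of_ker_le_center (Abelianization.of : A →* Abelianization A) ?_
      rw [Abelianization.ker_of]
      intro u hu
      rw [Subgroup.mem_center_iff]
      intro v
      have hu' : (u : N) ∈ M := by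
        rw [← hAA, ← Subgroup.map_subtype_commutator]; exact ⟨u, hu, rfl⟩
      exact Subtype.ext (Subgroup.mem_centralizer_iff.1 (hMC hu') v v.2)
    have hsA : IsPGroup s A := by
      intro a
      by_contra ha
      push Not at ha
      obtain ⟨r, hr, hrd, hrs⟩ : ∃ r, r.Prime ∧ r ∣ orderOf a ∧ r ≠ s := by
        by_contra h
        push Not at h
        obtain ⟨k, hk⟩ : ∃ k, orderOf a = s ^ k :=
          ⟨_, Nat.eq_prime_pow_of_unique_prime_dvd (orderOf_pos _).ne' fun {d} hd hdd => h d hd hdd⟩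
        exact ha k (by rw [← hk, pow_orderOf_eq_one])
      haveI := Fact.mk hr
      obtain ⟨Q⟩ := (inferInstance : Nonempty (Sylow r A))
      haveI : (Q : Subgroup A).Normal := (Group.isNilpotent_of_finite_tfae.out 0 3 rfl rfl).mp hnilA r ‹_› Q
      set R := (Q : Subgroup A).map A.subtype with hR
      have hRchar : (Q : Subgroup A).Characteristic := Q.characteristic_of_normal inferInstance
      haveI hRn : R.Normal := ConjAct.normal_of_characteristic_of_normal
      have hRg : GInv g R := by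
        rintro _ ⟨u, hu, rfl⟩
        let gA : A ≃* A := (g.subgroupMap A).trans (MulEquiv.subgroupCongr (ginv_map_eq hAg))
        refine ⟨gA u, ?_, rfl⟩
        have := (Subgroup.characteristic_iff_map_le.1 hRchar) gA ⟨u, hu, rfl⟩
        exact this
      have hRne : R ≠ ⊥ := by
        rw [hR, Ne, Subgroup.map_eq_bot_iff_of_injective _ A.subtype_injective]
        exact Q.ne_bot_of_dvd_card (hrd.trans (orderOf_dvd_natCard a))
      obtain ⟨M₂, hM₂, hle⟩ := exists_min g hRn hRg hRne ((Subgroup.map_subtype_le _).trans hA)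
      refine hAab (eq_bot_iff.2 fun x hx => ?_)
      have h1 : x ∈ M₂ := (Subgroup.commutator_mono hA hA).trans (hder M₂ hM₂) hx
      obtain ⟨k, hk⟩ := (Q.isPGroup'.map A.subtype) ⟨x, hle h1⟩
      obtain ⟨k', hk'⟩ := hsM ⟨x, hAM hx⟩
      have h2 := Nat.dvd_gcd (orderOf_dvd_of_pow_eq_one (congrArg Subtype.val hk : x ^ r ^ k = 1))
        (orderOf_dvd_of_pow_eq_one (congrArg Subtype.val hk' : x ^ s ^ k' = 1))
      rw [((Nat.coprime_primes hr hs).2 hrs).pow k k', Nat.dvd_one, orderOf_eq_one_iff] at h2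
      rw [Subgroup.mem_bot]; exact h2
    exact hG.no_central A M hAg hM.ginv hMA (le_antisymm hA htop) hAA hM.ne_bot hMC hs hsA hsp
  -- `M` not central in `A`
  obtain ⟨y, hyA, hyC⟩ : ∃ y ∈ A, y ∉ A ⊓ Subgroup.centralizer (M : Set N) := by
    by_contra h
    push Not at h
    refine hMC fun m hm => Subgroup.mem_centralizer_iff.2 fun a ha => ?_
    exact (Subgroup.mem_centralizer_iff.1 (h a ha).2 m hm).symm
  obtain ⟨r, hr, hz⟩ := mem_of_ordCompl (H := A ⊓ Subgroup.centralizer (M : Set N)) hyC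
  haveI := Fact.mk hr
  set z := y ^ ordCompl[r] (orderOf y) with hzdef
  have hzA : z ∈ A := pow_mem hyA _
  have hzr : ∃ k, z ^ r ^ k = 1 := ⟨(orderOf y).factorization r, by
    rw [hzdef, ← pow_mul, mul_comm, Nat.ordProj_mul_ordCompl_eq_self, pow_orderOf_eq_one]⟩
  have hzM : z ∉ Subgroup.centralizer (M : Set N) := fun h => hz ⟨hzA, h⟩
  set A1 := pre A M hAM (fun m => ∃ k, m = r ^ k) ⟨0, rfl⟩
    (fun a b ⟨i, hi⟩ ⟨j, hj⟩ => ⟨i + j, by rw [hi, hj, pow_add]⟩) with hA1
  haveI hA1n : A1.Normal := pre_normal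
  have hA1g : GInv g A1 := pre_ginv hAg hM.ginv
  have hMA1 : M ≤ A1 := fun m hm => ⟨hMA hm, 1, ⟨0, rfl⟩, by simpa using hm⟩
  have hzA1 : z ∈ A1 := by
    obtain ⟨k, hk⟩ := hzr
    exact ⟨hzA, r ^ k, ⟨k, rfl⟩, hk ▸ one_mem M⟩
  have hCbot : M ⊓ Subgroup.centralizer (A1 : Set N) = ⊥ := by
    by_contra h
    have he := hM.min _ inferInstance (ginv_inf hM.ginv (ginv_centralizer hA1g)) inf_le_left h
    refine hzM (Subgroup.mem_centralizer_iff.2 fun m hm => ?_)
    have : m ∈ M ⊓ Subgroup.centralizer (A1 : Set N) := he.symm ▸ hm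
    exact (Subgroup.mem_centralizer_iff.1 this.2 z hzA1).symm
  have hrs : r ≠ s := by
    rintro rfl
    have hA1p : IsPGroup r A1 := fun u => by
      obtain ⟨-, m, ⟨k, rfl⟩, hk⟩ := u.2
      obtain ⟨j, hj⟩ := hsM ⟨_, hk⟩
      refine ⟨k + j, Subtype.ext ?_⟩
      have hj' : ((u : N) ^ r ^ k) ^ r ^ j = 1 := congrArg Subtype.val hj
      rw [Subgroup.coe_pow, pow_add, pow_mul, Subgroup.coe_one]
      exact hj'
    letI : MulAction A1 M := MulAction.compHom M ((MulAut.conjNormal (H := M)).comp A1.subtype)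
    obtain ⟨k, hk⟩ := IsPGroup.iff_card.1 hsM
    have hk0 : k ≠ 0 := fun h => hM.ne_bot (Subgroup.card_eq_one.1 (by rw [hk, h, pow_zero]))
    obtain ⟨m, hm, hm1⟩ := hA1p.exists_fixed_point_of_prime_dvd_card_of_fixed_point M
      (hk ▸ dvd_pow_self r hk0) (a := 1) (fun u => map_one (MulAut.conjNormal (u : N)))
    refine hm1 (Subtype.ext ?_).symm
    rw [Subgroup.coe_one, ← Subgroup.mem_bot, ← hCbot]
    refine ⟨m.2, Subgroup.mem_centralizer_iff.2 fun u hu => ?_⟩
    have h := congrArg Subtype.val (hm ⟨u, hu⟩)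
    change ((MulAut.conjNormal u m : M) : N) = m at h
    rw [MulAut.conjNormal_apply] at h
    exact mul_inv_eq_iff_eq_mul.1 h
  have hrM : ¬ r ∣ Nat.card M := by
    obtain ⟨k, hk⟩ := IsPGroup.iff_card.1 hsM
    rw [hk]
    exact fun h => hrs ((Nat.prime_dvd_prime_iff_eq hr hs).1 (hr.dvd_of_dvd_pow h))
  obtain ⟨R, hRr, hRA1, hMR, hAR, hsup, hNC⟩ := split (q := r) A1 M hMA1 hMab hrM
    (fun a ha => by obtain ⟨-, m, ⟨k, rfl⟩, h⟩ := ha; exact ⟨k, h⟩)
  have hinf : M ⊓ Subgroup.normalizer (R : Set N) = ⊥ :=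
    eq_bot_iff.2 fun m hm => hCbot ▸ ⟨hm.1, hNC hm⟩
  have hCR : M ⊓ Subgroup.centralizer (R : Set N) = ⊥ :=
    eq_bot_iff.2 fun m hm => hinf ▸ ⟨hm.1, Subgroup.centralizer_le_normalizer _ hm.2⟩
  have hRco : (Nat.card R).Coprime (Nat.card M) := by
    obtain ⟨i, hi⟩ := IsPGroup.iff_card.1 hRr
    rw [hi]; exact (hr.coprime_iff_not_dvd.2 hrM).pow_left i
  have hmove : ∀ μ : M →* ℂˣ, A1 ≤ St M μ → μ = 1 := fun μ h =>
    eq_one_of_coprime_fixed M R hMab hRco hCR μ fun w hw => (mem_St M).1 (h (hRA1 hw))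
  haveI := Fintype.ofFinite M
  have hμT : ∀ μ : M →* ℂˣ, μ ≠ 1 → ⁅St M μ, St M μ⁆ ≤ M ∧
      ∃ θ : IrrCharacter N, charDegree (θ : N → ℂ) = (St M μ).index ∧ charDegree (θ : N → ℂ) ≠ 1 := by
    intro μ hμ
    have hT : St M μ ≠ ⊤ := fun h => hμ (hmove μ (h ▸ le_top))
    obtain ⟨h1, ⟨θ, hθ⟩, -⟩ := over_linear hG M _ hsup hinf μ hT
    exact ⟨h1, θ, hθ, by rw [hθ]; exact fun h => hT (Subgroup.index_eq_one.1 h)⟩
  obtain ⟨μ₁, hμ₁⟩ : ∃ μ : M →* ℂˣ, μ ≠ 1 := by
    obtain ⟨m, hm⟩ := Subgroup.ne_bot_iff_exists_ne_one.1 hM.ne_bot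
    obtain ⟨l, -, hl⟩ := exists_char_ne (⊥ : Subgroup N) hMab.le (a := m)
      (fun h => hm (Subtype.ext (by simpa using h))) (fun x _ w hw => by
        rw [Subgroup.mem_bot] at hw ⊢; rw [hw, mul_one, mul_inv_cancel])
    exact ⟨l, fun h => hl (by rw [h, MonoidHom.one_apply])⟩
  have hpr : r ≠ p := by
    rintro rfl
    obtain ⟨k, hk⟩ := hzr
    obtain ⟨i, -, hi⟩ := (Nat.dvd_prime_pow hr).1 (orderOf_dvd_of_pow_eq_one hk)
    rcases Nat.eq_zero_or_pos i with rfl | hi0
    · exact hzM ((orderOf_eq_one_iff.1 (by simpa using hi)) ▸ one_mem _)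
    · exact not_dvd_orderOf hpA hzA (hi ▸ dvd_pow_self r hi0.ne')
  by_cases htop : commutator N ≤ A
  swap
  · -- `N / A` nonabelian
    obtain ⟨⟨θ₀, hθ₀, h0⟩, -⟩ := hnonab htop
    obtain ⟨hTM, θ, hθ, hθ1⟩ := hμT μ₁ hμ₁
    have hd := (hG.pdeg A hNA θ₀ hθ₀ _ (hTM.trans hMA)).1
    have hidx : (St M μ₁).index = charDegree (θ₀ : N → ℂ) :=
      hθ.symm.trans (hG.anti θ₀ θ h0 (hθ ▸ hd)).symm
    obtain ⟨j, hj⟩ := (hG.quot_facts A hNA).2 θ₀ hθ₀
    have hrel : (St M μ₁).relIndex A1 = 1 := by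
      have h1 : (St M μ₁).relIndex A1 ∣ (St M μ₁).index := by
        have e1 := Subgroup.relIndex_mul_index (inf_le_right : St M μ₁ ⊓ A1 ≤ A1)
        have e2 := Subgroup.relIndex_mul_index (inf_le_left : St M μ₁ ⊓ A1 ≤ St M μ₁)
        rw [Subgroup.inf_relIndex_right] at e1
        rw [Subgroup.inf_relIndex_left] at e2
        obtain ⟨c, hc⟩ := Subgroup.relIndex_dvd_index_of_normal A1 (St M μ₁)
        have hc0 : A1.relIndex (St M μ₁) ≠ 0 := fun h => Subgroup.index_ne_zero_of_finite (H := A1)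
          (by rw [hc, h, zero_mul])
        refine ⟨c, Nat.eq_of_mul_eq_mul_left (Nat.pos_of_ne_zero hc0) ?_⟩
        rw [e2, ← e1, hc]; ring
      have h2 : (St M μ₁).relIndex A1 ∣ M.relIndex A1 :=
        Subgroup.relIndex_dvd_of_le_left A1 (le_inertia M (isClassFunction_of_isIrr (isIrrCharacter_linear μ₁)))
      obtain ⟨i, hi⟩ : ∃ i, M.relIndex A1 = r ^ i := by
        haveI : (M.subgroupOf A1).Normal := hM.normal.subgroupOf A1
        have hq : IsPGroup r (A1 ⧸ M.subgroupOf A1) := fun w => by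
          obtain ⟨⟨w, hw⟩, rfl⟩ := QuotientGroup.mk_surjective w
          have hw' := hw
          obtain ⟨-, m, ⟨k, rfl⟩, hk⟩ := hw'
          refine ⟨k, ?_⟩
          rw [← QuotientGroup.mk_pow, QuotientGroup.eq_one_iff, Subgroup.mem_subgroupOf]
          exact hk
        exact IsPGroup.iff_card.1 hq
      rw [hi] at h2
      rw [hidx, hj] at h1
      exact Nat.eq_one_of_dvd_coprimes (((Nat.coprime_primes hG.prime hr).2 hpr.symm).pow j i) h1 h2
    exact hμ₁ (hmove μ₁ (Subgroup.relIndex_eq_one.1 hrel))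
  -- `N / A` abelian
  have hAN : A = commutator N := le_antisymm hA htop
  have hRab : IsMulCommutative R := ⟨⟨fun u v => Subtype.ext (by
    have h1 : ⁅(u : N), (v : N)⁆ ∈ M ⊓ R := ⟨hAM (Subgroup.commutator_mem_commutator (hRA1 u.2).1 (hRA1 v.2).1),
      R.mul_mem (R.mul_mem (R.mul_mem u.2 v.2) (R.inv_mem u.2)) (R.inv_mem v.2)⟩
    rw [hMR, Subgroup.mem_bot, commutatorElement_eq_one_iff_mul_comm] at h1
    exact h1)⟩⟩
  obtain ⟨v, hv, hv1, m, hm, hm1, hvm⟩ : ∃ v ∈ R, v ≠ 1 ∧ ∃ m ∈ M, m ≠ 1 ∧ v * m = m * v := by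
    by_cases hcyc : IsCyclic R
    · -- a cyclic section is centralised by a `p`-element outside `K`
      exfalso
      obtain ⟨⟨v, hv⟩, hgen⟩ := hcyc.exists_generator
      set π := QuotientGroup.mk' M
      have hpow : ∀ a ∈ A1, ∃ i : ℤ, π a = π v ^ i := by
        intro a ha
        obtain ⟨m, hm, w, hw, rfl⟩ := hAR a ha
        obtain ⟨i, hi⟩ := Subgroup.mem_zpowers_iff.1 (hgen ⟨w, hw⟩)
        refine ⟨i, ?_⟩
        have hi' : v ^ i = w := congrArg Subtype.val hi
        have hm' : π m = 1 := (QuotientGroup.eq_one_iff m).2 hm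
        rw [map_mul, hm', one_mul, ← hi', map_zpow]
      have hvA1 : v ∈ A1 := hRA1 hv
      have hMK : M ≤ K := hM.le.trans hG.comm_le
      obtain ⟨c, hc⟩ : ∃ c, c ∉ K := by
        by_contra h'
        push Not at h'
        exact hG.ne_top (eq_top_iff.2 fun c _ => h' c)
      obtain ⟨k, hk⟩ := hpow _ (hA1n.conj_mem v hvA1 c)
      set h := g c
      -- `g c` acts on `g v` as `c` on `v`
      have h1 : π (h * g v * h⁻¹) = π (g v) ^ k := by
        obtain ⟨w, hw⟩ : ∃ w ∈ M, c * v * c⁻¹ = v ^ k * w := by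
          refine ⟨(v ^ k)⁻¹ * (c * v * c⁻¹), (QuotientGroup.eq_one_iff _).1 ?_, (mul_inv_cancel_left _ _).symm⟩
          show π _ = 1
          rw [map_mul, hk, map_inv, map_zpow, inv_mul_cancel]
        have : h * g v * h⁻¹ = g v ^ k * g w := by
          rw [← map_zpow g v k, ← map_mul g (v ^ k) w, ← hw.2, map_mul, map_mul, map_inv]
        rw [this, map_mul, map_zpow, show π (g w) = 1 from
          (QuotientGroup.eq_one_iff _).2 (hM.ginv w hw.1), mul_one]
      obtain ⟨i, hi⟩ := hpow _ (hA1g v hvA1)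
      have h2 : π (c * g v * c⁻¹) = π (g v) ^ k := by
        rw [map_mul, map_mul, hi, map_inv, ← conj_zpow, ← map_inv, ← map_mul, ← map_mul, hk,
          ← zpow_mul, ← zpow_mul, mul_comm k i]
      set x := c⁻¹ * h
      have hxK : x ∉ K := by
        intro hx
        refine hc (hG.fpf c ?_)
        have := hG.normal.conj_mem x hx c
        simpa [x, h, mul_assoc] using this
      obtain ⟨j, hj, hjK⟩ := hG.exists_pelt hxK
      have hcm : Commute (π x) (π (g v)) := by
        have e1 : π h * π (g v) * (π h)⁻¹ = π c * π (g v) * (π c)⁻¹ := by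
          have h3 := h1.trans h2.symm
          rwa [map_mul π (h * g v), map_mul π h, map_inv π, map_mul π (c * g v), map_mul π c, map_inv π] at h3
        show _ = _
        rw [show π x = (π c)⁻¹ * π h by rw [← map_inv, ← map_mul]]
        calc (π c)⁻¹ * π h * π (g v) = (π c)⁻¹ * (π h * π (g v) * (π h)⁻¹) * π h := by group
          _ = (π c)⁻¹ * (π c * π (g v) * (π c)⁻¹) * π h := by rw [e1]
          _ = π (g v) * ((π c)⁻¹ * π h) := by group
      have hgv : g v ∈ M := hG.cent_rel M (hG.moved hjK) (hA (hA1g v hvA1).1) (by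
        refine (QuotientGroup.eq_one_iff _).1 ?_
        show π _ = 1
        rw [map_commutatorElement, commutatorElement_eq_one_iff_mul_comm, map_pow]
        exact hcm.pow_left j) (coprime_of_pelt hG.prime hj (not_dvd_orderOf hpA (hA1g v hvA1).1))
      obtain ⟨w, hw, he⟩ := ginv_surj hM.ginv hgv
      rw [g.injective he] at hw
      have hv0 : v = 1 := Subgroup.mem_bot.1 (hMR ▸ ⟨hw, hv⟩)
      refine hzM (Subgroup.mem_centralizer_iff.2 fun m hm => ?_)
      obtain ⟨m', hm', w', hw', hze⟩ := hAR z hzA1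
      obtain ⟨n, hn⟩ := Subgroup.mem_zpowers_iff.1 (hgen ⟨w', hw'⟩)
      have : w' = 1 := by
        rw [← show v ^ n = w' from congrArg Subtype.val hn, hv0, one_zpow]
      rw [hze, this, mul_one]
      have := hMab.le (Subgroup.commutator_mem_commutator hm hm')
      rw [Subgroup.mem_bot, commutatorElement_eq_one_iff_mul_comm] at this
      exact this
    · by_contra hno
      push Not at hno
      have hfg := Coprime.fixGen_eq (A := R) (K := M) hcyc
        (by rw [Subgroup.normalizer_eq_top]; exact le_top) hRco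
      refine hM.ne_bot (le_bot_iff.1 (hfg ▸ ?_))
      refine iSup₂_le fun v hv => ?_
      rintro w ⟨hw, hwv⟩
      by_contra hw1
      exact hno v hv.1 hv.2 w hw (fun h => hw1 (Subgroup.mem_bot.2 h))
        (Subgroup.mem_centralizer_singleton_iff.1 hwv).symm
  -- a character of `M` fixed by `v`
  obtain ⟨μ, hμ, hvT⟩ : ∃ μ : M →* ℂˣ, μ ≠ 1 ∧ v ∈ St M μ := by
    let δ : M →* M := MonoidHom.mk' (fun w => ⟨v * w * v⁻¹, hM.normal.conj_mem _ w.2 v⟩ * w⁻¹) fun a b => by
      refine Subtype.ext ?_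
      push_cast
      have hc1 : Commute (v * (b : N) * v⁻¹ * (b : N)⁻¹) ((a : N)⁻¹) := by
        have := hMab.le (Subgroup.commutator_mem_commutator
          (mul_mem (hM.normal.conj_mem _ b.2 v) (inv_mem b.2)) (inv_mem a.2))
        rw [Subgroup.mem_bot, commutatorElement_eq_one_iff_mul_comm] at this
        exact this
      calc v * ((a : N) * b) * v⁻¹ * ((a : N) * b)⁻¹
          = v * a * v⁻¹ * ((v * (b : N) * v⁻¹ * (b : N)⁻¹) * (a : N)⁻¹) := by group
        _ = v * a * v⁻¹ * ((a : N)⁻¹ * (v * (b : N) * v⁻¹ * (b : N)⁻¹)) := by rw [hc1.eq]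
        _ = _ := by group
    have hns : δ.range ≠ ⊤ := by
      intro h
      have hinj := (Finite.injective_iff_surjective).2 (MonoidHom.range_eq_top.1 h)
      exact hm1 (congrArg Subtype.val (@hinj ⟨m, hm⟩ 1 (Subtype.ext (by simp [δ, hvm]))))
    obtain ⟨w, -, hw⟩ := Set.exists_of_ssubset
      (show (δ.range : Set M) ⊂ Set.univ from Set.ssubset_univ_iff.2 fun h => hns (SetLike.ext' (by simpa using h)))
    obtain ⟨l, hl, hlw⟩ := exists_char_ne (A := M) (δ.range.map M.subtype) (hMab.le.trans bot_le) (a := w)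
      (fun ⟨w', hw', he⟩ => hw (Subtype.ext he ▸ hw'))
      (fun x hx _ hw' => by
        obtain ⟨w', hw', rfl⟩ := hw'
        have := hMab.le (Subgroup.commutator_mem_commutator hx w'.2)
        rw [Subgroup.mem_bot, commutatorElement_eq_one_iff_mul_comm] at this
        exact ⟨w', hw', by rw [Subgroup.coe_subtype, this, mul_inv_cancel_right]⟩)
    refine ⟨l, fun h => hlw (by rw [h, MonoidHom.one_apply]), (mem_St M).2 (MonoidHom.ext fun w' => ?_)⟩
    have := hl (δ w') ⟨_, ⟨w', rfl⟩, rfl⟩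
    simp only [δ, MonoidHom.mk'_apply, map_mul, map_inv, mul_inv_eq_one] at this
    rw [cj_apply]; exact this
  obtain ⟨hTM, θ, hθ, hθ1⟩ := hμT μ hμ
  -- the common stabiliser on `A / M`
  have hvM : v ∉ M := fun h => hv1 (Subgroup.mem_bot.1 (hMR ▸ ⟨h, hv⟩))
  obtain ⟨l₀, hl₀, hl₀v⟩ := exists_char_ne M hAM (a := ⟨v, (hRA1 hv).1⟩) hvM
    (fun x _ w hw => hM.normal.conj_mem w hw x)
  have hl₀1 : l₀ ≠ 1 := fun h => hl₀v (by rw [h, MonoidHom.one_apply])
  set C := St A l₀ with hC
  have hTC : St M μ ≤ C := by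
    intro t ht
    by_contra htC
    let S := {l : A →* ℂˣ // ∀ w : A, (w : N) ∈ M → l w = 1}
    let δ : S → S := fun l => ⟨cj A t l.1 * l.1⁻¹, fun w hw => by
      rw [MonoidHom.mul_apply, MonoidHom.inv_apply, cj_apply, l.2 w hw,
        l.2 _ (hM.normal.conj_mem _ hw t), inv_one, one_mul]⟩
    haveI : Finite (A →* ℂˣ) := RelGraph.finite_dual
    have hinj : Function.Injective δ := by
      intro l l' h
      have h' : cj A t l.1 * l.1⁻¹ = cj A t l'.1 * l'.1⁻¹ := congrArg Subtype.val h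
      by_contra hne
      have hd1 : l.1 * l'.1⁻¹ ≠ 1 := fun h2 => hne (Subtype.ext (mul_inv_eq_one.1 h2))
      have hfix : cj A t (l.1 * l'.1⁻¹) = l.1 * l'.1⁻¹ := by
        rw [TwoDegPrime.cj_prod, TwoDegPrime.cj_inv]
        refine MonoidHom.ext fun w => ?_
        have h3 := DFunLike.congr_fun h' w
        simp only [MonoidHom.mul_apply, MonoidHom.inv_apply] at h3 ⊢
        rw [← div_eq_mul_inv, ← div_eq_mul_inv, div_eq_div_iff_mul_eq_mul] at h3 ⊢
        rw [h3, mul_comm]
      refine htC ?_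
      rw [hC, hG.stab_eq A M hAM hA hpA htop l₀ _ hl₀ hl₀1 (fun w hw => by
        rw [MonoidHom.mul_apply, MonoidHom.inv_apply, l.2 w hw, l'.2 w hw, inv_one, mul_one]) hd1]
      exact (mem_St A).2 hfix
    obtain ⟨l, hl⟩ := (Finite.injective_iff_surjective.1 hinj) ⟨l₀, hl₀⟩
    refine hl₀v ?_
    have hl' : cj A t l.1 * l.1⁻¹ = l₀ := congrArg Subtype.val hl
    rw [← hl', MonoidHom.mul_apply, MonoidHom.inv_apply, cj_apply, ← map_inv, ← map_mul]
    refine l.2 _ ?_
    have := hTM (Subgroup.commutator_mem_commutator ht hvT)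
    rw [commutatorElement_def] at this
    simpa using this
  obtain ⟨hT0, -, ⟨θ', hθ'⟩, -⟩ := hG.orbits A M hAM hA hpA hNA l₀ hl₀ hl₀1
  have hne' : charDegree (θ' : N → ℂ) ≠ 1 := by rw [hθ']; exact fun h => hT0 (Subgroup.index_eq_one.1 h)
  have heq := hG.anti θ' θ hne' (by rw [hθ, hθ']; exact Subgroup.index_dvd_of_le hTC)
  rw [hθ, hθ'] at heq
  have hrel : (St M μ).relIndex C = 1 := by
    have h := Subgroup.relIndex_mul_index hTC
    rw [← heq] at h
    exact (mul_eq_right₀ Subgroup.index_ne_zero_of_finite).1 h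
  have hAC : A ≤ C := le_inertia A (isClassFunction_of_isIrr (isIrrCharacter_linear l₀))
  exact hμ (hmove μ (fun w hw => (Subgroup.relIndex_eq_one.1 hrel) (hAC hw.1)))

/-- One nonlinear degree. -/
theorem main : ∀ (n : ℕ) (N : Type u) [Group N] [Finite N] [Group.IsSolvable N], Nat.card N ≤ n →
    ∀ (p f : ℕ) (g : N ≃* N) (n0 : N) (K : Subgroup N), Good p f g n0 K → Single N := by
  intro n
  induction n with
  | zero => intro N _ _ _ h; exact absurd h (Nat.card_pos.ne'.bot_lt).not_ge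
  | succ n ih =>
    intro N _ _ _ hn p f g n0 K hG
    by_cases hc : commutator N = ⊥
    · intro θ θ' hθ
      haveI := Fintype.ofFinite N
      refine absurd (charDegree_eq_of_apply_one ?_) hθ
      rw [(Cfsg.Agent.S0187.result).1 (fun x y => ?_) θ, Nat.cast_one]
      have := hc.le (Subgroup.commutator_mem_commutator (Subgroup.mem_top x) (Subgroup.mem_top y))
      rwa [Subgroup.mem_bot, commutatorElement_eq_one_iff_mul_comm] at this
    have hder : ∀ M, IsMin g M → ⁅commutator N, commutator N⁆ ≤ M := by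
      intro M hM
      haveI := hM.normal
      by_cases hle : commutator N ≤ M
      · exact (Subgroup.commutator_le_left _ _).trans hle
      haveI := Fintype.ofFinite (N ⧸ M)
      have hlt : Nat.card (N ⧸ M) < Nat.card N := by
        have h1 : 1 < Nat.card M := (Subgroup.one_lt_card_iff_ne_bot M).2 hM.ne_bot
        rw [Subgroup.card_eq_card_quotient_mul_card_subgroup M]
        exact lt_mul_of_one_lt_right Nat.card_pos h1
      have hS := ih (N ⧸ M) (by omega) p f _ _ _ (hG.quotient M hM.ginv (hM.le.trans hG.comm_le))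
      obtain ⟨μ, hμ⟩ : ∃ μ : IrrCharacter (N ⧸ M), charDegree (μ : N ⧸ M → ℂ) ≠ 1 := by
        by_contra h
        push Not at h
        refine hle ?_
        have hc := ThreeDeg.comm_of_all_one h
        rw [commutator_def, Subgroup.commutator_le]
        intro x _ y _
        rw [← QuotientGroup.eq_one_iff, ← QuotientGroup.mk'_apply, map_commutatorElement,
          commutatorElement_eq_one_iff_mul_comm]
        exact hc _ _
      have hab := TwoDegrees.derived_comm (G := N ⧸ M) (m := charDegree (μ : N ⧸ M → ℂ))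
        (fun χ => or_iff_not_imp_left.2 fun h => hS χ μ h hμ) ⟨μ, rfl⟩ hμ
      rw [Subgroup.commutator_le]
      intro x hx y hy
      rw [← QuotientGroup.eq_one_iff, ← QuotientGroup.mk'_apply, map_commutatorElement,
        commutatorElement_eq_one_iff_mul_comm]
      have hm : ∀ x ∈ commutator N, QuotientGroup.mk' M x ∈ commutator (N ⧸ M) := fun x hx => by
        rw [← derivedSeries_one, ← map_derivedSeries_eq (QuotientGroup.mk'_surjective M), derivedSeries_one]
        exact ⟨x, hx, rfl⟩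
      exact hab _ (hm x hx) _ (hm y hy)
    by_cases hex : ∃ M, IsMin g M ∧ ¬ p ∣ Nat.card M
    · obtain ⟨M, hM, hpM⟩ := hex
      exact hG.single_of_min hder M hM hpM
    push Not at hex
    obtain ⟨M, hM, -⟩ := exists_min g inferInstance (ginv_commutator g) hc le_rfl
    exact hG.single_of_pgroups hder hex M hM

end Cfsg.Agent.Lib.Char.Disconn
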