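import Cfsg.Prelude.Def_DegreeGraph
import Cfsg.Agent.Lib.Char.ThreeDeg.Coprime
import Cfsg.Agent.Lib.Char.Disconn.Main

/-!
# A disconnected degree graph with an antichain of degrees
-/

set_option autoImplicit false
set_option linter.unusedSectionVars false
set_option linter.style.haveILetI false

namespace Cfsg.Agent.Lib.Char.Disconn

open Cfsg Cfsg.Agent.Lib Cfsg.Agent.Lib.Char
open Cfsg.Agent.Lib.Char.TwoDegPrime (lf lf_inj cj lf_cj cj_apply eq_of_forall_hom)
open scoped commutatorElement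

universe u

variable {G : Type u} [Group G]

theorem degree_eq [Finite G] (hnd : ∀ a ∈ charDegrees G, ∀ b ∈ charDegrees G, 1 < a → a < b → ¬ a ∣ b)
    {a b : ℕ} (ha : a ∈ charDegrees G) (hb : b ∈ charDegrees G) (h1 : 1 < a) (hd : a ∣ b) : a = b := by
  haveI := Fintype.ofFinite G
  obtain ⟨χ, rfl⟩ := hb
  rcases (Nat.le_of_dvd (charDegree_pos χ.2) hd).lt_or_eq with h | h
  · exact absurd hd (hnd a ha _ ⟨χ, rfl⟩ h1 h)
  · exact h

/-- A preconnected graph contradicts two components. -/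
theorem not_preconnected
    (htwo : Nat.card ((degreeGraph G).induce (degreePrimes G)).ConnectedComponent = 2) :
    ¬ ((degreeGraph G).induce (degreePrimes G)).Preconnected := fun h => by
  haveI := h.subsingleton_connectedComponent
  haveI : Finite ((degreeGraph G).induce (degreePrimes G)).ConnectedComponent := Finite.of_subsingleton
  have := Finite.card_le_one_iff_subsingleton.2 h.subsingleton_connectedComponent
  omega

theorem reachable_of_dvd {r r' d : ℕ} (hr : r ∈ degreePrimes G) (hr' : r' ∈ degreePrimes G)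
    (hd : d ∈ charDegrees G) (h1 : r ∣ d) (h2 : r' ∣ d) :
    ((degreeGraph G).induce (degreePrimes G)).Reachable ⟨r, hr⟩ ⟨r', hr'⟩ := by
  by_cases he : r = r'
  · subst he; exact SimpleGraph.Reachable.refl _
  · exact SimpleGraph.Adj.reachable (G := (degreeGraph G).induce (degreePrimes G))
      ⟨he, hr.1, hr'.1, d, hd, ((Nat.coprime_primes hr.1 hr'.1).2 he).mul_dvd_of_dvd_of_dvd h1 h2⟩

/-- If every prime lies on a degree linked to `p`, the graph is preconnected. -/
theorem preconnected_of_hub {p : ℕ} (hp : p ∈ degreePrimes G)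
    (h : ∀ r (hr : r ∈ degreePrimes G), ((degreeGraph G).induce (degreePrimes G)).Reachable ⟨r, hr⟩ ⟨p, hp⟩) :
    ((degreeGraph G).induce (degreePrimes G)).Preconnected :=
  fun ⟨r, hr⟩ ⟨r', hr'⟩ => (h r hr).trans (h r' hr').symm

set_option maxHeartbeats 1000000 in
theorem three_degrees [Finite G] [Group.IsSolvable G]
    (hnd : ∀ a ∈ charDegrees G, ∀ b ∈ charDegrees G, 1 < a → a < b → ¬ a ∣ b)
    (htwo : Nat.card ((degreeGraph G).induce (degreePrimes G)).ConnectedComponent = 2) :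
    Nat.card ↥(charDegrees G) = 3 := by
  classical
  haveI := Fintype.ofFinite G
  have hnp := not_preconnected htwo
  have hmem : ∀ χ : IrrCharacter G, charDegree (χ : G → ℂ) ∈ charDegrees G := fun χ => ⟨χ, rfl⟩
  have h1lt : ∀ χ : IrrCharacter G, charDegree (χ : G → ℂ) ≠ 1 → 1 < charDegree (χ : G → ℂ) :=
    fun χ h => by have := charDegree_pos χ.2; omega
  have hnab : ∃ χ : IrrCharacter G, charDegree (χ : G → ℂ) ≠ 1 := by
    by_contra h
    push Not at h
    refine hnp fun ⟨r, hr⟩ => ?_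
    obtain ⟨hrp, d, ⟨χ, rfl⟩, hrd⟩ := hr
    rw [h χ, Nat.dvd_one] at hrd
    exact absurd hrd hrp.ne_one
  have hcm : commutator G ≠ ⊥ := fun h => by
    obtain ⟨χ, hχ⟩ := hnab
    refine hχ (charDegree_eq_of_apply_one ?_)
    rw [(Cfsg.Agent.S0187.result).1 (fun x y => ?_) χ, Nat.cast_one]
    have := h.le (Subgroup.commutator_mem_commutator (Subgroup.mem_top x) (Subgroup.mem_top y))
    rwa [Subgroup.mem_bot, commutatorElement_eq_one_iff_mul_comm] at this
  obtain ⟨K, ⟨hKn, hKne⟩, hKmax⟩ :=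
    (Set.toFinite {K : Subgroup G | K.Normal ∧ ¬ commutator G ≤ K}).exists_maximal
      ⟨⊥, inferInstance, fun h => hcm (le_bot_iff.1 h)⟩
  haveI := hKn
  haveI := Fintype.ofFinite (G ⧸ K)
  haveI := Fintype.ofFinite K
  have hmapc : (commutator G).map (QuotientGroup.mk' K) = commutator (G ⧸ K) := by
    rw [← derivedSeries_one, ← derivedSeries_one,
      map_derivedSeries_eq (QuotientGroup.mk'_surjective K)]
  have hne : commutator (G ⧸ K) ≠ ⊥ := fun h => hKne fun x hx => by
    rw [← QuotientGroup.eq_one_iff, ← Subgroup.mem_bot, ← h, ← hmapc]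
    exact ⟨x, hx, rfl⟩
  have hmin : ∀ M : Subgroup (G ⧸ K), M.Normal → M ≠ ⊥ → commutator (G ⧸ K) ≤ M := by
    intro M hM hM1
    have hlt : K < M.comap (QuotientGroup.mk' K) := by
      refine lt_of_le_of_ne (fun x hx => by
        rw [Subgroup.mem_comap, QuotientGroup.mk'_apply, (QuotientGroup.eq_one_iff x).2 hx]
        exact one_mem _) fun e => hM1 ?_
      rw [← Subgroup.map_comap_eq_self_of_surjective (QuotientGroup.mk'_surjective K) M, ← e,
        QuotientGroup.map_mk'_self]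
    rw [← hmapc, Subgroup.map_le_iff_le_comap]
    by_contra h
    exact hlt.not_ge (hKmax ⟨inferInstance, h⟩ hlt.le)
  have habQ : ∀ x ∈ commutator (G ⧸ K), ∀ y ∈ commutator (G ⧸ K), x * y = y * x := by
    intro x hx y hy
    have hsol : Group.IsSolvable (G ⧸ K) := inferInstance
    by_contra hxy
    have hD : ⁅commutator (G ⧸ K), commutator (G ⧸ K)⁆ ≠ ⊥ := fun h => hxy (by
      have := h.le (Subgroup.commutator_mem_commutator hx hy)
      rwa [Subgroup.mem_bot, commutatorElement_eq_one_iff_mul_comm] at this)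
    exact (Group.IsSolvable.commutator_lt_of_ne_bot hne).not_ge (hmin _ inferInstance hD)
  obtain ⟨p, hp, hcase⟩ := ThreeDeg.minimal_structure habQ hmin hne
  haveI := Fact.mk hp
  rcases hcase with hP | ⟨hLp, hpn, hsurj⟩
  · -- a `p`-group quotient connects the graph
    exfalso
    obtain ⟨μ, hμ⟩ : ∃ μ : IrrCharacter (G ⧸ K), charDegree (μ : G ⧸ K → ℂ) ≠ 1 := by
      by_contra h
      push Not at h
      refine hne ?_
      rw [← derivedSeries_one]
      exact ThreeDeg.derivedSeries_one_of_comm (ThreeDeg.comm_of_all_one h)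
    obtain ⟨k, hk⟩ := IsPGroup.iff_card.1 hP
    obtain ⟨j, -, hj⟩ := (Nat.dvd_prime_pow hp).1 (hk ▸ charDegree_dvd_card μ.2)
    have hall : ∀ χ : IrrCharacter G, charDegree (χ : G → ℂ) ≠ 1 → p ∣ charDegree (χ : G → ℂ) := by
      intro χ hχ
      by_contra hpχ
      have hco : (charDegree (χ : G → ℂ)).Coprime K.index := by
        rw [Subgroup.index_eq_card, hk]
        exact ((hp.coprime_iff_not_dvd.2 hpχ).pow_left k).symm
      have hirr := ThreeDeg.restrict_of_coprime K χ hco
      have hprod := ThreeDeg.gallagher_mul K (isCharacter_of_isIrr χ.2) hirr (inflateEquiv K μ).1.2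
        (inflateEquiv K μ).2
      have hdeg : charDegree (((inflateEquiv K μ).1 : G → ℂ) * (χ : G → ℂ)) =
          charDegree (μ : G ⧸ K → ℂ) * charDegree (χ : G → ℂ) := by
        rw [charDegree_mul (isCharacter_of_isIrr (inflateEquiv K μ).1.2) (isCharacter_of_isIrr χ.2),
          ThreeDeg.deg_inflate]
      have := degree_eq hnd (hmem χ) ⟨⟨_, hprod⟩, hdeg⟩ (h1lt χ hχ) (dvd_mul_left _ _)
      exact hμ ((mul_eq_right₀ (charDegree_pos χ.2).ne').1 this.symm)
    have hpd : p ∈ degreePrimes G := by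
      obtain ⟨χ, hχ⟩ := hnab
      exact ⟨hp, _, hmem χ, hall χ hχ⟩
    refine hnp (preconnected_of_hub hpd fun r hr => ?_)
    obtain ⟨hrp, d, ⟨χ, rfl⟩, hrd⟩ := id hr
    have hχ : charDegree (χ : G → ℂ) ≠ 1 := fun h => hrp.ne_one (Nat.dvd_one.1 (h ▸ hrd))
    exact reachable_of_dvd hr hpd (hmem χ) hrd (hall χ hχ)
  -- the Frobenius case
  set L := commutator (G ⧸ K) with hL
  set N := L.comap (QuotientGroup.mk' K) with hN
  haveI hNn : N.Normal := by rw [hN]; exact Subgroup.Normal.comap inferInstance _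
  haveI := Fintype.ofFinite N
  have hKN : K ≤ N := fun x hx => by
    rw [hN, Subgroup.mem_comap, QuotientGroup.mk'_apply, (QuotientGroup.eq_one_iff x).2 hx]
    exact one_mem _
  have hGN : commutator G ≤ N := by rw [hN, ← Subgroup.map_le_iff_le_comap, hmapc]
  have hidx : N.index = L.index := L.index_comap_of_surjective (QuotientGroup.mk'_surjective K)
  have hA : ∀ g ∉ N, ∀ x ∈ N, ∃ y ∈ N, ∃ k ∈ K, x = g * y * g⁻¹ * y⁻¹ * k := by
    intro g hg x hx
    obtain ⟨yb, hyb, he⟩ := hsurj (QuotientGroup.mk g) hg (QuotientGroup.mk x) hx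
    obtain ⟨y, rfl⟩ := QuotientGroup.mk_surjective yb
    refine ⟨y, hyb, (g * y * g⁻¹ * y⁻¹)⁻¹ * x, ?_, (mul_inv_cancel_left _ _).symm⟩
    rw [← QuotientGroup.eq]
    simpa only [QuotientGroup.mk_mul, QuotientGroup.mk_inv] using he
  have hfix : ∀ l : N →* ℂˣ, (∀ n : N, (n : G) ∈ K → l n = 1) → ∀ g ∉ N,
      conjChar N g (lf l) = lf l → l = 1 := by
    intro l hl g hg he
    rw [← lf_cj] at he
    have he' : cj N g l = l := lf_inj he
    refine MonoidHom.ext fun x => ?_
    obtain ⟨y, hy, k, hk, hxe⟩ := hA g hg x x.2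
    have h1 : x = (⟨g * y * g⁻¹, hNn.conj_mem y hy g⟩ : N) * (⟨y, hy⟩ : N)⁻¹ * ⟨k, hKN hk⟩ :=
      Subtype.ext (by simpa using hxe)
    rw [h1, map_mul, map_mul, map_inv, hl ⟨k, hKN hk⟩ hk, mul_one, MonoidHom.one_apply,
      ← cj_apply N g l ⟨y, hy⟩, he', mul_inv_cancel]
  obtain ⟨lam, hlam, hlam1⟩ : ∃ l : N →* ℂˣ, (∀ n : N, (n : G) ∈ K → l n = 1) ∧ l ≠ 1 := by
    obtain ⟨x, hx⟩ := Subgroup.ne_bot_iff_exists_ne_one.1 hne
    obtain ⟨l, hl⟩ : ∃ l : L →* ℂˣ, l x ≠ l 1 := by
      by_contra h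
      push Not at h
      exact hx (eq_of_forall_hom (fun y z : L => Subtype.ext (habQ y y.2 z z.2)) h)
    refine ⟨l.comp ((QuotientGroup.mk' K).subgroupComap L), fun n hn => ?_, fun h => hl ?_⟩
    · have : ((QuotientGroup.mk' K).subgroupComap L) n = 1 :=
        Subtype.ext ((QuotientGroup.eq_one_iff (n : G)).2 hn)
      rw [MonoidHom.comp_apply, this, map_one]
    · obtain ⟨y, hy⟩ := QuotientGroup.mk_surjective (x : G ⧸ K)
      have hyN : y ∈ N := by
        rw [hN, Subgroup.mem_comap, QuotientGroup.mk'_apply, hy]; exact x.2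
      have := DFunLike.congr_fun h ⟨y, hyN⟩
      rw [MonoidHom.comp_apply, MonoidHom.one_apply] at this
      rw [map_one, ← this]
      exact congrArg l (Subtype.ext hy.symm)
  set f := N.index with hf
  have hNt : f ≠ 1 := fun h => by
    rw [hf, Subgroup.index_eq_one] at h
    have hcomm : L = ⊤ := by
      rw [← Subgroup.map_comap_eq_self_of_surjective (QuotientGroup.mk'_surjective K) L, ← hN, h,
        Subgroup.map_top_of_surjective _ (QuotientGroup.mk'_surjective K)]
    refine hne ?_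
    rw [hL, ← derivedSeries_one]
    exact ThreeDeg.derivedSeries_one_of_comm fun x y =>
      habQ x (hcomm ▸ Subgroup.mem_top x) y (hcomm ▸ Subgroup.mem_top y)
  have hf1 : 1 < f := by
    have := Subgroup.index_ne_zero_of_finite (H := N)
    omega
  have hpf : ¬ p ∣ f := by rw [hidx]; exact hpn
  have hind : ∀ ψ : N → ℂ, IsIrrCharacter N ψ → (∀ g ∉ N, conjChar N g ψ ≠ ψ) →
      f * charDegree ψ ∈ charDegrees G := by
    intro ψ hψ h
    have hin : inertia N ψ = N := le_antisymm (fun g hg => by by_contra hgN; exact h g hgN hg)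
      (le_inertia N (isClassFunction_of_isIrr hψ))
    refine ⟨⟨_, isIrrCharacter_indFun N hψ hin⟩, charDegree_eq_of_apply_one ?_⟩
    show indFun N ψ 1 = _
    rw [indFun_one, apply_one_eq_charDegree (isCharacter_of_isIrr hψ)]
    push_cast; rfl
  have hfdeg : f ∈ charDegrees G := by
    have := hind (lf lam) (isIrrCharacter_linear lam) fun g hg he => hlam1 (hfix lam hlam g hg he)
    rwa [show charDegree (lf lam) = 1 from charDegree_eq_of_apply_one (by simp [lf]), mul_one] at this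
  obtain ⟨kL, hkL⟩ := IsPGroup.iff_card.1 hLp
  haveI hKNn : (K.subgroupOf N).Normal := hKn.subgroupOf N
  haveI := Fintype.ofFinite (K.subgroupOf N)
  have hKNi : (K.subgroupOf N).index = p ^ kL := by
    rw [show (K.subgroupOf N).index = K.relIndex N from rfl, ← hkL]
    have h := Subgroup.relIndex_ker N (QuotientGroup.mk' K)
    rwa [QuotientGroup.ker_mk', hN,
      Subgroup.map_comap_eq_self_of_surjective (QuotientGroup.mk'_surjective K)] at h
  -- `p` divides the nonlinear degrees of `N`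
  have hNp : ∀ ψ : IrrCharacter N, charDegree (ψ : N → ℂ) ≠ 1 → p ∣ charDegree (ψ : N → ℂ) := by
    intro ψ hd1
    by_contra hpd
    have hirr := ThreeDeg.restrict_of_coprime (K.subgroupOf N) ψ (by
      rw [hKNi]
      exact Nat.Coprime.pow_right kL ((hp.coprime_iff_not_dvd.2 hpd).symm))
    have hstab : ∀ l : N →* ℂˣ, ∃ g ∉ N, conjChar N g (lf l * (ψ : N → ℂ)) = lf l * (ψ : N → ℂ) := by
      intro l
      have hi : IsIrrCharacter N (lf l * (ψ : N → ℂ)) := isIrrCharacter_linear_mul ψ.2 l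
      have hdl : charDegree (lf l * (ψ : N → ℂ)) = charDegree (ψ : N → ℂ) := charDegree_eq_of_apply_one (by
        rw [Pi.mul_apply, apply_one_eq_charDegree (isCharacter_of_isIrr ψ.2)]; simp [lf])
      by_contra hno
      push Not at hno
      have h := hind _ hi hno
      rw [hdl] at h
      have := degree_eq hnd hfdeg h hf1 (dvd_mul_right _ _)
      exact hd1 ((mul_eq_left₀ (show f ≠ 0 by omega)).1 this.symm)
    obtain ⟨g, hg, hgψ⟩ := hstab 1
    rw [show lf (1 : N →* ℂˣ) * (ψ : N → ℂ) = (ψ : N → ℂ) from funext fun x => by simp [lf]] at hgψ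
    obtain ⟨h', hh', hhψ⟩ := hstab lam
    have hmul : ∀ (x : G) (f₁ f₂ : N → ℂ), conjChar N x (f₁ * f₂) = conjChar N x f₁ * conjChar N x f₂ :=
      fun _ _ _ => rfl
    rw [hmul, ← lf_cj] at hhψ
    set nu := lam * (cj N h' lam)⁻¹ with hnu
    have hψh : conjChar N h' (ψ : N → ℂ) = lf nu * (ψ : N → ℂ) := by
      funext x
      have h0 := congrFun hhψ x
      simp only [Pi.mul_apply, lf, hnu, MonoidHom.mul_apply, MonoidHom.inv_apply, Units.val_mul,
        Units.val_inv_eq_inv_val] at h0 ⊢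
      have hne0 : ((cj N h' lam x : ℂˣ) : ℂ) ≠ 0 := Units.ne_zero _
      field_simp
      linear_combination h0
    have hcjK : ∀ (x : G) (l : N →* ℂˣ), (∀ n : N, (n : G) ∈ K → l n = 1) →
        ∀ n : N, (n : G) ∈ K → cj N x l n = 1 := fun x l hl n hn => by
      rw [cj_apply]; exact hl _ (hKn.conj_mem n hn x)
    have hnuK : ∀ n : N, (n : G) ∈ K → nu n = 1 := fun n hn => by
      rw [hnu, MonoidHom.mul_apply, MonoidHom.inv_apply, hlam n hn, hcjK h' lam hlam n hn, inv_one,
        mul_one]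
    have hnufix : conjChar N g (lf nu) = lf nu := by
      rw [← lf_cj]
      refine congrArg lf ?_
      refine ThreeDeg.twist_injective (K.subgroupOf N) (isCharacter_of_isIrr ψ.2) hirr
        (fun n hn => hcjK g nu hnuK n hn) (fun n hn => hnuK n hn) ?_
      have hc : (h' * g)⁻¹ * (g * h') ∈ N := hGN (by
        have : (h' * g)⁻¹ * (g * h') = ⁅g⁻¹, h'⁻¹⁆ := by rw [commutatorElement_def]; group
        rw [this, commutator_def]
        exact Subgroup.commutator_mem_commutator (Subgroup.mem_top _) (Subgroup.mem_top _))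
      have e1 : conjChar N (h' * g) (ψ : N → ℂ) = conjChar N g (lf nu) * (ψ : N → ℂ) := by
        rw [conjChar_mul, hψh, hmul, hgψ]
      have e2 : conjChar N (g * h') (ψ : N → ℂ) = lf nu * (ψ : N → ℂ) := by
        rw [conjChar_mul, hgψ, hψh]
      have e3 : conjChar N (g * h') (ψ : N → ℂ) = conjChar N (h' * g) (ψ : N → ℂ) := by
        rw [show g * h' = (h' * g) * ((h' * g)⁻¹ * (g * h')) by group, conjChar_mul,
          conjChar_of_mem N (isClassFunction_of_isIrr (isIrrCharacter_conjChar N (h' * g) ψ.2)) hc]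
      rw [lf_cj, ← e1, ← e3, e2]
    have hnu1 := hfix nu hnuK g hg hnufix
    have hnu2 : lam = cj N h' lam := MonoidHom.ext fun x => mul_inv_eq_one.1 (by
      simpa [hnu] using DFunLike.congr_fun hnu1 x)
    refine hlam1 (hfix lam hlam h' hh' ?_)
    rw [← lf_cj, ← hnu2]
  -- degrees other than `f` are divisible by `p`
  have hGp : ∀ χ : IrrCharacter G, charDegree (χ : G → ℂ) ≠ 1 → charDegree (χ : G → ℂ) ≠ f →
      p ∣ charDegree (χ : G → ℂ) := by
    intro χ h1 h2
    obtain ⟨θ, hθ⟩ := exists_constituent (isCharacter_restrict (isCharacter_of_isIrr χ.2) N)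
      (fun h => irr_degree_ne_zero χ.2 (congrFun h 1))
    obtain ⟨e, he⟩ := classInner_natCast (isCharacter_restrict (isCharacter_of_isIrr χ.2) N)
      (isCharacter_of_isIrr θ.2)
    have hc := clifford_degree N χ.2 θ.2 hθ
    rw [he, apply_one_eq_charDegree (isCharacter_of_isIrr χ.2),
      apply_one_eq_charDegree (isCharacter_of_isIrr θ.2)] at hc
    have hc' : charDegree (χ : G → ℂ) =
        e * (inertia N (θ : N → ℂ)).index * charDegree (θ : N → ℂ) := by exact_mod_cast hc
    by_cases hθ1 : charDegree (θ : N → ℂ) = 1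
    · have hdvd := Block.NormalDefect.charDegree_dvd_index_mul N χ θ hθ
      rw [hθ1, mul_one] at hdvd
      exact absurd (degree_eq hnd (hmem χ) hfdeg (h1lt χ h1) hdvd) h2
    · rw [hc']; exact (hNp θ hθ1).mul_left _
  obtain ⟨χb, hb1, hbf⟩ : ∃ χ : IrrCharacter G, charDegree (χ : G → ℂ) ≠ 1 ∧ charDegree (χ : G → ℂ) ≠ f := by
    by_contra h
    push Not at h
    obtain ⟨r, hr, hrf⟩ := Nat.exists_prime_and_dvd hNt
    have hrd : r ∈ degreePrimes G := ⟨hr, f, hfdeg, hrf⟩
    refine hnp (preconnected_of_hub hrd fun r' hr' => ?_)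
    obtain ⟨hr'p, d, ⟨χ, rfl⟩, hr'd⟩ := id hr'
    have hχ : charDegree (χ : G → ℂ) ≠ 1 := fun h => hr'p.ne_one (Nat.dvd_one.1 (h ▸ hr'd))
    exact reachable_of_dvd hr' hrd hfdeg (h χ hχ ▸ hr'd) hrf
  have hpd : p ∈ degreePrimes G := ⟨hp, _, hmem χb, hGp χb hb1 hbf⟩
  have hcop : ∀ χ : IrrCharacter G, charDegree (χ : G → ℂ) ≠ 1 → charDegree (χ : G → ℂ) ≠ f →
      (charDegree (χ : G → ℂ)).Coprime f := by
    intro χ h1 h2
    by_contra hno
    obtain ⟨r, hr, hrχ, hrf⟩ := Nat.Prime.not_coprime_iff_dvd.1 hno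
    have hrd : r ∈ degreePrimes G := ⟨hr, f, hfdeg, hrf⟩
    refine hnp (preconnected_of_hub hpd fun r' hr' => ?_)
    obtain ⟨hr'p, d, ⟨ψ, rfl⟩, hr'd⟩ := id hr'
    have hψ : charDegree (ψ : G → ℂ) ≠ 1 := fun h => hr'p.ne_one (Nat.dvd_one.1 (h ▸ hr'd))
    by_cases hψf : charDegree (ψ : G → ℂ) = f
    · exact (reachable_of_dvd hr' hrd hfdeg (hψf ▸ hr'd) hrf).trans
        (reachable_of_dvd hrd hpd (hmem χ) hrχ (hGp χ h1 h2))
    · exact reachable_of_dvd hr' hpd (hmem ψ) hr'd (hGp ψ hψ hψf)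
  -- restriction
  have hover : ∀ θ : IrrCharacter N, charDegree (θ : N → ℂ) ≠ 1 → ∃ χ : IrrCharacter G,
      charDegree (χ : G → ℂ) ≠ 1 ∧ charDegree (χ : G → ℂ) ≠ f ∧
        charDegree (χ : G → ℂ) = charDegree (θ : N → ℂ) ∧ ∀ x : N, (θ : N → ℂ) x = (χ : G → ℂ) x := by
    intro θ hθ
    obtain ⟨χ, e, hne', he, -⟩ := ThreeDeg.exists_over N θ
    have hpχ : p ∣ charDegree (χ : G → ℂ) := he ▸ (hNp θ hθ).mul_left _
    have h1 : charDegree (χ : G → ℂ) ≠ 1 := fun h => hp.ne_one (Nat.dvd_one.1 (h ▸ hpχ))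
    have h2 : charDegree (χ : G → ℂ) ≠ f := fun h => hpf (h ▸ hpχ)
    have hirr := ThreeDeg.restrict_of_coprime N χ (hcop χ h1 h2)
    have heq : (fun x : N => (χ : G → ℂ) x) = (θ : N → ℂ) := by
      by_contra h
      exact hne' (classInner_irr_ne hirr θ.2 h)
    refine ⟨χ, h1, h2, ?_, fun x => (congrFun heq x).symm⟩
    rw [← heq]
    exact (charDegree_eq_of_apply_one (apply_one_eq_charDegree (isCharacter_of_isIrr χ.2))).symm
  obtain ⟨c, hc⟩ : ∃ c, c ∉ N := by
    by_contra h
    push Not at h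
    exact hNt (Subgroup.index_eq_one.2 (eq_top_iff.2 fun x _ => h x))
  let g : N ≃* N := MulAut.conjNormal c
  have hgit : ∀ (i : ℕ) (x : N), ((g^[i] x : N) : G) = c ^ i * x * (c ^ i)⁻¹ := by
    intro i
    induction i with
    | zero => intro x; simp
    | succ i ih =>
      intro x
      rw [Function.iterate_succ_apply, ih, show ((g x : N) : G) = c * x * c⁻¹ from MulAut.conjNormal_apply _ _,
        pow_succ]
      group
  have hgood : Good p f g ⟨c ^ f, hf ▸ N.pow_index_mem c⟩ (K.subgroupOf N) := by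
    refine ⟨hp, inferInstance, ?_, ?_, ?_, ?_, ?_, ?_, ?_, hNp, ?_, ?_⟩
    · rw [commutator_def, Subgroup.commutator_le]
      intro a _ b _
      show ((⁅a, b⁆ : N) : G) ∈ K
      rw [← QuotientGroup.eq_one_iff]
      have ha : ((a : G) : G ⧸ K) ∈ L := a.2
      have hb : ((b : G) : G ⧸ K) ∈ L := b.2
      have h := habQ _ ha _ hb
      rw [← commutatorElement_eq_one_iff_mul_comm] at h
      rw [← h, ← QuotientGroup.mk'_apply, ← Subgroup.coe_subtype, map_commutatorElement, map_commutatorElement]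
      rfl
    · intro h
      rw [Subgroup.subgroupOf_eq_top] at h
      refine hne ((Subgroup.eq_bot_iff_forall _).2 fun x hx => ?_)
      obtain ⟨y, rfl⟩ := QuotientGroup.mk_surjective x
      exact (QuotientGroup.eq_one_iff y).2 (h hx)
    · intro x hx
      show ((g x : N) : G) ∈ K
      rw [show ((g x : N) : G) = c * x * c⁻¹ from MulAut.conjNormal_apply _ _]
      exact hKn.conj_mem _ hx c
    · intro x
      obtain ⟨i, hi⟩ := hLp ⟨_, x.2⟩
      refine ⟨i, ?_⟩
      show ((x ^ p ^ i : N) : G) ∈ K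
      rw [Subgroup.coe_pow, ← QuotientGroup.eq_one_iff, QuotientGroup.mk_pow]
      exact congrArg Subtype.val hi
    · intro x hx
      have hx' : c * (x : G) * c⁻¹ * (x : G)⁻¹ ∈ K := by
        have : ((g x * x⁻¹ : N) : G) ∈ K := hx
        rwa [Subgroup.coe_mul, Subgroup.coe_inv,
          show ((g x : N) : G) = c * x * c⁻¹ from MulAut.conjNormal_apply _ _] at this
      let δ : L → L := fun y => ⟨(c : G ⧸ K) * y * (c : G ⧸ K)⁻¹ * (y : G ⧸ K)⁻¹,
        mul_mem ((inferInstance : L.Normal).conj_mem _ y.2 _) (inv_mem y.2)⟩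
      have hs : Function.Surjective δ := fun z => by
        obtain ⟨y, hy, he⟩ := hsurj (c : G ⧸ K) hc z z.2
        exact ⟨⟨y, hy⟩, Subtype.ext he⟩
      have h1 : δ ⟨_, x.2⟩ = δ 1 := Subtype.ext (by
        have := (QuotientGroup.eq_one_iff _).2 hx'
        simpa [δ] using this)
      exact (QuotientGroup.eq_one_iff (x : G)).1 (congrArg Subtype.val ((Finite.injective_iff_surjective.2 hs) h1))
    · intro x
      exact Subtype.ext (hgit f x)
    · intro θ hθ x
      obtain ⟨χ, -, -, -, hv⟩ := hover θ hθ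
      rw [hv, hv, show ((g x : N) : G) = c * x * c⁻¹ from MulAut.conjNormal_apply _ _]
      exact isClassFunction_of_isIrr χ.2 _ _
    · intro θ hθ
      obtain ⟨χ, h1, h2, he, -⟩ := hover θ hθ
      exact he ▸ hcop χ h1 h2
    · intro θ θ' hθ hd
      obtain ⟨χ, h1, -, he, -⟩ := hover θ hθ
      have hθ' : charDegree (θ' : N → ℂ) ≠ 1 := fun h => hθ (Nat.dvd_one.1 (h ▸ hd))
      obtain ⟨χ', -, -, he', -⟩ := hover θ' hθ'
      rw [← he, ← he'] at hd ⊢
      exact degree_eq hnd (hmem χ) (hmem χ') (h1lt χ h1) hd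
  have hS := main (Nat.card N) N le_rfl p f g _ _ hgood
  have hall : ∀ χ : IrrCharacter G, charDegree (χ : G → ℂ) ≠ 1 → charDegree (χ : G → ℂ) ≠ f →
      charDegree (χ : G → ℂ) = charDegree (χb : G → ℂ) := by
    intro χ h1 h2
    have hd : ∀ χ : IrrCharacter G, charDegree (fun x : N => (χ : G → ℂ) x) = charDegree (χ : G → ℂ) :=
      fun χ => charDegree_eq_of_apply_one (apply_one_eq_charDegree (isCharacter_of_isIrr χ.2))
    have := hS ⟨_, ThreeDeg.restrict_of_coprime N χ (hcop χ h1 h2)⟩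
      ⟨_, ThreeDeg.restrict_of_coprime N χb (hcop χb hb1 hbf)⟩ (by rwa [hd]) (by rwa [hd])
    rwa [hd, hd] at this
  obtain ⟨χ1, hχ1⟩ : 1 ∈ charDegrees G := ⟨Block.oneIrr G, charDegree_one⟩
  have hset : charDegrees G = {1, f, charDegree (χb : G → ℂ)} := by
    ext d
    simp only [Set.mem_insert_iff, Set.mem_singleton_iff]
    constructor
    · rintro ⟨χ, rfl⟩
      by_cases h1 : charDegree (χ : G → ℂ) = 1
      · exact Or.inl h1
      by_cases h2 : charDegree (χ : G → ℂ) = f
      · exact Or.inr (Or.inl h2)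
      · exact Or.inr (Or.inr (hall χ h1 h2))
    · rintro (rfl | rfl | rfl)
      · exact ⟨χ1, hχ1⟩
      · exact hfdeg
      · exact hmem χb
  rw [hset, Nat.card_coe_set_eq, Set.ncard_eq_three]
  exact ⟨1, f, _, Ne.symm hNt, Ne.symm hb1, Ne.symm hbf, rfl⟩

end Cfsg.Agent.Lib.Char.Disconn
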