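import Cfsg.Agent.Lib.Char.Disconn.Basic
import Cfsg.Agent.Lib.Char.Monomial
import Cfsg.Agent.Lib.PGroupFrattini

/-!
# Abelian sections inside the derived group
-/

set_option autoImplicit false
set_option linter.unusedSectionVars false
set_option linter.style.haveILetI false

namespace Cfsg.Agent.Lib.Char.Disconn

open Cfsg Cfsg.Agent.Lib Cfsg.Agent.Lib.Char
open Cfsg.Agent.Lib.Char.TwoDegPrime (lf lf_inj cj lf_cj cj_apply cj_mul cj_prod St mem_St)
open scoped commutatorElement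

universe u

variable {N : Type u} [Group N] [Finite N]

/-- A `p`-group derived subgroup with all nonlinear degrees divisible by `p`. -/
theorem pgroup_derived {p : ℕ} (hp : p.Prime)
    (hd : ∀ θ : IrrCharacter N, charDegree (θ : N → ℂ) ≠ 1 → p ∣ charDegree (θ : N → ℂ))
    (hN : IsPGroup p (commutator N)) :
    (∀ h : N, ¬ p ∣ orderOf h → h ∈ Subgroup.center N) ∧
      ∀ θ : IrrCharacter N, ∃ i, charDegree (θ : N → ℂ) = p ^ i := by
  classical
  haveI := Fintype.ofFinite N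
  haveI := Fact.mk hp
  obtain ⟨P, hP⟩ := hN.exists_le_sylow
  haveI hPn : (P : Subgroup N).Normal := Subgroup.Normal.of_commutator_le _ hP
  haveI := Fintype.ofFinite (P : Subgroup N)
  have hPi : ¬ p ∣ (P : Subgroup N).index := P.not_dvd_index
  have hlin : ∀ (l : (P : Subgroup N) →* ℂˣ) (h : N), cj (P : Subgroup N) h l = l := by
    intro l h
    obtain ⟨χ, e, hne, he, hdvd⟩ := ThreeDeg.exists_over (P : Subgroup N) ⟨_, isIrrCharacter_linear l⟩
    have h1 : charDegree (fun h : (P : Subgroup N) => (l h : ℂ)) = 1 :=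
      charDegree_eq_of_apply_one (by simp)
    simp only [h1, mul_one] at he hdvd
    have hχ : charDegree (χ : N → ℂ) = 1 := by
      by_contra h
      exact hPi ((hd χ h).trans hdvd)
    rw [hχ] at he
    have hidx := Nat.eq_one_of_mul_eq_one_left he.symm
    have : h ∈ inertia (P : Subgroup N) (lf l) := by
      show h ∈ inertia (P : Subgroup N) (fun h => (l h : ℂ))
      rw [Subgroup.index_eq_one] at hidx
      rw [hidx]; exact Subgroup.mem_top h
    exact (mem_St _).1 this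
  have hcen : ∀ h : N, ¬ p ∣ orderOf h → ∀ y ∈ (P : Subgroup N), h * y = y * h := by
    intro h hh y hy
    have hle := Coprime.le_centralizer_of_frattini (A := Subgroup.zpowers h) (K := (P : Subgroup N))
      (Subgroup.normalizer_eq_top (H := (P : Subgroup N)) ▸ le_top) ?_ ?_
    · exact (Subgroup.mem_centralizer_iff.1 (hle (Subgroup.mem_zpowers h)) y hy).symm
    · obtain ⟨k, hk⟩ := IsPGroup.iff_card.1 (P.isPGroup'.to_subgroup (frattini (P : Subgroup N)))
      rw [hk, Nat.card_zpowers]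
      exact ((hp.coprime_iff_not_dvd.2 hh).pow_left k).symm
    · intro a ha k hk
      have hkm : a * k * a⁻¹ * k⁻¹ ∈ (P : Subgroup N) := mul_mem (hPn.conj_mem k hk a) (inv_mem hk)
      refine ⟨⟨_, hkm⟩, ?_, rfl⟩
      haveI : Group.IsNilpotent (P : Subgroup N) := P.isPGroup'.isNilpotent
      have hcl : commutator (P : Subgroup N) ≤ frattini (P : Subgroup N) :=
        PGroupFrattini.commutator_le_frattini P.isPGroup'
      refine hcl ?_
      by_contra hno
      obtain ⟨l, hl⟩ := exists_linear_ne (x := (⟨a * k * a⁻¹, hPn.conj_mem k hk a⟩ : (P : Subgroup N)))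
        (y := ⟨k, hk⟩) hno
      exact hl (by rw [← cj_apply _ a l ⟨k, hk⟩, hlin])
  have hcen' : ∀ h : N, ¬ p ∣ orderOf h → h ∈ Subgroup.center N := by
    intro h hh
    refine Subgroup.mem_center_iff.2 fun y => ?_
    have hc : ⁅h, y⁆ ∈ (P : Subgroup N) := hP (Subgroup.commutator_mem_commutator
      (Subgroup.mem_top h) (Subgroup.mem_top y))
    have hcc : Commute h ⁅h, y⁆ := hcen h hh _ hc
    have he : y * h * y⁻¹ = ⁅h, y⁆⁻¹ * h := by rw [commutatorElement_def]; group
    have h1 : (⁅h, y⁆⁻¹) ^ orderOf h = 1 := by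
      have := congrArg (· ^ orderOf h) he
      simp only [conj_pow, pow_orderOf_eq_one, mul_one, mul_inv_cancel] at this
      rw [(hcc.inv_right.symm).mul_pow, pow_orderOf_eq_one, mul_one] at this
      exact this.symm
    obtain ⟨k, hk⟩ := P.isPGroup' ⟨_, hc⟩
    have hk' : ⁅h, y⁆ ^ p ^ k = 1 := congrArg Subtype.val hk
    rw [inv_pow, inv_eq_one] at h1
    have h2 := Nat.dvd_gcd (orderOf_dvd_of_pow_eq_one h1) (orderOf_dvd_of_pow_eq_one hk')
    rw [((hp.coprime_iff_not_dvd.2 hh).pow_left k).symm, Nat.dvd_one, orderOf_eq_one_iff] at h2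
    rw [h2, inv_one, one_mul, mul_inv_eq_iff_eq_mul] at he
    exact he
  refine ⟨hcen', fun θ => ?_⟩
  set Z := Subgroup.center N
  haveI := Fintype.ofFinite Z
  obtain ⟨ψ, hψ⟩ := exists_constituent (isCharacter_restrict (isCharacter_of_isIrr θ.2) Z)
    (fun h => irr_degree_ne_zero θ.2 (congrFun h 1))
  have hψ1 : charDegree (ψ : Z → ℂ) = 1 := by
    have := (Cfsg.Agent.S0187.result (G := Z)).1
      (fun x y => Subtype.ext ((Subgroup.mem_center_iff.1 y.2 x))) ψ
    exact charDegree_eq_of_apply_one (by rw [this, Nat.cast_one])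
  have hdvd := Block.NormalDefect.charDegree_dvd_index_mul Z θ ψ hψ
  rw [hψ1, mul_one] at hdvd
  obtain ⟨k, hk⟩ : ∃ k, Z.index = p ^ k := by
    rw [Subgroup.index_eq_card]
    refine IsPGroup.iff_card.1 fun x => ?_
    obtain ⟨x, rfl⟩ := QuotientGroup.mk_surjective x
    refine ⟨(orderOf x).factorization p, ?_⟩
    rw [← QuotientGroup.mk_pow, QuotientGroup.eq_one_iff]
    refine hcen' _ ?_
    rw [orderOf_pow_of_dvd (pow_pos hp.pos _).ne' (Nat.ordProj_dvd _ _)]
    exact Nat.not_dvd_ordCompl hp (orderOf_pos x).ne'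
  exact ((Nat.dvd_prime_pow hp).1 (hk ▸ hdvd)).imp fun _ h => h.2

variable {p f : ℕ} {g : N ≃* N} {n0 : N} {K : Subgroup N}

/-- Facts on `N / A` when `A ≤ N'` and `N' / A` is a `p`-group. -/
theorem Good.quot_facts (hG : Good p f g n0 K) (A : Subgroup N) [A.Normal]
    (hNA : ∀ y ∈ commutator N, ∃ k, y ^ p ^ k ∈ A) :
    (∀ h : N ⧸ A, ¬ p ∣ orderOf h → h ∈ Subgroup.center (N ⧸ A)) ∧
      ∀ θ : IrrCharacter N, (∀ a ∈ A, (θ : N → ℂ) a = (θ : N → ℂ) 1) →
        ∃ i, charDegree (θ : N → ℂ) = p ^ i := by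
  haveI := Fintype.ofFinite N
  haveI := Fintype.ofFinite (N ⧸ A)
  obtain ⟨h1, h2⟩ := pgroup_derived (N := N ⧸ A) hG.prime (fun μ hμ => by
      have h := hG.dvd (inflateEquiv A μ).1 (by rwa [ThreeDeg.deg_inflate])
      rwa [ThreeDeg.deg_inflate] at h) (fun y => by
      obtain ⟨y, hy⟩ := y
      have hy' : y ∈ (commutator N).map (QuotientGroup.mk' A) := by
        rwa [← derivedSeries_one, map_derivedSeries_eq (QuotientGroup.mk'_surjective A),
          derivedSeries_one]
      obtain ⟨z, hz, rfl⟩ := hy'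
      obtain ⟨k, hk⟩ := hNA z hz
      refine ⟨k, Subtype.ext ?_⟩
      show (QuotientGroup.mk' A z) ^ p ^ k = 1
      rw [← map_pow]
      exact (QuotientGroup.eq_one_iff _).2 hk)
  refine ⟨h1, fun θ hθ => ?_⟩
  obtain ⟨μ, hμ⟩ := (inflateEquiv A).surjective ⟨θ, hθ⟩
  obtain ⟨i, hi⟩ := h2 μ
  refine ⟨i, ?_⟩
  have := ThreeDeg.deg_inflate A μ
  rw [hμ] at this
  exact this.trans hi

/-- The preimage of the centre of `N / A`. -/
def zpre (A : Subgroup N) [A.Normal] : Subgroup N :=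
  (Subgroup.center (N ⧸ A)).comap (QuotientGroup.mk' A)

set_option maxHeartbeats 1000000 in
/-- A nonlinear degree of `N / A` divides the index of a subgroup abelian modulo `A`. -/
theorem Good.pdeg (hG : Good p f g n0 K) (A : Subgroup N) [A.Normal]
    (hNA : ∀ y ∈ commutator N, ∃ k, y ^ p ^ k ∈ A) (θ : IrrCharacter N)
    (hθA : ∀ a ∈ A, (θ : N → ℂ) a = (θ : N → ℂ) 1) (T : Subgroup N) (hT : ⁅T, T⁆ ≤ A) :
    charDegree (θ : N → ℂ) ∣ T.index ∧
      (T.index = charDegree (θ : N → ℂ) → A ≤ T → zpre A ≤ T) := by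
  classical
  haveI := Fintype.ofFinite N
  haveI := Fact.mk hG.prime
  obtain ⟨h1, h2⟩ := hG.quot_facts A hNA
  set π := QuotientGroup.mk' A with hπ
  set T2 := (T.map π ⊔ Subgroup.center (N ⧸ A)).comap π with hT2
  haveI := Fintype.ofFinite T2
  have hTT2 : T ≤ T2 := fun t ht => Subgroup.mem_sup_left ⟨t, ht, rfl⟩
  have hZT2 : zpre A ≤ T2 := fun t ht => Subgroup.mem_sup_right ht
  have hcomm : ∀ a ∈ T.map π ⊔ Subgroup.center (N ⧸ A),
      ∀ b ∈ T.map π ⊔ Subgroup.center (N ⧸ A), a * b = b * a := by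
    have hT' : ∀ a ∈ T.map π, ∀ b ∈ T.map π, a * b = b * a := by
      rintro _ ⟨a, ha, rfl⟩ _ ⟨b, hb, rfl⟩
      rw [← commutatorElement_eq_one_iff_mul_comm, ← map_commutatorElement]
      exact (QuotientGroup.eq_one_iff _).2 (hT (Subgroup.commutator_mem_commutator ha hb))
    intro a ha b hb
    rw [Subgroup.mem_sup_of_normal_right] at ha hb
    obtain ⟨a1, ha1, a2, ha2, rfl⟩ := ha
    obtain ⟨b1, hb1, b2, hb2, rfl⟩ := hb
    have e1 := Subgroup.mem_center_iff.1 ha2
    have e2 := Subgroup.mem_center_iff.1 hb2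
    have e3 : Commute (a1 * a2) (b1 * b2) :=
      (Commute.mul_right (hT' a1 ha1 b1 hb1) (e2 a1)).mul_left (e1 (b1 * b2)).symm
    exact e3
  -- the degree is at most the index
  obtain ⟨ψ, hψ⟩ := exists_constituent (isCharacter_restrict (isCharacter_of_isIrr θ.2) T2)
    (fun h => irr_degree_ne_zero θ.2 (congrFun h 1))
  have hker : ∀ a : T2, (a : N) ∈ A → (ψ : T2 → ℂ) a = (ψ : T2 → ℂ) 1 := by
    intro a ha
    haveI : (A.subgroupOf T2).Normal := (inferInstance : A.Normal).subgroupOf T2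
    haveI := Fintype.ofFinite (A.subgroupOf T2)
    have hr := isCharacter_restrict (isCharacter_of_isIrr θ.2) T2
    exact constituent_apply_eq hr ψ.2 hψ (hθA a ha)
  have hψ1 : charDegree (ψ : T2 → ℂ) = 1 := by
    haveI : (A.subgroupOf T2).Normal := (inferInstance : A.Normal).subgroupOf T2
    haveI := Fintype.ofFinite (T2 ⧸ A.subgroupOf T2)
    obtain ⟨μ, hμ⟩ := (inflateEquiv (A.subgroupOf T2)).surjective
      ⟨ψ, fun a ha => hker a (Subgroup.mem_subgroupOf.1 ha)⟩
    have := ThreeDeg.deg_inflate (A.subgroupOf T2) μ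
    rw [hμ] at this
    rw [this]
    refine charDegree_eq_of_apply_one ?_
    rw [(Cfsg.Agent.S0187.result).1 (fun u v => ?_) μ, Nat.cast_one]
    obtain ⟨u, rfl⟩ := QuotientGroup.mk_surjective u
    obtain ⟨v, rfl⟩ := QuotientGroup.mk_surjective v
    rw [← QuotientGroup.mk_mul, ← QuotientGroup.mk_mul, QuotientGroup.eq, Subgroup.mem_subgroupOf,
      ← QuotientGroup.eq_one_iff]
    have := hcomm (π u) u.2 (π v) v.2
    simp only [hπ, QuotientGroup.mk'_apply] at this
    simp only [Subgroup.coe_mul, Subgroup.coe_inv, QuotientGroup.mk_mul, QuotientGroup.mk_inv]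
    rw [this, inv_mul_cancel]
  have hle : charDegree (θ : N → ℂ) ≤ T2.index := by
    have hne : classInner (indFun T2 (ψ : T2 → ℂ)) (θ : N → ℂ) ≠ 0 := by
      rw [classInner_indFun T2 _ (isClassFunction_of_isIrr θ.2), classInner_conj_symm]
      exact (map_ne_zero _).2 hψ
    refine (constituent_degree_le (isCharacter_indFun T2 (isCharacter_of_isIrr ψ.2)) θ.2 hne).trans
      (le_of_eq (charDegree_eq_of_apply_one ?_))
    rw [indFun_one, apply_one_eq_charDegree (isCharacter_of_isIrr ψ.2), hψ1]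
    push_cast; rw [mul_one]
  obtain ⟨k, hk⟩ : ∃ k, T2.index = p ^ k := by
    have hz : IsPGroup p ((N ⧸ A) ⧸ Subgroup.center (N ⧸ A)) := fun x => by
      obtain ⟨x, rfl⟩ := QuotientGroup.mk_surjective x
      refine ⟨(orderOf x).factorization p, ?_⟩
      rw [← QuotientGroup.mk_pow, QuotientGroup.eq_one_iff]
      refine h1 _ ?_
      rw [orderOf_pow_of_dvd (pow_pos hG.prime.pos _).ne' (Nat.ordProj_dvd _ _)]
      exact Nat.not_dvd_ordCompl hG.prime (orderOf_pos x).ne'
    obtain ⟨k, hk⟩ := IsPGroup.iff_card.1 hz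
    rw [← Subgroup.index_eq_card] at hk
    rw [hT2, Subgroup.index_comap_of_surjective _ (QuotientGroup.mk'_surjective A)]
    have h3 : (T.map π ⊔ Subgroup.center (N ⧸ A)).index ∣ (Subgroup.center (N ⧸ A)).index :=
      Subgroup.index_dvd_of_le le_sup_right
    rw [hk] at h3
    exact ((Nat.dvd_prime_pow hG.prime).1 h3).imp fun _ h => h.2
  obtain ⟨i, hi⟩ := h2 θ hθA
  rw [hi, hk] at hle
  have hdvd : charDegree (θ : N → ℂ) ∣ T2.index := by
    rw [hi, hk]; exact Nat.pow_dvd_pow p ((Nat.pow_le_pow_iff_right hG.prime.one_lt).1 hle)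
  refine ⟨hdvd.trans (Subgroup.index_dvd_of_le hTT2), fun he _ => ?_⟩
  have h3 : T2.index = T.index :=
    Nat.dvd_antisymm (Subgroup.index_dvd_of_le hTT2) (by rw [he]; exact hdvd)
  have h4 : T.relIndex T2 = 1 := by
    have := Subgroup.relIndex_mul_index hTT2
    rw [h3] at this
    exact (mul_eq_right₀ Subgroup.index_ne_zero_of_finite).1 this
  exact hZT2.trans (Subgroup.relIndex_eq_one.1 h4)

/-- A Sylow normaliser complements `A`. -/
theorem Good.complement (hG : Good p f g n0 K) (A : Subgroup N) [A.Normal]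
    (hA : A ≤ commutator N) (hpA : ¬ p ∣ Nat.card A) (hNA : ∀ y ∈ commutator N, ∃ k, y ^ p ^ k ∈ A) :
    ∃ (U : Subgroup N) (x : N), (∃ k, x ^ p ^ k = 1) ∧ x ∉ K ∧
      (∀ y : N, ∃ a ∈ A, ∃ u ∈ U, y = a * u) ∧ A ⊓ U = ⊥ := by
  classical
  haveI := Fact.mk hG.prime
  let P : Sylow p N := default
  obtain ⟨x, hxP, hxK⟩ : ∃ x ∈ (P : Subgroup N), x ∉ K := by
    by_contra h
    push Not at h
    obtain ⟨y, hy⟩ : ∃ y, y ∉ K := by
      by_contra h'
      push Not at h'
      exact hG.ne_top (eq_top_iff.2 fun y _ => h' y)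
    obtain ⟨j, hj, hjK⟩ := hG.exists_pelt hy
    have hq : IsPGroup p (Subgroup.zpowers (y ^ j)) := by
      obtain ⟨k, hk⟩ := hj
      rintro ⟨_, i, rfl⟩
      refine ⟨k, Subtype.ext ?_⟩
      push_cast
      rw [← zpow_natCast, ← zpow_mul, mul_comm, zpow_mul, zpow_natCast, hk, one_zpow]
    obtain ⟨Q, hQ⟩ := hq.exists_le_sylow
    obtain ⟨c, rfl⟩ := MulAction.exists_smul_eq N P Q
    have := hQ (Subgroup.mem_zpowers (y ^ j))
    rw [Sylow.coe_subgroup_smul, Subgroup.mem_pointwise_smul_iff_inv_smul_mem] at this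
    have h2 := hG.normal.conj_mem _ (h _ this) c
    refine hjK ?_
    simp only [MulAut.smul_def, MulAut.conj_inv_apply] at h2
    convert h2 using 1
    group
  obtain ⟨k, hk⟩ := P.isPGroup' ⟨x, hxP⟩
  have hxk : x ^ p ^ k = 1 := congrArg Subtype.val hk
  set W := (P : Subgroup N) ⊔ A with hW
  haveI hWn : W.Normal := by
    refine Subgroup.Normal.of_commutator_le _ fun y hy => ?_
    set π := QuotientGroup.mk' A
    have hle : (commutator N).map π ≤ (P : Subgroup N).map π := by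
      have hPb : ((P : Subgroup N).map π) = (P.mapSurjective (QuotientGroup.mk'_surjective A) :
          Sylow p (N ⧸ A)) := rfl
      rw [hPb]
      refine IsPGroup.le_sylow_of_normal ?_ _
      rintro ⟨_, z, hz, rfl⟩
      obtain ⟨k, hk⟩ := hNA z hz
      refine ⟨k, Subtype.ext ?_⟩
      push_cast
      rw [← map_pow]
      exact (QuotientGroup.eq_one_iff _).2 hk
    obtain ⟨z, hz, hze⟩ := hle ⟨y, hy, rfl⟩
    have : z⁻¹ * y ∈ A := QuotientGroup.eq.1 hze
    rw [← mul_inv_cancel_left z y]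
    exact mul_mem (Subgroup.mem_sup_left hz) (Subgroup.mem_sup_right this)
  refine ⟨Subgroup.normalizer ((P : Subgroup N) : Set N), x, ⟨k, hxk⟩, hxK, ?_, ?_⟩
  · have htop : Subgroup.normalizer ((P : Subgroup N) : Set N) ⊔ A = ⊤ := by
      have h := Sylow.normalizer_sup_eq_top (P.subtype (le_sup_left : (P : Subgroup N) ≤ W))
      rw [Sylow.coe_subtype, Subgroup.subgroupOf_map_subtype, inf_eq_left.2 le_sup_left] at h
      rw [← h, ← sup_assoc, sup_eq_left.2 Subgroup.le_normalizer]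
    intro y
    have : y ∈ A ⊔ Subgroup.normalizer ((P : Subgroup N) : Set N) := by
      rw [sup_comm, htop]; exact Subgroup.mem_top y
    rw [Subgroup.mem_sup_of_normal_left] at this
    obtain ⟨a, ha, u, hu, he⟩ := this
    exact ⟨a, ha, u, hu, he.symm⟩
  · rw [eq_bot_iff]
    rintro a ⟨haA, haU⟩
    have h1 : ⁅x, a⁆ ∈ A := by
      rw [commutatorElement_def]
      exact mul_mem ((inferInstance : A.Normal).conj_mem a haA x) (inv_mem haA)
    have h2 : ⁅x, a⁆ ∈ (P : Subgroup N) := by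
      rw [commutatorElement_def, mul_assoc, mul_assoc]
      refine mul_mem hxP ?_
      have := (Subgroup.mem_normalizer_iff.1 haU x⁻¹).1 (inv_mem hxP)
      simpa [mul_assoc] using this
    have h3 : ⁅x, a⁆ = 1 := by
      obtain ⟨k, hk⟩ := P.isPGroup' ⟨_, h2⟩
      by_contra h
      obtain ⟨i, -, hi⟩ := (Nat.dvd_prime_pow hG.prime).1
        (orderOf_dvd_of_pow_eq_one (congrArg Subtype.val hk : (⁅x, a⁆) ^ p ^ k = 1))
      rcases Nat.eq_zero_or_pos i with rfl | hi0
      · exact h (orderOf_eq_one_iff.1 (by simpa using hi))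
      · exact not_dvd_orderOf hpA h1 (hi ▸ dvd_pow_self p hi0.ne')
    exact hG.cent_rel ⊥ (hG.moved hxK) (hA haA) (h3 ▸ one_mem _)
      (coprime_of_pelt hG.prime ⟨k, hxk⟩ (not_dvd_orderOf hpA haA))

/-- The stabilisers of the nontrivial characters of an abelian section. -/
theorem Good.orbits (hG : Good p f g n0 K) (A M : Subgroup N) [A.Normal] [M.Normal]
    (hab : ⁅A, A⁆ ≤ M) (hA : A ≤ commutator N) (hpA : ¬ p ∣ Nat.card A)
    (hNA : ∀ y ∈ commutator N, ∃ k, y ^ p ^ k ∈ A) [Fintype N] [Fintype A]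
    (l : A →* ℂˣ) (hl : ∀ m : A, (m : N) ∈ M → l m = 1) (hl1 : l ≠ 1) :
    St A l ≠ ⊤ ∧ ⁅St A l, St A l⁆ ≤ A ∧
      (∃ θ : IrrCharacter N, charDegree (θ : N → ℂ) = (St A l).index) ∧
      ∀ θ : IrrCharacter N, classInner (fun a : A => (θ : N → ℂ) a) (lf l) ≠ 0 →
        charDegree (θ : N → ℂ) = (St A l).index := by
  obtain ⟨U, x, hx, hxK, hsup, hinf⟩ := hG.complement A hA hpA hNA
  have hT : St A l ≠ ⊤ := fun h => hl1 (eq_one_of_fixed hab x
    (fun a ha hc => hG.cent_rel M (hG.moved hxK) (hA ha) hc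
      (coprime_of_pelt hG.prime hx (not_dvd_orderOf hpA ha))) l hl
    ((mem_St A).1 (h ▸ Subgroup.mem_top x)))
  exact ⟨hT, over_linear hG A U hsup hinf l hT⟩

/-- Abelian top: all stabilisers agree. -/
theorem Good.stab_eq (hG : Good p f g n0 K) (A M : Subgroup N) [A.Normal] [M.Normal]
    (hab : ⁅A, A⁆ ≤ M) (hA : A ≤ commutator N) (hpA : ¬ p ∣ Nat.card A)
    (htop : commutator N ≤ A) (l l' : A →* ℂˣ) (hl : ∀ m : A, (m : N) ∈ M → l m = 1) (hl1 : l ≠ 1)
    (hl' : ∀ m : A, (m : N) ∈ M → l' m = 1) (hl1' : l' ≠ 1) : St A l = St A l' := by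
  classical
  haveI := Fintype.ofFinite N
  haveI := Fintype.ofFinite A
  have hNA : ∀ y ∈ commutator N, ∃ k, y ^ p ^ k ∈ A := fun y hy => ⟨0, by simpa using htop hy⟩
  have hanti : ∀ m m' : A →* ℂˣ, (∀ a : A, (a : N) ∈ M → m a = 1) → m ≠ 1 →
      (∀ a : A, (a : N) ∈ M → m' a = 1) → m' ≠ 1 → St A m ≤ St A m' → St A m = St A m' := by
    intro m m' hm hm1 hm' hm1' hle
    obtain ⟨hT, -, ⟨θ, hθ⟩, -⟩ := hG.orbits A M hab hA hpA hNA m hm hm1
    obtain ⟨hT', -, ⟨θ', hθ'⟩, -⟩ := hG.orbits A M hab hA hpA hNA m' hm' hm1'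
    have hne : charDegree (θ' : N → ℂ) ≠ 1 := by rw [hθ']; exact fun h => hT' (Subgroup.index_eq_one.1 h)
    have := hG.anti θ' θ hne (by rw [hθ, hθ']; exact Subgroup.index_dvd_of_le hle)
    rw [hθ, hθ'] at this
    have h4 : (St A m).relIndex (St A m') = 1 := by
      have h := Subgroup.relIndex_mul_index hle
      rw [this] at h
      exact (mul_eq_right₀ Subgroup.index_ne_zero_of_finite).1 h
    exact le_antisymm hle (Subgroup.relIndex_eq_one.1 h4)
  by_contra hne
  set T1 := St A l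
  set T2 := St A l'
  have hnorm : ∀ m : A →* ℂˣ, ∀ (t : N) (u : N), t ∈ St A m → cj A t (cj A u m) = cj A u m := by
    intro m t u ht
    have hu : u * t * u⁻¹ ∈ St A m := by
      have hc : ⁅u, t⁆ ∈ St A m := le_inertia A (isClassFunction_of_isIrr (isIrrCharacter_linear m))
        (htop (Subgroup.commutator_mem_commutator (Subgroup.mem_top u) (Subgroup.mem_top t)))
      have e : u * t * u⁻¹ = ⁅u, t⁆ * t := by rw [commutatorElement_def]; group
      rw [e]; exact mul_mem hc ht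
    rw [← cj_mul, show u * t = (u * t * u⁻¹) * u by group, cj_mul, (mem_St A).1 hu]
  have htriv : ∀ ν : A →* ℂˣ, (∀ a : A, (a : N) ∈ M → ν a = 1) →
      (∀ t ∈ T1, cj A t ν = ν) → (∀ t ∈ T2, cj A t ν = ν) → ν = 1 := by
    intro ν hν h1 h2
    by_contra hν1
    exact hne ((hanti l ν hl hl1 hν hν1 fun t ht => (mem_St A).2 (h1 t ht)).trans
      (hanti l' ν hl' hl1' hν hν1 fun t ht => (mem_St A).2 (h2 t ht)).symm)
  have hcl : ∀ (u : N) (m : A →* ℂˣ), (∀ a : A, (a : N) ∈ M → m a = 1) →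
      ∀ a : A, (a : N) ∈ M → cj A u m a = 1 := fun u m hm a ha => by
    rw [cj_apply]; exact hm _ ((inferInstance : M.Normal).conj_mem _ ha u)
  have hll : l * l' ≠ 1 := by
    intro h
    have he : l' = l⁻¹ := MonoidHom.ext fun a => by
      rw [MonoidHom.inv_apply]; exact eq_inv_of_mul_eq_one_right (DFunLike.congr_fun h a)
    refine hne (hanti l l' hl hl1 hl' hl1' fun t ht => (mem_St A).2 ?_)
    rw [he, TwoDegPrime.cj_inv, (mem_St A).1 ht]
  have hllM : ∀ a : A, (a : N) ∈ M → (l * l') a = 1 := fun a ha => by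
    rw [MonoidHom.mul_apply, hl a ha, hl' a ha, one_mul]
  have hle : St A (l * l') ≤ T1 ⊓ T2 := by
    intro u hu
    have h0 := (mem_St A).1 hu
    rw [cj_prod] at h0
    have hν : cj A u l * l⁻¹ = 1 := by
      refine htriv _ (fun a ha => by
        rw [MonoidHom.mul_apply, MonoidHom.inv_apply, hcl u l hl a ha, hl a ha, inv_one, one_mul])
        (fun t ht => ?_) (fun t ht => ?_)
      · rw [cj_prod, TwoDegPrime.cj_inv, hnorm l t u ht, (mem_St A).1 ht]
      · have e : cj A u l * l⁻¹ = l' * (cj A u l')⁻¹ := by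
          refine MonoidHom.ext fun a => ?_
          have := DFunLike.congr_fun h0 a
          simp only [MonoidHom.mul_apply, MonoidHom.inv_apply] at this ⊢
          rw [← div_eq_mul_inv, ← div_eq_mul_inv, div_eq_div_iff_mul_eq_mul, this, mul_comm]
        rw [e, cj_prod, TwoDegPrime.cj_inv, hnorm l' t u ht, (mem_St A).1 ht]
    have h1 : cj A u l = l := mul_inv_eq_one.1 hν
    rw [h1] at h0
    exact ⟨(mem_St A).2 h1, (mem_St A).2 (mul_left_cancel h0)⟩
  have h1 := hanti (l * l') l hllM hll hl hl1 (hle.trans inf_le_left)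
  have h2 := hanti (l * l') l' hllM hll hl' hl1' (hle.trans inf_le_right)
  exact hne (h1.symm.trans h2)

/-- An abelian `p'`-subgroup with `p`-group derived quotient: one degree. -/
theorem Good.single_of_abelian (hG : Good p f g n0 K) (A : Subgroup N) [A.Normal]
    (hab : ⁅A, A⁆ ≤ ⊥) (hA : A ≤ commutator N) (hpA : ¬ p ∣ Nat.card A)
    (hNA : ∀ y ∈ commutator N, ∃ k, y ^ p ^ k ∈ A) : Single N := by
  classical
  haveI := Fintype.ofFinite N
  haveI := Fintype.ofFinite A
  intro θ θ' hθ hθ'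
  have hcase : ∀ θ : IrrCharacter N, charDegree (θ : N → ℂ) ≠ 1 →
      ((∀ a ∈ A, (θ : N → ℂ) a = (θ : N → ℂ) 1) ∧ ¬ commutator N ≤ A) ∨
      ∃ l : A →* ℂˣ, l ≠ 1 ∧ charDegree (θ : N → ℂ) = (St A l).index ∧ ⁅St A l, St A l⁆ ≤ A := by
    intro θ hθ
    obtain ⟨ψ, hψ⟩ := exists_constituent (isCharacter_restrict (isCharacter_of_isIrr θ.2) A)
      (fun h => irr_degree_ne_zero θ.2 (congrFun h 1))
    obtain ⟨l, hl⟩ := exists_hom_of_degree_one (isCharacter_of_isIrr ψ.2)
      ((Cfsg.Agent.S0187.result (G := A)).1 (fun a b => Subtype.ext (by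
        have := hab (Subgroup.commutator_mem_commutator a.2 b.2)
        rw [Subgroup.mem_bot] at this
        exact commutatorElement_eq_one_iff_mul_comm.1 this)) ψ)
    rw [show (ψ : A → ℂ) = lf l from funext hl] at hψ
    by_cases hl1 : l = 1
    · left
      subst hl1
      have hker : ∀ a ∈ A, (θ : N → ℂ) a = (θ : N → ℂ) 1 := by
        intro a ha
        have hc := clifford A θ.2 (isIrrCharacter_linear (1 : A →* ℂˣ)) hψ
        have h1 := congrFun hc ⟨a, ha⟩
        have h2 := congrFun hc 1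
        simp only [Pi.smul_apply, Finset.sum_apply, Subgroup.coe_one] at h1 h2
        rw [h1, h2]
        refine congrArg _ (Finset.sum_congr rfl fun φ hφ => ?_)
        obtain ⟨x, rfl⟩ := (mem_orbit A).1 hφ
        simp [conjChar_apply]
      refine ⟨hker, fun htop => hθ ?_⟩
      obtain ⟨i, hi⟩ := (hG.quot_facts A hNA).2 θ hker
      obtain ⟨μ, hμ⟩ := (inflateEquiv A).surjective ⟨θ, hker⟩
      haveI := Fintype.ofFinite (N ⧸ A)
      have := ThreeDeg.deg_inflate A μ
      rw [hμ] at this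
      rw [this]
      refine charDegree_eq_of_apply_one ?_
      rw [(Cfsg.Agent.S0187.result).1 (fun u v => ?_) μ, Nat.cast_one]
      obtain ⟨u, rfl⟩ := QuotientGroup.mk_surjective u
      obtain ⟨v, rfl⟩ := QuotientGroup.mk_surjective v
      rw [← QuotientGroup.mk_mul, ← QuotientGroup.mk_mul, QuotientGroup.eq]
      refine htop ?_
      have : (u * v)⁻¹ * (v * u) = ⁅v⁻¹, u⁻¹⁆ := by rw [commutatorElement_def]; group
      rw [this]
      exact Subgroup.commutator_mem_commutator (Subgroup.mem_top _) (Subgroup.mem_top _)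
    · obtain ⟨-, hT, -, hdeg⟩ := hG.orbits A ⊥ hab hA hpA hNA l (fun m hm => by
        rw [Subgroup.mem_bot] at hm; rw [show m = 1 from Subtype.ext hm, map_one]) hl1
      exact Or.inr ⟨l, hl1, hdeg θ hψ, hT⟩
  by_cases htop : commutator N ≤ A
  · obtain ⟨l, hl, h1, -⟩ := (hcase θ hθ).resolve_left fun h => h.2 htop
    obtain ⟨l', hl', h2, -⟩ := (hcase θ' hθ').resolve_left fun h => h.2 htop
    have hM : ∀ (l : A →* ℂˣ) (m : A), (m : N) ∈ (⊥ : Subgroup N) → l m = 1 := fun l m hm => by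
      rw [Subgroup.mem_bot] at hm; rw [show m = 1 from Subtype.ext hm, map_one]
    rw [h1, h2, hG.stab_eq A ⊥ hab hA hpA htop l l' (hM l) hl (hM l') hl']
  -- a nonlinear character of the quotient
  haveI := Fintype.ofFinite (N ⧸ A)
  obtain ⟨θ₀, hθ₀, h0⟩ : ∃ θ₀ : IrrCharacter N, (∀ a ∈ A, (θ₀ : N → ℂ) a = (θ₀ : N → ℂ) 1) ∧
      charDegree (θ₀ : N → ℂ) ≠ 1 := by
    by_contra h
    push Not at h
    refine htop ?_
    have hc := ThreeDeg.comm_of_all_one (G := N ⧸ A) fun μ => by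
      rw [← ThreeDeg.deg_inflate A μ]; exact h _ (inflateEquiv A μ).2
    rw [commutator_def, Subgroup.commutator_le]
    intro x _ y _
    rw [← QuotientGroup.eq_one_iff, ← QuotientGroup.mk'_apply, map_commutatorElement,
      commutatorElement_eq_one_iff_mul_comm]
    exact hc _ _
  have hall : ∀ θ : IrrCharacter N, charDegree (θ : N → ℂ) ≠ 1 →
      charDegree (θ : N → ℂ) = charDegree (θ₀ : N → ℂ) := by
    intro θ hθ
    rcases hcase θ hθ with ⟨hker, -⟩ | ⟨l, -, hdeg, hT⟩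
    · obtain ⟨i, hi⟩ := (hG.quot_facts A hNA).2 θ hker
      obtain ⟨j, hj⟩ := (hG.quot_facts A hNA).2 θ₀ hθ₀
      rcases le_total i j with h | h
      · exact hG.anti θ θ₀ hθ (by rw [hi, hj]; exact Nat.pow_dvd_pow p h)
      · exact (hG.anti θ₀ θ h0 (by rw [hi, hj]; exact Nat.pow_dvd_pow p h)).symm
    · exact (hG.anti θ₀ θ h0 (hdeg ▸ (hG.pdeg A hNA θ₀ hθ₀ _ hT).1)).symm
  rw [hall θ hθ, hall θ' hθ']

end Cfsg.Agent.Lib.Char.Disconn
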