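import Cfsg.Agent.Lib.Char.Disconn.Section
import Cfsg.Agent.Lib.Coprime.Abelian

/-!
# Invariant subgroups
-/

set_option autoImplicit false
set_option linter.unusedSectionVars false
set_option linter.style.haveILetI false

namespace Cfsg.Agent.Lib.Char.Disconn

open Cfsg Cfsg.Agent.Lib Cfsg.Agent.Lib.Char
open Cfsg.Agent.Lib.Char.TwoDegPrime (lf lf_inj cj lf_cj cj_apply cj_mul cj_one St mem_St)
open scoped commutatorElement

universe u

variable {N : Type u} [Group N] [Finite N]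

/-- Invariant normal subgroup. -/
def GInv (g : N ≃* N) (H : Subgroup N) : Prop := ∀ x ∈ H, g x ∈ H

theorem ginv_map_eq {g : N ≃* N} {H : Subgroup N} (h : GInv g H) : H.map g.toMonoidHom = H := by
  refine Subgroup.eq_of_le_of_card_ge (fun _ ⟨x, hx, he⟩ => he ▸ h x hx) ?_
  rw [← Nat.card_congr (Subgroup.equivMapOfInjective H g.toMonoidHom g.injective).toEquiv]

theorem ginv_surj {g : N ≃* N} {H : Subgroup N} (h : GInv g H) {y : N} (hy : y ∈ H) :
    ∃ x ∈ H, g x = y := by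
  rw [← ginv_map_eq h] at hy
  exact hy

theorem ginv_commutator (g : N ≃* N) : GInv g (commutator N) := fun x hx => by
  have := map_derivedSeries_eq (f := g.toMonoidHom) g.surjective 1
  rw [derivedSeries_one] at this
  rw [← this]; exact ⟨x, hx, rfl⟩

theorem ginv_comm (g : N ≃* N) {H L : Subgroup N} (hH : GInv g H) (hL : GInv g L) : GInv g ⁅H, L⁆ := by
  intro x hx
  have : (⁅H, L⁆).map g.toMonoidHom = ⁅H, L⁆ := by
    rw [Subgroup.map_commutator, ginv_map_eq hH, ginv_map_eq hL]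
  rw [← this]; exact ⟨x, hx, rfl⟩

theorem ginv_centralizer {g : N ≃* N} {H : Subgroup N} (h : GInv g H) :
    GInv g (Subgroup.centralizer (H : Set N)) := by
  intro x hx
  rw [Subgroup.mem_centralizer_iff] at hx ⊢
  intro y hy
  obtain ⟨z, hz, rfl⟩ := ginv_surj h hy
  rw [← map_mul, ← map_mul, hx z hz]

theorem ginv_inf {g : N ≃* N} {H L : Subgroup N} (hH : GInv g H) (hL : GInv g L) : GInv g (H ⊓ L) :=
  fun x hx => ⟨hH x hx.1, hL x hx.2⟩

/-- Elements of `D` having a power of exponent in `S` in `M`. -/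
def pre (D M : Subgroup N) [M.Normal] (hD : ⁅D, D⁆ ≤ M) (S : ℕ → Prop) (h1 : S 1)
    (hmul : ∀ a b, S a → S b → S (a * b)) : Subgroup N where
  carrier := {y | y ∈ D ∧ ∃ m, S m ∧ y ^ m ∈ M}
  one_mem' := ⟨one_mem D, 1, h1, by simp⟩
  inv_mem' := fun {y} ⟨hy, m, hm, hym⟩ => ⟨inv_mem hy, m, hm, by rw [inv_pow]; exact inv_mem hym⟩
  mul_mem' := fun {y z} ⟨hy, m, hm, hym⟩ ⟨hz, n, hn, hzn⟩ => by
    refine ⟨mul_mem hy hz, m * n, hmul m n hm hn, (QuotientGroup.eq_one_iff _).1 ?_⟩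
    have hc : Commute (QuotientGroup.mk' M y) (QuotientGroup.mk' M z) := by
      show _ = _
      rw [← commutatorElement_eq_one_iff_mul_comm, ← map_commutatorElement]
      exact (QuotientGroup.eq_one_iff _).2 (hD (Subgroup.commutator_mem_commutator hy hz))
    show QuotientGroup.mk' M ((y * z) ^ (m * n)) = 1
    have e1 : QuotientGroup.mk' M y ^ m = 1 := by
      rw [← map_pow]; exact (QuotientGroup.eq_one_iff _).2 hym
    have e2 : QuotientGroup.mk' M z ^ n = 1 := by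
      rw [← map_pow]; exact (QuotientGroup.eq_one_iff _).2 hzn
    rw [map_pow, map_mul, hc.mul_pow, pow_mul, e1, one_pow, one_mul, mul_comm m n, pow_mul, e2, one_pow]

theorem pre_normal {D M : Subgroup N} [M.Normal] [D.Normal] {hD : ⁅D, D⁆ ≤ M} {S : ℕ → Prop} {h1 : S 1}
    {hmul : ∀ a b, S a → S b → S (a * b)} : (pre D M hD S h1 hmul).Normal :=
  ⟨fun y ⟨hy, m, hm, hym⟩ c => ⟨(inferInstance : D.Normal).conj_mem y hy c, m, hm, by
    rw [conj_pow]; exact (inferInstance : M.Normal).conj_mem _ hym c⟩⟩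

theorem pre_ginv {D M : Subgroup N} [M.Normal] {hD : ⁅D, D⁆ ≤ M} {S : ℕ → Prop} {h1 : S 1}
    {hmul : ∀ a b, S a → S b → S (a * b)} {g : N ≃* N} (hgD : GInv g D) (hgM : GInv g M) :
    GInv g (pre D M hD S h1 hmul) :=
  fun y ⟨hy, m, hm, hym⟩ => ⟨hgD y hy, m, hm, by rw [← map_pow]; exact hgM _ hym⟩

/-- A minimal invariant normal subgroup inside the derived group. -/
structure IsMin (g : N ≃* N) (M : Subgroup N) : Prop where
  normal : M.Normal
  ginv : GInv g M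
  ne_bot : M ≠ ⊥
  le : M ≤ commutator N
  min : ∀ H : Subgroup N, H.Normal → GInv g H → H ≤ M → H ≠ ⊥ → H = M

theorem exists_min (g : N ≃* N) {H : Subgroup N} (hn : H.Normal) (hg : GInv g H) (hne : H ≠ ⊥)
    (hle : H ≤ commutator N) : ∃ M, IsMin g M ∧ M ≤ H := by
  obtain ⟨M, ⟨hMn, hMg, hMne, hMle⟩, hmin⟩ :=
    (Set.toFinite {L : Subgroup N | L.Normal ∧ GInv g L ∧ L ≠ ⊥ ∧ L ≤ H}).exists_minimal
      ⟨H, hn, hg, hne, le_rfl⟩
  exact ⟨M, ⟨hMn, hMg, hMne, hMle.trans hle, fun L h1 h2 h3 h4 =>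
    le_antisymm h3 (hmin ⟨h1, h2, h4, h3.trans hMle⟩ h3)⟩, hMle⟩

theorem IsMin.elementary {g : N ≃* N} {M : Subgroup N} (hM : IsMin g M) [Group.IsSolvable N] :
    ⁅M, M⁆ = ⊥ ∧ ∃ s, s.Prime ∧ IsPGroup s M := by
  haveI := hM.normal
  have hab : ⁅M, M⁆ = ⊥ := by
    by_contra h
    have he := hM.min ⁅M, M⁆ inferInstance (ginv_comm g hM.ginv hM.ginv) (Subgroup.commutator_le_left M M) h
    have := Group.IsSolvable.commutator_lt_of_ne_bot hM.ne_bot
    exact this.ne he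
  refine ⟨hab, ?_⟩
  obtain ⟨s, hs, hsd⟩ := Nat.exists_prime_and_dvd (show Nat.card M ≠ 1 from fun h => hM.ne_bot (Subgroup.card_eq_one.1 h))
  haveI := Fact.mk hs
  refine ⟨s, hs, ?_⟩
  haveI hbn : (⊥ : Subgroup N).Normal := inferInstance
  set M1 := pre M ⊥ hab.le (fun m => ∃ k, m = s ^ k) ⟨0, rfl⟩
    (fun a b ⟨i, hi⟩ ⟨j, hj⟩ => ⟨i + j, by rw [hi, hj, pow_add]⟩) with hM1
  obtain ⟨x, hx⟩ := exists_prime_orderOf_dvd_card' (G := M) s hsd
  have hxM : (x : N) ∈ M1 := ⟨x.2, s, ⟨1, (pow_one s).symm⟩, by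
    rw [Subgroup.mem_bot, ← Subgroup.coe_pow, ← hx, pow_orderOf_eq_one, Subgroup.coe_one]⟩
  have he : M1 = M := hM.min M1 pre_normal (pre_ginv hM.ginv (fun y hy => by
    rw [Subgroup.mem_bot] at hy ⊢; rw [hy, map_one])) (fun y hy => hy.1) fun h => by
      rw [h, Subgroup.mem_bot] at hxM
      exact hs.ne_one (hx.symm.trans (orderOf_eq_one_iff.2 (Subtype.ext hxM)))
  rintro ⟨y, hy⟩
  rw [← he] at hy
  obtain ⟨-, m, ⟨k, rfl⟩, hyk⟩ := hy
  exact ⟨k, Subtype.ext (by simpa using hyk)⟩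

/-- Splitting over a normal subgroup of coprime order. -/
theorem split {q : ℕ} [hq : Fact q.Prime] (A M : Subgroup N) [A.Normal] [M.Normal] (hMA : M ≤ A)
    (hab : ⁅M, M⁆ = ⊥) (hqM : ¬ q ∣ Nat.card M) (hAM : ∀ a ∈ A, ∃ k, a ^ q ^ k ∈ M) :
    ∃ R : Subgroup N, IsPGroup q R ∧ R ≤ A ∧ M ⊓ R = ⊥ ∧ (∀ a ∈ A, ∃ m ∈ M, ∃ r ∈ R, a = m * r) ∧
      (∀ y : N, ∃ m ∈ M, ∃ u ∈ Subgroup.normalizer (R : Set N), y = m * u) ∧
      M ⊓ Subgroup.normalizer (R : Set N) ≤ Subgroup.centralizer (A : Set N) := by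
  classical
  let Q : Sylow q A := default
  haveI : (M.subgroupOf A).Normal := ‹M.Normal›.subgroupOf A
  set R := (Q : Subgroup A).map A.subtype with hR
  have hRp : IsPGroup q R := Q.isPGroup'.map _
  have hRA : R ≤ A := Subgroup.map_subtype_le _
  have hMR : M ⊓ R = ⊥ := by
    rw [eq_bot_iff]
    rintro y ⟨hyM, hyR⟩
    obtain ⟨k, hk⟩ := hRp ⟨y, hyR⟩
    have hk' : y ^ q ^ k = 1 := congrArg Subtype.val hk
    obtain ⟨i, -, hi⟩ := (Nat.dvd_prime_pow hq.out).1 (orderOf_dvd_of_pow_eq_one hk')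
    rcases Nat.eq_zero_or_pos i with rfl | hi0
    · rw [Subgroup.mem_bot]; exact orderOf_eq_one_iff.1 (by simpa using hi)
    · exact absurd (hi ▸ dvd_pow_self q hi0.ne') (not_dvd_orderOf hqM hyM)
  have hA : ∀ a ∈ A, ∃ m ∈ M, ∃ r ∈ R, a = m * r := by
    intro a ha
    have hQt : IsPGroup q (A ⧸ M.subgroupOf A) := fun y => by
      obtain ⟨⟨y, hy⟩, rfl⟩ := QuotientGroup.mk_surjective y
      obtain ⟨k, hk⟩ := hAM y hy
      refine ⟨k, ?_⟩
      rw [← QuotientGroup.mk_pow, QuotientGroup.eq_one_iff, Subgroup.mem_subgroupOf]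
      exact hk
    have htop : ((Q : Subgroup A).map (QuotientGroup.mk' (M.subgroupOf A))) = ⊤ := by
      let Q' : Sylow q (A ⧸ M.subgroupOf A) := Q.mapSurjective (QuotientGroup.mk'_surjective _)
      exact (Q'.is_maximal' (hQt.to_subgroup ⊤) le_top).symm
    obtain ⟨r, hr, he⟩ : (QuotientGroup.mk' (M.subgroupOf A)) ⟨a, ha⟩ ∈
        (Q : Subgroup A).map (QuotientGroup.mk' (M.subgroupOf A)) := htop ▸ Subgroup.mem_top _
    have h1 : r⁻¹ * ⟨a, ha⟩ ∈ M.subgroupOf A := QuotientGroup.eq.1 he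
    rw [Subgroup.mem_subgroupOf] at h1
    push_cast at h1
    refine ⟨(r : N) * ((r : N)⁻¹ * a) * (r : N)⁻¹, ‹M.Normal›.conj_mem _ h1 _, r, ⟨r, hr, rfl⟩, ?_⟩
    group
  refine ⟨R, hRp, hRA, hMR, hA, fun y => ?_, ?_⟩
  · have hs : y ∈ Subgroup.normalizer (R : Set N) ⊔ A := by
      rw [hR, Sylow.normalizer_sup_eq_top Q]; exact Subgroup.mem_top y
    rw [Subgroup.mem_sup_of_normal_right] at hs
    obtain ⟨u, hu, a, ha, rfl⟩ := hs
    obtain ⟨m, hm, r, hr, rfl⟩ := hA a ha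
    exact ⟨u * m * u⁻¹, ‹M.Normal›.conj_mem m hm u, u * r,
      mul_mem hu (Subgroup.le_normalizer hr), by group⟩
  · rintro m ⟨hmM, hmN⟩
    rw [Subgroup.mem_centralizer_iff]
    intro a ha
    obtain ⟨m', hm', r, hr, rfl⟩ := hA a ha
    have h1 : ⁅m, r⁆ ∈ M ⊓ R := by
      rw [commutatorElement_def]
      refine ⟨?_, R.mul_mem ((Subgroup.mem_normalizer_iff.1 hmN r).1 hr) (R.inv_mem hr)⟩
      rw [mul_assoc, mul_assoc]
      refine mul_mem hmM ?_
      have := ‹M.Normal›.conj_mem _ (inv_mem hmM) r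
      simpa [mul_assoc] using this
    rw [hMR, Subgroup.mem_bot, commutatorElement_eq_one_iff_mul_comm] at h1
    have h2 : m' * m = m * m' := by
      have := hab.le (Subgroup.commutator_mem_commutator hm' hmM)
      rw [Subgroup.mem_bot, commutatorElement_eq_one_iff_mul_comm] at this
      exact this
    rw [mul_assoc, ← h1, ← mul_assoc, h2, mul_assoc]

/-- A character killing `[M, R]`, when `R` fixes nothing of `M`, is trivial. -/
theorem eq_one_of_coprime_fixed (M R : Subgroup N) [M.Normal] (hab : ⁅M, M⁆ = ⊥)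
    (hco : (Nat.card R).Coprime (Nat.card M)) (hC : M ⊓ Subgroup.centralizer (R : Set N) = ⊥)
    (l : M →* ℂˣ) (hfix : ∀ r ∈ R, cj M r l = l) : l = 1 := by
  have hRM : R ≤ Subgroup.normalizer (M : Set N) := by rw [Subgroup.normalizer_eq_top]; exact le_top
  have h := Coprime.commutator_sup_centralizer (A := R) (K := M) hRM hco
    (Or.inr (Group.isSolvable_of_comm fun a b => Subtype.ext (by
      have := hab.le (Subgroup.commutator_mem_commutator a.2 b.2)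
      rw [Subgroup.mem_bot, commutatorElement_eq_one_iff_mul_comm] at this
      exact this)))
  rw [hC, sup_bot_eq] at h
  have hker : ⁅M, R⁆ ≤ l.ker.map M.subtype := by
    rw [Subgroup.commutator_le]
    intro m hm r hr
    refine ⟨⟨m, hm⟩ * ⟨r * m⁻¹ * r⁻¹, ‹M.Normal›.conj_mem _ (inv_mem hm) r⟩, ?_, by
      simp [commutatorElement_def, mul_assoc]⟩
    show _ ∈ l.ker
    rw [MonoidHom.mem_ker, map_mul, show (⟨r * m⁻¹ * r⁻¹, ‹M.Normal›.conj_mem _ (inv_mem hm) r⟩ : M) =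
      ⟨r * ((⟨m, hm⟩ : M)⁻¹ : M) * r⁻¹, ‹M.Normal›.conj_mem _ ((⟨m, hm⟩ : M)⁻¹).2 r⟩ from rfl,
      ← cj_apply M r l ((⟨m, hm⟩ : M)⁻¹), hfix r hr, map_inv, mul_inv_cancel]
  rw [h] at hker
  refine MonoidHom.ext fun m => ?_
  obtain ⟨m', hm', he⟩ := hker m.2
  rw [← Subtype.ext (he : (m' : N) = m)]
  exact hm'

theorem mem_of_ordCompl {H : Subgroup N} [H.Normal] {y : N} (hy : y ∉ H) :
    ∃ r, r.Prime ∧ y ^ ordCompl[r] (orderOf y) ∉ H := by
  have hne : orderOf (y : N ⧸ H) ≠ 1 := fun h => hy ((QuotientGroup.eq_one_iff y).1 (orderOf_eq_one_iff.1 h))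
  obtain ⟨r, hr, hrd⟩ := Nat.exists_prime_and_dvd hne
  refine ⟨r, hr, fun h => Nat.not_dvd_ordCompl hr (orderOf_pos y).ne' (hrd.trans ?_)⟩
  refine orderOf_dvd_of_pow_eq_one ?_
  rw [← QuotientGroup.mk_pow]
  exact (QuotientGroup.eq_one_iff _).2 h

end Cfsg.Agent.Lib.Char.Disconn
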